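import Mathlib

/-! Bit mask linear algebra over the field with two elements: `act cs n` is the xor of the columns `cs` at the bits of
`n`, `ev vs n` is the sum of the vectors `vs` at the bits of `n`. -/

set_option autoImplicit false

namespace Cfsg.Agent.H288.L34

/-- xor of the columns of `cs` at the bits of `n`. -/
def act : List ℕ → ℕ → ℕ
  | [], _ => 0
  | c :: cs, n => (cond ((n % 2).beq 1) c 0) ^^^ act cs (n / 2)

/-- sum of the vectors of `vs` at the bits of `n`. -/
def ev {V : Type*} [AddCommGroup V] : List V → ℕ → V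
  | [], _ => 0
  | v :: vs, n => (cond ((n % 2).beq 1) v 0) + ev vs (n / 2)

theorem act_nil (n : ℕ) : act [] n = 0 := rfl

theorem act_cons (c : ℕ) (cs : List ℕ) (n : ℕ) : act (c :: cs) n = (cond ((n % 2).beq 1) c 0) ^^^ act cs (n / 2) := rfl

theorem ev_cons {V : Type*} [AddCommGroup V] (v : V) (vs : List V) (n : ℕ) :
    ev (v :: vs) n = (cond ((n % 2).beq 1) v 0) + ev vs (n / 2) := rfl

theorem act_zero (cs : List ℕ) : act cs 0 = 0 := by
  induction cs with
  | nil => rfl
  | cons c cs ih =>
    have h : ((0 : ℕ) % 2).beq 1 = false := rfl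
    rw [act_cons, Nat.zero_div, ih, h]; simp

theorem ev_zero {V : Type*} [AddCommGroup V] (vs : List V) : ev vs 0 = 0 := by
  induction vs with
  | nil => rfl
  | cons c cs ih =>
    have h : ((0 : ℕ) % 2).beq 1 = false := rfl
    rw [ev_cons, Nat.zero_div, ih, h]; simp

theorem xor_div (n m : ℕ) : (n ^^^ m) / 2 = n / 2 ^^^ m / 2 := by
  have h := Nat.shiftRight_xor_distrib (a := n) (b := m) (i := 1)
  simpa [Nat.shiftRight_eq_div_pow] using h

theorem xor_mod (n m : ℕ) : (n ^^^ m) % 2 = (n + m) % 2 := by
  have h := Nat.xor_mod_two_eq (m := n) (n := m)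
  exact h

theorem beq_cases (n : ℕ) : ((n % 2).beq 1 = true ∧ n % 2 = 1) ∨ ((n % 2).beq 1 = false ∧ n % 2 = 0) := by
  rcases Nat.mod_two_eq_zero_or_one n with h | h
  · right; rw [h]; exact ⟨rfl, rfl⟩
  · left; rw [h]; exact ⟨rfl, rfl⟩

theorem xor_beq (n m : ℕ) : ((n ^^^ m) % 2).beq 1 = xor ((n % 2).beq 1) ((m % 2).beq 1) := by
  rw [xor_mod, Nat.add_mod]
  rcases Nat.mod_two_eq_zero_or_one n with h | h <;> rcases Nat.mod_two_eq_zero_or_one m with h' | h' <;>
    rw [h, h'] <;> rfl

theorem ev_xor {V : Type*} [AddCommGroup V] (hV : ∀ v : V, v + v = 0) (vs : List V) (n m : ℕ) :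
    ev vs (n ^^^ m) = ev vs n + ev vs m := by
  induction vs generalizing n m with
  | nil => simp [ev]
  | cons v vs ih =>
    rw [ev_cons, ev_cons, ev_cons, xor_div, ih, xor_beq]
    cases (n % 2).beq 1 <;> cases (m % 2).beq 1 <;> simp only [Bool.xor_self, Bool.xor_false, Bool.xor_true,
      Bool.not_false, cond_true, cond_false]
    · abel
    · abel
    · abel
    · have := hV v
      calc 0 + (ev vs (n / 2) + ev vs (m / 2)) = (v + v) + (ev vs (n / 2) + ev vs (m / 2)) := by rw [this]
        _ = _ := by abel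

theorem act_xor (cs : List ℕ) (n m : ℕ) : act cs (n ^^^ m) = act cs n ^^^ act cs m := by
  induction cs generalizing n m with
  | nil => simp [act]
  | cons c cs ih =>
    rw [act_cons, act_cons, act_cons, xor_div, ih, xor_beq]
    have key : ∀ a b : ℕ, ∀ p q : ℕ, (a ^^^ p) ^^^ (b ^^^ q) = (a ^^^ b) ^^^ (p ^^^ q) := by
      intro a b p q
      apply Nat.eq_of_testBit_eq; intro i
      simp only [Nat.testBit_xor]
      cases a.testBit i <;> cases b.testBit i <;> cases p.testBit i <;> cases q.testBit i <;> rfl
    rw [key]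
    congr 1
    cases (n % 2).beq 1 <;> cases (m % 2).beq 1 <;> simp

/-- applying a linear map given by columns to a combination. -/
theorem act_act (cs ds : List ℕ) (n : ℕ) : act cs (act ds n) = act (ds.map (act cs)) n := by
  induction ds generalizing n with
  | nil => rw [act_nil, act_zero]; rfl
  | cons d ds ih =>
    rw [act_cons, act_xor, ih, List.map_cons, act_cons]
    congr 1
    cases (n % 2).beq 1 <;> simp [act_zero]

theorem ev_map_ev {V : Type*} [AddCommGroup V] (hV : ∀ v : V, v + v = 0) (vs : List V) (ds : List ℕ) (n : ℕ) :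
    ev (ds.map (ev vs)) n = ev vs (act ds n) := by
  induction ds generalizing n with
  | nil => rw [act_nil, ev_zero]; rfl
  | cons d ds ih =>
    rw [List.map_cons, ev_cons, act_cons, ev_xor hV, ih]
    congr 1
    cases (n % 2).beq 1 <;> simp [ev_zero]

theorem map_ev {V W : Type*} [AddCommGroup V] [AddCommGroup W] (f : V →+ W) (vs : List V) (n : ℕ) :
    f (ev vs n) = ev (vs.map f) n := by
  induction vs generalizing n with
  | nil => exact map_zero f
  | cons v vs ih =>
    rw [List.map_cons, ev_cons, ev_cons, map_add, ih]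
    congr 1
    cases (n % 2).beq 1 <;> simp

theorem act_zip (cs ds : List ℕ) (h : cs.length = ds.length) (n : ℕ) :
    act (List.zipWith (· ^^^ ·) cs ds) n = act cs n ^^^ act ds n := by
  induction cs generalizing ds n with
  | nil =>
    cases ds with
    | nil => simp [act]
    | cons d ds => simp at h
  | cons c cs ih =>
    cases ds with
    | nil => simp at h
    | cons d ds =>
      rw [List.zipWith_cons_cons, act_cons, act_cons, act_cons, ih ds (by simpa using h)]
      have key : ∀ a b : ℕ, ∀ p q : ℕ, (a ^^^ p) ^^^ (b ^^^ q) = (a ^^^ b) ^^^ (p ^^^ q) := by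
        intro a b p q
        apply Nat.eq_of_testBit_eq; intro i
        simp only [Nat.testBit_xor]
        cases a.testBit i <;> cases b.testBit i <;> cases p.testBit i <;> cases q.testBit i <;> rfl
      rw [key]
      congr 1
      cases (n % 2).beq 1 <;> simp

/-- all entries below `2 ^ s`, `2 ^ (s+1)`, ... -/
def triOK : List ℕ → ℕ → Bool
  | [], _ => true
  | c :: cs, s => (c.ble (2 ^ s - 1)) && triOK cs (s + 1)

theorem act_tri (cs : List ℕ) (s t n : ℕ) (h : triOK cs s = true) (hn : n < 2 ^ (t + 1)) :
    act cs n < 2 ^ (t + s) := by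
  induction cs generalizing s t n with
  | nil => exact Nat.two_pow_pos _
  | cons c cs ih =>
    rw [triOK, Bool.and_eq_true] at h
    obtain ⟨h1, h2⟩ := h
    have hc : c < 2 ^ s := by
      have := Nat.le_of_ble_eq_true h1
      have := Nat.two_pow_pos s
      omega
    rw [act_cons]
    have hc' : cond ((n % 2).beq 1) c 0 < 2 ^ (t + s) := by
      have : (2 : ℕ) ^ s ≤ 2 ^ (t + s) := Nat.pow_le_pow_right (by norm_num) (by omega)
      cases (n % 2).beq 1
      · exact Nat.two_pow_pos _
      · exact lt_of_lt_of_le hc this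
    refine Nat.xor_lt_two_pow hc' ?_
    cases t with
    | zero =>
      have : n / 2 = 0 := by
        have : n < 2 := by simpa using hn
        omega
      rw [this, act_zero]; exact Nat.two_pow_pos _
    | succ t =>
      have h3 : n / 2 < 2 ^ (t + 1) := by
        have : 2 ^ (t + 1 + 1) = 2 * 2 ^ (t + 1) := by ring
        omega
      have := ih (s + 1) t (n / 2) h2 h3
      have e : t + (s + 1) = t + 1 + s := by ring
      rw [e] at this; exact this

/-- all entries below `2 ^ s`. -/
def ltOK : List ℕ → ℕ → Bool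
  | [], _ => true
  | c :: cs, s => (c.ble (2 ^ s - 1)) && ltOK cs s

theorem act_lt (cs : List ℕ) (s n : ℕ) (h : ltOK cs s = true) : act cs n < 2 ^ s := by
  induction cs generalizing n with
  | nil => exact Nat.two_pow_pos _
  | cons c cs ih =>
    rw [ltOK, Bool.and_eq_true] at h
    obtain ⟨h1, h2⟩ := h
    have hc : c < 2 ^ s := by
      have := Nat.le_of_ble_eq_true h1
      have := Nat.two_pow_pos s
      omega
    rw [act_cons]
    refine Nat.xor_lt_two_pow ?_ (ih _ h2)
    cases (n % 2).beq 1
    · exact Nat.two_pow_pos _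
    · exact hc

/-- the list `2^s, 2^(s+1), ..., 2^(s+k-1)`. -/
def pows : ℕ → ℕ → List ℕ
  | 0, _ => []
  | k + 1, s => 2 ^ s :: pows k (s + 1)

theorem act_pows (k s n : ℕ) (h : n < 2 ^ k) : act (pows k s) n = n * 2 ^ s := by
  induction k generalizing s n with
  | zero =>
    have : n = 0 := by simpa using h
    subst this; simp [pows, act]
  | succ k ih =>
    have h1 : n / 2 < 2 ^ k := by
      have : 2 ^ (k + 1) = 2 * 2 ^ k := by ring
      omega
    rw [pows, act_cons, ih (s + 1) (n / 2) h1]
    rcases beq_cases n with ⟨h2, h3⟩ | ⟨h2, h3⟩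
    · rw [h2, cond_true]
      have e1 : n * 2 ^ s = 2 ^ (s + 1) * (n / 2) + 2 ^ s := by
        have : n = 1 + 2 * (n / 2) := by omega
        calc n * 2 ^ s = (1 + 2 * (n / 2)) * 2 ^ s := by rw [← this]
          _ = _ := by ring
      have hb : 2 ^ s < 2 ^ (s + 1) := by rw [pow_succ]; have := Nat.two_pow_pos s; omega
      rw [e1, Nat.mul_comm (n / 2)]
      apply Nat.eq_of_testBit_eq; intro i
      rw [Nat.testBit_xor]
      rw [Nat.testBit_two_pow_mul_add (n / 2) hb]
      rw [Nat.testBit_two_pow_mul, Nat.testBit_two_pow]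
      by_cases hi : i < s + 1
      · rw [if_pos hi]
        have h6 : ¬ s < i := by omega
        simp [h6]
      · rw [if_neg hi]
        have : ¬ s = i := by omega
        have h5 : i ≥ s + 1 := by omega
        simp [this, h5]
    · rw [h2, cond_false, Nat.zero_xor]
      have : n = 2 * (n / 2) := by omega
      calc n / 2 * 2 ^ (s + 1) = (2 * (n / 2)) * 2 ^ s := by ring
        _ = _ := by rw [← this]

theorem act_pows_zero (k n : ℕ) (h : n < 2 ^ k) : act (pows k 0) n = n := by
  rw [act_pows k 0 n h]; simp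

end Cfsg.Agent.H288.L34
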