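import Cfsg.Agent.H288.L34.LamNine
import Cfsg.Agent.H592.L34.ExistsNine
import Cfsg.Agent.H360.L34.NineDims
import Cfsg.Agent.H906.L34.Mixed

/-! A nonabelian module of type 9: existence of the second module of type 9; type D of S5917. -/

set_option autoImplicit false
set_option linter.constructorNameAsVariable false

namespace Cfsg.Agent.H288.L34

open Matrix Cfsg.Agent.H691.L34 Cfsg.Agent.SporadicA.FieldFour Cfsg.Agent.H592.L34

theorem sv_inv : sv16.map (act ud) = pows 16 0 ∧ ltOK sv16 25 = true := by decide +kernel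

section

variable {V : Type*} [AddCommGroup V] (hV : ∀ v : V, v + v = 0) {ρ : ℕ → V →+ V} {br : V →+ V →+ V}

include hV in
/-- a nonzero stable subspace of the quotient of dimension 25 contains the part of dimension 16 -/
theorem Quo.svP {c : List V} (h : Quo ρ c) (P : V → Prop) (hP0 : P 0) (hPa : ∀ x y, P x → P y → P (x + y))
    (hPg : ∀ g < 10, ∀ x, P x → P (ρ g x)) (m0 : ℕ) (hm : m0 < 2 ^ 25) (h0 : P (EE c m0)) (h1 : m0 ≠ 0) :
    ∀ x ∈ sv16, P (EE c x) := by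
  have hst : ∀ g < 10, ∀ n, (n < 2 ^ 25 ∧ P (EE c n)) → (act (H g) n < 2 ^ 25 ∧ P (EE c (act (H g) n))) := by
    rintro g hg n ⟨hn, h2⟩
    exact ⟨act_lt _ _ _ (H_ok g hg).2.2, by rw [← h.eqv g hg]; exact hPg g hg _ h2⟩
  obtain ⟨n, ⟨hn, hK⟩, hne, hf⟩ := min_fixed 25 H (fun g hg => (H_tri g hg).1) (fun g hg => (H_tri g hg).2)
    (fun n => n < 2 ^ 25 ∧ P (EE c n)) (fun n hn => hn.1)
    (fun n m hn hm => ⟨Nat.xor_lt_two_pow hn.1 hm.1, by rw [EE_xor hV]; exact hPa _ _ hn.2 hm.2⟩)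
    (fun g hg => hst g (by omega)) m0 ⟨hm, h0⟩ h1
  have h2 := fix25 n hn hf
  have h3 : P (EE c 1) := by
    rcases act_Q2 n with h4 | h4 | h4 | h4 <;> rw [h4] at h2
    · exact absurd h2 hne
    · rw [← h2]; exact hK
    · rw [← chain25.1, ← h2]; exact (hst 5 (by norm_num) n ⟨hn, hK⟩).2
    · rw [← chain25.2, ← h2, EE_xor hV]; exact hPa _ _ (hst 5 (by norm_num) n ⟨hn, hK⟩).2 hK
  rw [← sv16_ok.1]
  apply bldH_mem (K := fun x => P (EE c x)) (by rw [EE_zero]; exact hP0)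
  · intro g hg n hn
    rw [← h.eqv g hg]; exact hPg g hg _ hn
  · exact sv16_ok.2
  · intro x hx
    rw [List.mem_singleton.1 hx]; exact h3

end

section

variable {F : Type} [Field F] [Fintype F] {V : Type} [AddCommGroup V] [Module (ZMod 2) V] [Module.Finite (ZMod 2) V]
  {ρ : Representation (ZMod 2) (G3 F) V}

/-- the submodule of a map of type 9 -/
def imS (φ : M3 F → V) (e : F4 ≃+* F) (h1 : ∀ X Y, HF X → HF Y → φ (X + Y) = φ X + φ Y) : Submodule (ZMod 2) V where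
  carrier := {v | ∃ X, HF X ∧ φ X = v}
  add_mem' := by
    rintro x y ⟨X, hX, rfl⟩ ⟨Y, hY, rfl⟩
    exact ⟨X + Y, HF_add _ _ (char_two e) hX hY, h1 X Y hX hY⟩
  zero_mem' := by
    refine ⟨0, HF_zero, ?_⟩
    have h := h1 0 0 HF_zero HF_zero
    rw [add_zero] at h
    rw [h, vv]
  smul_mem' := by
    rintro a x ⟨X, hX, rfl⟩
    have ha : a = 0 ∨ a = 1 := by revert a; decide
    rcases ha with rfl | rfl
    · refine ⟨0, HF_zero, ?_⟩
      have h := h1 0 0 HF_zero HF_zero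
      rw [add_zero] at h
      rw [h, vv, zero_smul]
    · exact ⟨X, hX, by rw [one_smul]⟩

/-- invariant submodules of a span of dimension 25 -/
theorem sub25 {β : V →ₗ[ZMod 2] V →ₗ[ZMod 2] V} (hβ : Brk ρ β) (h0 : fixAll ρ = ⊥) (e : F4 ≃+* F) {b : Bool}
    {W : Submodule (ZMod 2) V} {φ : M3 F → V} (h1 : ∀ X Y, HF X → HF Y → φ (X + Y) = φ X + φ Y)
    (h2 : ∀ v, v ∈ W ↔ ∃ X, HF X ∧ φ X = v) (h3 : ∀ (g : G3 F) X, HF X → ρ g (φ X) = φ (hact (tw b g) X))
    (h : Module.finrank (ZMod 2) (bsp β W) < 36) (h' : 25 ≤ Module.finrank (ZMod 2) (bsp β W))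
    (Y : Submodule (ZMod 2) V) (hY : Inv ρ Y) (hYW : Y ≤ bsp β W) (hY0 : Y ≠ ⊥) :
    Module.finrank (ZMod 2) (bsp β W) = 25 ∧ 16 ≤ Module.finrank (ZMod 2) Y := by
  classical
  have hS := sys_of e b φ h1 h3
  have eqv := brA_eqv hβ e b
  have hfix : ∀ v, (∀ g < 10, rr e ρ b g v = v) → v = 0 := by
    intro v hv
    have h4 : v ∈ fixAll ρ := fix_all e b v hv
    rw [h0] at h4
    exact (Submodule.mem_bot _).1 h4
  have hfin : Finite V := Module.finite_of_finite (ZMod 2)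
  have hi36 : ¬ ∀ n < 2 ^ 36, ev (cl (brA β) (el e φ)) n = 0 → n = 0 := fun hi => by
    have := le_of_inj β e h2 hi
    omega
  push Not at hi36
  obtain ⟨n0, hn0, hn1, hn2⟩ := hi36
  have hk := hS.k0 vv hβ.alt (br := brA β) eqv hfix n0 hn0 hn1 hn2
  have hQ := hS.quo vv hβ.alt (br := brA β) eqv hk
  let f : Fin (2 ^ 25) → bsp β W := fun k => ⟨EE (cl (brA β) (el e φ)) k, cl_mem β e h2 _⟩
  have hf : Function.Surjective f := by
    rintro ⟨v, hv⟩
    obtain ⟨n, hn, h5⟩ := bsp_sub hβ e h1 h2 v hv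
    refine ⟨⟨act qa n, act_lt _ _ _ qab_ok.2.2⟩, Subtype.ext ?_⟩
    show EE _ (act qa n) = v
    rw [← hQ.all n hn, h5]
  have hle := Nat.card_le_card_of_surjective f hf
  have hc : Nat.card (Fin (2 ^ 25)) ≤ Nat.card (bsp β W) := by
    rw [Nat.card_eq_fintype_card, Fintype.card_fin, card_sub]
    exact Nat.pow_le_pow_right (by norm_num) h'
  have hb := (hf.bijective_of_nat_card_le hc).1
  have h25 : Module.finrank (ZMod 2) (bsp β W) = 25 := by
    have e1 : Nat.card (Fin (2 ^ 25)) = 2 ^ 25 := by rw [Nat.card_eq_fintype_card, Fintype.card_fin]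
    rw [e1, card_sub] at hle
    have := (Nat.pow_le_pow_iff_right (by norm_num)).1 hle
    omega
  refine ⟨h25, ?_⟩
  obtain ⟨w, hw, hw0⟩ := (Submodule.ne_bot_iff Y).1 hY0
  obtain ⟨⟨m0, hm0⟩, hm1⟩ := hf ⟨w, hYW hw⟩
  have hm2 : EE (cl (brA β) (el e φ)) m0 = w := congrArg Subtype.val hm1
  have hs := hQ.svP vv (fun v => v ∈ Y) Y.zero_mem (fun x y hx hy => Y.add_mem hx hy)
    (fun g _ x hx => hY _ x hx) m0 hm0 (by rw [hm2]; exact hw) (by
      rintro rfl
      rw [EE_zero] at hm2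
      exact hw0 hm2.symm)
  have hsm : ∀ n, EE (cl (brA β) (el e φ)) (act sv16 n) ∈ Y := by
    have : ∀ l : List ℕ, (∀ x ∈ l, EE (cl (brA β) (el e φ)) x ∈ Y) → ∀ n, EE (cl (brA β) (el e φ)) (act l n) ∈ Y := by
      intro l
      induction l with
      | nil => intro _ n; rw [act_nil, EE_zero]; exact Y.zero_mem
      | cons a l ih =>
        intro hl n
        rw [act_cons, EE_xor vv]
        apply Y.add_mem
        · cases (n % 2).beq 1
          · rw [cond_false, EE_zero]; exact Y.zero_mem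
          · exact hl a (List.mem_cons_self ..)
        · exact ih (fun x hx => hl x (List.mem_cons_of_mem _ hx)) _
    exact this sv16 hs
  let f2 : Fin (2 ^ 16) → Y := fun k => ⟨EE (cl (brA β) (el e φ)) (act sv16 k), hsm k⟩
  have hf2 : Function.Injective f2 := by
    intro a c hac
    have h5 : EE (cl (brA β) (el e φ)) (act sv16 a.1) = EE (cl (brA β) (el e φ)) (act sv16 c.1) :=
      congrArg Subtype.val hac
    have hl : ∀ k : Fin (2 ^ 16), act sv16 k.1 < 2 ^ 25 := fun k => act_lt _ _ _ sv_inv.2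
    have h6 : f ⟨act sv16 a.1, hl a⟩ = f ⟨act sv16 c.1, hl c⟩ := Subtype.ext h5
    have h7 : act sv16 a.1 = act sv16 c.1 := congrArg Fin.val (hb h6)
    have h8 : ∀ k : Fin (2 ^ 16), act ud (act sv16 k.1) = k.1 := by
      intro k
      rw [act_act, sv_inv.1, act_pows_zero 16 _ k.2]
    exact Fin.ext (by rw [← h8 a, ← h8 c, h7])
  have h3 := Nat.card_le_card_of_injective f2 hf2
  rw [Nat.card_eq_fintype_card, Fintype.card_fin, card_sub] at h3
  exact (Nat.pow_le_pow_iff_right (by norm_num)).1 h3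

/-- the classification of the simple submodules, as hypothesis -/
def SC (ρ : Representation (ZMod 2) (G3 F) V) : Prop := ∀ W : Submodule (ZMod 2) V, Simp ρ W →
      (∀ v ∈ W, ∀ g, ρ g v = v) ∨ IsNine ρ false W ∨ IsNine ρ true W ∨ Is16 ρ W ∨ Is64 ρ W

/-- the dimensions, as hypothesis -/
def PLh (ρ : Representation (ZMod 2) (G3 F) V) : Prop := ∀ A B : Submodule (ZMod 2) V, Inv ρ A → Inv ρ B → A ≤ B →
      ∃ a b c d : ℕ, Module.finrank (ZMod 2) B = Module.finrank (ZMod 2) A + (a + 16 * b + 9 * c + 64 * d) ∧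
      (∀ g : G3 F, orderOf g = 3 → g ∉ Subgroup.center (G3 F) → Module.finrank (ZMod 2) (fx ρ g B) =
        Module.finrank (ZMod 2) (fx ρ g A) + (a + 4 * b + 3 * c + 22 * d)) ∧
      (∀ g : G3 F, orderOf g = 5 → Module.finrank (ZMod 2) (fx ρ g B) =
        Module.finrank (ZMod 2) (fx ρ g A) + (a + 4 * b + c + 12 * d)) ∧
      ∀ g : G3 F, orderOf g = 7 → Module.finrank (ZMod 2) (fx ρ g B) =
        Module.finrank (ZMod 2) (fx ρ g A) + (a + 4 * b + 10 * d)

/-- submodules of type 16 are nondegenerate -/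
theorem h16 (hF : Fintype.card F = 4) (hPL : PLh ρ) {n5 n7 : ℕ} (hn5 : n5 = 68 ∨ n5 = 48) (hn7 : n7 = 80 ∨ n7 = 38)
    (hd : Dims ρ (⊤ : Submodule (ZMod 2) V) 248 86 n5 n7) (B : LinearMap.BilinForm (ZMod 2) V) (hB : B.Nondegenerate)
    (hi : ∀ g x y, B (ρ g x) (ρ g y) = B x y)
    (W : Submodule (ZMod 2) V) (hW : Simp ρ W) (hW16 : Is16 ρ W) : W ⊓ B.orthogonal W = ⊥ := by
  obtain ⟨g3, hg3, hg3c⟩ := exists_three (F := F) hF
  obtain ⟨g5, hg5⟩ := exists_order (F := F) hF (p := 5) (by norm_num) (by norm_num)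
  obtain ⟨g7, hg7⟩ := exists_order (F := F) hF (p := 7) (by norm_num) (by norm_num)
  obtain ⟨d0, d3, d5, d7⟩ := hd
  have d3 := d3 g3 hg3 hg3c
  have d5 := d5 g5 hg5
  have d7 := d7 g7 hg7
  have ho := inv_orth hi hW.1
  rcases hW.2.2 _ (inv_inf hW.1 ho) inf_le_left with h | h
  · exact h
  · exfalso
    have hle : W ≤ B.orthogonal W := inf_eq_left.1 h
    obtain ⟨e0, e3, e5, e7⟩ := hW16
    have e3 := e3 g3 hg3 hg3c
    have e5 := e5 g5 hg5
    have e7 := e7 g7 hg7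
    obtain ⟨a1, b1, c1, f1, p0, p3, p5, p7⟩ := hPL _ _ hW.1 ho hle
    obtain ⟨a2, b2, c2, f2, q0, q3, q5, q7⟩ := hPL _ _ ho inv_top le_top
    have p3 := p3 g3 hg3 hg3c
    have p5 := p5 g5 hg5
    have p7 := p7 g7 hg7
    have q3 := q3 g3 hg3 hg3c
    have q5 := q5 g5 hg5
    have q7 := q7 g7 hg7
    have hdim := LinearMap.BilinForm.finrank_orthogonal hB W
    have hV : Module.finrank (ZMod 2) (⊤ : Submodule (ZMod 2) V) = Module.finrank (ZMod 2) V := finrank_top _ _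
    have hle' := Submodule.finrank_le W
    rw [e0] at hdim p0 hle'
    rw [e3] at p3
    rw [e5] at p5
    rw [e7] at p7
    rw [d0] at q0 hV
    rw [d3] at q3
    rw [d5] at q5
    rw [d7] at q7
    rw [← hV] at hdim hle'
    exact num hn5 hn7 (by omega) p0 p3 p5 p7 q0 q3 q5 q7

/-- the second module of type 9 -/
theorem exists_psi (hF : Fintype.card F = 4) (hsc : SC ρ) (hPL : PLh ρ) {n5 n7 : ℕ} (hn5 : n5 = 68 ∨ n5 = 48)
    (hn7 : n7 = 80 ∨ n7 = 38) (hd : Dims ρ (⊤ : Submodule (ZMod 2) V) 248 86 n5 n7) (B : LinearMap.BilinForm (ZMod 2) V)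
    (hB : B.Nondegenerate) (hi : ∀ g x y, B (ρ g x) (ρ g y) = B x y) (h0 : fixAll ρ = ⊥)
    {β : V →ₗ[ZMod 2] V →ₗ[ZMod 2] V} (hβ : Brk ρ β) {b : Bool} {φ : M3 F → V}
    (h1 : ∀ X Y, HF X → HF Y → φ (X + Y) = φ X + φ Y) (hinj : ∀ X, HF X → φ X = 0 → X = 0)
    (h3 : ∀ (g : G3 F) X, HF X → ρ g (φ X) = φ (hact (tw b g) X)) (hne : β (φ d1) (φ d2) ≠ 0) :
    ∃ ψ : M3 F → V, (∀ X Y, HF X → HF Y → ψ (X + Y) = ψ X + ψ Y) ∧ (∀ X, HF X → ψ X = 0 → X = 0) ∧
      (∀ (g : G3 F) X, HF X → ρ g (ψ X) = ψ (hact (tw (!b) g) X)) := by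
  classical
  obtain ⟨e⟩ := ringEq hF
  have h2 : ∀ v, v ∈ imS φ e h1 ↔ ∃ X, HF X ∧ φ X = v := fun v => Iff.rfl
  generalize imS φ e h1 = W at h2
  have hW : IsNine ρ b W := ⟨φ, h1, hinj, h2, h3⟩
  rcases lt_or_ge (Module.finrank (ZMod 2) (bsp β W)) 25 with hlt | hge
  · obtain ⟨ψ, k1, k2, -, k4, -⟩ := lam_nine hF hβ h0 h1 h2 h3 hlt hne
    exact ⟨ψ, k1, k2, k4⟩
  rcases lt_or_ge (Module.finrank (ZMod 2) (bsp β W)) 36 with hlt | hge'
  · exfalso
    have hS := fun Y hY hYW hY0 => sub25 hβ h0 e h1 h2 h3 hlt hge Y hY hYW hY0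
    have hWi := nine_inv e hW
    have hX := bsp_inv hβ hWi
    have hX0 : bsp β W ≠ ⊥ := by
      intro h
      rw [h, finrank_bot] at hge
      omega
    have h25 := (hS _ hX le_rfl hX0).1
    obtain ⟨Y, hY, hYX⟩ := exists_simp hX hX0
    have hY16 := (hS Y hY.1 hYX hY.2.1).2
    have hYle := Submodule.finrank_mono hYX
    have hYt : Is16 ρ Y := by
      rcases hsc Y hY with h | h | h | h | h
      · exfalso
        apply hY.2.1
        rw [eq_bot_iff]
        intro v hv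
        rw [← h0]
        exact fun g => h v hv g
      · have := (H360.L34.nine_dims hF h).1
        omega
      · have := (H360.L34.nine_dims hF h).1
        omega
      · exact h
      · have := h.1.1
        omega
    have hYn := h16 hF hPL hn5 hn7 hd B hB hi Y hY hYt
    have ho := inv_orth hi hY.1
    have htop : Y ⊔ B.orthogonal Y = ⊤ := by
      apply Submodule.eq_top_of_finrank_eq
      have h3 := Submodule.finrank_sup_add_finrank_inf_eq Y (B.orthogonal Y)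
      rw [hYn, finrank_bot] at h3
      have hdim := LinearMap.BilinForm.finrank_orthogonal hB Y
      have hle' := Submodule.finrank_le Y
      omega
    have h5 := sup_inf_assoc_of_le (B.orthogonal Y) hYX
    rw [htop, top_inf_eq] at h5
    -- the complement
    have h6 : Y ⊓ (B.orthogonal Y ⊓ bsp β W) = ⊥ := by
      rw [← inf_assoc, hYn, bot_inf_eq]
    have h7 := Submodule.finrank_sup_add_finrank_inf_eq Y (B.orthogonal Y ⊓ bsp β W)
    rw [h6, finrank_bot, ← h5, add_zero, h25, hYt.1] at h7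
    have hZ0 : B.orthogonal Y ⊓ bsp β W ≠ ⊥ := by
      intro h
      rw [h, finrank_bot] at h7
      omega
    have h8 := (hS _ (inv_inf ho hX) inf_le_right hZ0).2
    omega
  · obtain ⟨-, N, ⟨ψ, k1, k2, -, k4⟩, -⟩ := lam_emb_of hF hβ hW hge'
    exact ⟨ψ, k1, k2, k4⟩

end

end Cfsg.Agent.H288.L34
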