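import Cfsg.Agent.H691.L34.Def

/-! Common definitions for the brackets (copied literally from H691/L34/Stubs.lean). -/

set_option autoImplicit false

namespace Cfsg.Agent.H288.L34

open Matrix Cfsg.Agent.H691.L34

/-- an invariant alternating bilinear map -/
structure Brk {F : Type} [Field F] {V : Type} [AddCommGroup V] [Module (ZMod 2) V]
    (ρ : Representation (ZMod 2) (G3 F) V) (β : V →ₗ[ZMod 2] V →ₗ[ZMod 2] V) : Prop where
  alt : ∀ x, β x x = 0
  inv : ∀ g x y, ρ g (β x y) = β (ρ g x) (ρ g y)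

/-- the span of the brackets -/
def bsp {V : Type} [AddCommGroup V] [Module (ZMod 2) V] (β : V →ₗ[ZMod 2] V →ₗ[ZMod 2] V)
    (W : Submodule (ZMod 2) V) : Submodule (ZMod 2) V :=
  Submodule.span (ZMod 2) {v | ∃ x ∈ W, ∃ y ∈ W, β x y = v}

/-- `diag(1,1,0)`, `diag(0,1,1)` -/
def d1 {F : Type} [Field F] : M3 F := !![1, 0, 0; 0, 1, 0; 0, 0, 0]

/-- `diag(0,1,1)` -/
def d2 {F : Type} [Field F] : M3 F := !![0, 0, 0; 0, 1, 0; 0, 0, 1]

end Cfsg.Agent.H288.L34
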