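import Cfsg.Agent.H288.L34.Lam
import Cfsg.Agent.SporadicA.FieldFour
import Cfsg.Agent.H691.L34.Def

/-! Concrete matrices over the field with four elements. -/

set_option autoImplicit false

namespace Cfsg.Agent.H288.L34

open Matrix Cfsg.Agent.H691.L34 Cfsg.Agent.SporadicA.FieldFour

/-- `c` in place `i j`, its square in place `j i`. -/
def hm (i j : Fin 3) (c : F4) : M3 F4 := Matrix.of fun a b =>
  if a = i ∧ b = j then c else if a = j ∧ b = i then c * c else 0

/-- the hermitian basis. -/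
def B4 : List (M3 F4) := [hm 0 0 F4.o, hm 0 1 F4.o, hm 0 1 F4.w, hm 1 1 F4.o, hm 0 2 F4.o, hm 0 2 F4.w, hm 1 2 F4.o,
  hm 1 2 F4.w, hm 2 2 F4.o]

/-- the ten matrices. -/
def gm : ℕ → M3 F4
  | 0 => !![F4.o, F4.o, F4.z; F4.z, F4.o, F4.z; F4.z, F4.z, F4.o]
  | 1 => !![F4.o, F4.w, F4.z; F4.z, F4.o, F4.z; F4.z, F4.z, F4.o]
  | 2 => !![F4.o, F4.z, F4.z; F4.z, F4.o, F4.o; F4.z, F4.z, F4.o]
  | 3 => !![F4.o, F4.z, F4.z; F4.z, F4.o, F4.w; F4.z, F4.z, F4.o]
  | 4 => !![F4.z, F4.o, F4.z; F4.z, F4.z, F4.o; F4.o, F4.z, F4.z]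
  | 5 => !![F4.o, F4.z, F4.z; F4.z, F4.w, F4.z; F4.z, F4.z, F4.v]
  | 6 => !![F4.o, F4.z, F4.z; F4.o, F4.o, F4.z; F4.z, F4.z, F4.o]
  | 7 => !![F4.o, F4.z, F4.z; F4.v, F4.o, F4.z; F4.z, F4.z, F4.o]
  | 8 => !![F4.o, F4.z, F4.z; F4.z, F4.o, F4.z; F4.z, F4.o, F4.o]
  | 9 => !![F4.o, F4.z, F4.z; F4.z, F4.o, F4.z; F4.z, F4.v, F4.o]
  | _ => !![F4.o, F4.z, F4.z; F4.z, F4.o, F4.z; F4.z, F4.z, F4.o]

theorem gm_det (k : ℕ) : (gm k).det = 1 := by
  rw [Matrix.det_fin_three]
  match k with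
  | 0 => decide
  | 1 => decide
  | 2 => decide
  | 3 => decide
  | 4 => decide
  | 5 => decide
  | 6 => decide
  | 7 => decide
  | 8 => decide
  | 9 => decide
  | _ + 10 => rfl

/-- the ten elements. -/
def gs (k : ℕ) : G3 F4 := ⟨gm k, gm_det k⟩

/-- entry of `g X g*`. -/
def hx (g X : M3 F4) (a b : Fin 3) : F4 :=
  F4.add (F4.add (F4.mul (F4.add (F4.add (F4.mul (g a 0) (X 0 0)) (F4.mul (g a 1) (X 1 0))) (F4.mul (g a 2) (X 2 0)))
      (F4.mul (g b 0) (g b 0)))
    (F4.mul (F4.add (F4.add (F4.mul (g a 0) (X 0 1)) (F4.mul (g a 1) (X 1 1))) (F4.mul (g a 2) (X 2 1)))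
      (F4.mul (g b 1) (g b 1))))
    (F4.mul (F4.add (F4.add (F4.mul (g a 0) (X 0 2)) (F4.mul (g a 1) (X 1 2))) (F4.mul (g a 2) (X 2 2)))
      (F4.mul (g b 2) (g b 2)))

theorem hx_eq (g X : M3 F4) (a b : Fin 3) : (g * X * ct g) a b = hx g X a b := by
  rw [Matrix.mul_apply, Fin.sum_univ_three, Matrix.mul_apply, Matrix.mul_apply, Matrix.mul_apply, Fin.sum_univ_three,
    Fin.sum_univ_three, Fin.sum_univ_three]
  simp only [ct, Matrix.transpose_apply, Matrix.map_apply, pow_two]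
  rfl

/-- entries of a combination. -/
def evf : List F4 → ℕ → F4
  | [], _ => F4.z
  | x :: vs, n => F4.add (cond ((n % 2).beq 1) x F4.z) (evf vs (n / 2))

theorem evf_eq (l : List F4) (n : ℕ) : ev l n = evf l n := by
  induction l generalizing n with
  | nil => rfl
  | cons x l ih => rw [ev_cons, ih]; rfl

/-- the entry as additive map. -/
def entry (a b : Fin 3) : M3 F4 →+ F4 where
  toFun X := X a b
  map_zero' := rfl
  map_add' _ _ := rfl

theorem ev_entry (l : List (M3 F4)) (n : ℕ) (a b : Fin 3) : (ev l n) a b = evf (l.map (fun X => X a b)) n := by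
  rw [← evf_eq]
  exact map_ev (entry a b) l n

/-- boolean equality of the lists. -/
def eqb : List F4 → List F4 → Bool
  | [], [] => true
  | x :: l, y :: m => (F4.toNat x).beq (F4.toNat y) && eqb l m
  | _, _ => false

theorem eq_of_eqb (l m : List F4) (h : eqb l m = true) : l = m := by
  induction l generalizing m with
  | nil => cases m with
    | nil => rfl
    | cons y m => cases h
  | cons x l ih => cases m with
    | nil => cases h
    | cons y m =>
      rw [eqb, Bool.and_eq_true] at h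
      have h1 : F4.toNat x = F4.toNat y := Nat.eq_of_beq_eq_true h.1
      have h2 : x = y := by
        have := congrArg F4.ofNat h1
        rwa [F4.ofNat_toNat, F4.ofNat_toNat] at this
      rw [h2, ih m h.2]

/-- all entries agree. -/
def chk (k : ℕ) (a b : Fin 3) : Bool :=
  eqb (B4.map (fun X => hx (gm k) X a b)) ((M k).map (fun n => evf (B4.map (fun X => X a b)) n))

theorem chk_ok : ∀ k < 10, ∀ a b : Fin 3, chk k a b = true := by decide +kernel

theorem B4_ok (k : ℕ) (hk : k < 10) : B4.map (fun X => gm k * X * ct (gm k)) = (M k).map (ev B4) := by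
  have hl : B4.length = 9 := rfl
  have hm : (M k).length = 9 := M_len k hk
  apply List.ext_getElem
  · rw [List.length_map, List.length_map, hl, hm]
  · intro i h1 h2
    rw [List.getElem_map, List.getElem_map]
    ext a b
    rw [hx_eq, ev_entry]
    have h3 := eq_of_eqb _ _ (chk_ok k hk a b)
    have h5 : i < (B4.map (fun X => hx (gm k) X a b)).length := by
      rw [List.length_map] at h1 ⊢; exact h1
    have h4 := List.getElem_of_eq h3 h5
    rw [List.getElem_map, List.getElem_map] at h4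
    exact h4

/-- hermitian. -/
def hrm (X : M3 F4) (a b : Fin 3) : Bool := (F4.toNat (F4.mul (X b a) (X b a))).beq (F4.toNat (X a b))

theorem B4_herm0 : ∀ a b : Fin 3, B4.all (fun X => hrm X a b) = true := by decide +kernel

theorem B4_herm : ∀ X ∈ B4, ct X = X := by
  intro X hX
  ext a b
  have h := List.all_eq_true.1 (B4_herm0 a b) X hX
  have h1 : F4.toNat (F4.mul (X b a) (X b a)) = F4.toNat (X a b) := Nat.eq_of_beq_eq_true h
  have h2 := congrArg F4.ofNat h1
  rw [F4.ofNat_toNat, F4.ofNat_toNat] at h2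
  simp only [ct, Matrix.transpose_apply, Matrix.map_apply, pow_two]
  exact h2

end Cfsg.Agent.H288.L34
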