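import Cfsg.Agent.H288.L34.Herm
import Cfsg.Agent.LieClassical.SLGen

/-! The ten elements generate SL(3,4). -/

set_option autoImplicit false
set_option linter.constructorNameAsVariable false

namespace Cfsg.Agent.H288.L34

open Matrix Cfsg.Agent.H691.L34 Cfsg.Agent.SporadicA.FieldFour

/-- words for the transvections above -/
def w1 : F4 → List ℕ → List ℕ → List ℕ
  | .z, _, _ => []
  | .o, l, _ => l
  | .w, _, m => m
  | .v, l, m => l ++ m

/-- words for the transvections -/
def wd (i j : Fin 3) (c : F4) : List ℕ :=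
  if i = 0 ∧ j = 1 then w1 c [0] [1] else if i = 1 ∧ j = 2 then w1 c [2] [3] else
  if i = 2 ∧ j = 0 then [4] ++ w1 c [0] [1] ++ [4, 4] else
  if i = 1 ∧ j = 0 then w1 (F4.mul c c) [6] [7] else if i = 2 ∧ j = 1 then w1 (F4.mul c c) [8] [9] else
  if i = 0 ∧ j = 2 then [4] ++ w1 (F4.mul c c) [6] [7] ++ [4, 4] else []

theorem wd_lt : ∀ (i j : Fin 3) (c : F4), ∀ k ∈ wd i j c, k < 10 := by decide +kernel

/-- entries of a word -/
def pe (l : List ℕ) (a b : Fin 3) : F4 := (l.map gm).prod a b

theorem wd_ok : ∀ (i j : Fin 3), i ≠ j → ∀ (c : F4) (a b : Fin 3), pe (wd i j c) a b =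
    F4.add (if a = b then F4.o else F4.z) (if i = a ∧ j = b then c else F4.z) := by decide +kernel

theorem prod_gs (l : List ℕ) : ((l.map gs).prod).1 = (l.map gm).prod := by
  induction l with
  | nil => rfl
  | cons k l ih =>
    rw [List.map_cons, List.prod_cons, List.map_cons, List.prod_cons, ← ih]
    rfl

theorem tr_wd (i j : Fin 3) (h : i ≠ j) (c : F4) : SpecialLinearGroup.transvection h c = ((wd i j c).map gs).prod := by
  apply Subtype.ext
  rw [prod_gs]
  ext a b
  refine Eq.trans ?_ (wd_ok i j h c a b).symm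
  show ((1 : M3 F4) + Matrix.single i j c) a b = _
  rw [Matrix.add_apply, Matrix.one_apply, Matrix.single_apply]
  rfl

/-- induction along the ten generators -/
theorem gen_ind {F : Type} [Field F] (e : F4 ≃+* F) (P : G3 F → Prop) (h1 : P 1) (hm : ∀ a b, P a → P b → P (a * b))
    (hk : ∀ k < 10, P (gF e k)) (g : G3 F) : P g := by
  have hl : ∀ l : List ℕ, (∀ k ∈ l, k < 10) → P (SpecialLinearGroup.map (e : F4 →+* F) (l.map gs).prod) := by
    intro l hl
    induction l with
    | nil => rw [List.map_nil, List.prod_nil, map_one]; exact h1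
    | cons k l ih =>
      rw [List.map_cons, List.prod_cons, map_mul]
      exact hm _ _ (hk k (hl k (List.mem_cons_self ..))) (ih fun x hx => hl x (List.mem_cons_of_mem _ hx))
  have key : ∀ A : G3 F4, P (SpecialLinearGroup.map (e : F4 →+* F) A) := by
    intro A
    apply LieClassical.SLGen.transvection_induction (fun A => P (SpecialLinearGroup.map (e : F4 →+* F) A))
    · intro i j hij c
      rw [tr_wd i j hij c]
      exact hl _ (wd_lt i j c)
    · intro A B hA hB
      rw [map_mul]; exact hm _ _ hA hB
  have h : g = SpecialLinearGroup.map (e : F4 →+* F) (SpecialLinearGroup.map (e.symm : F →+* F4) g) := by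
    apply Subtype.ext
    ext i j
    show g.1 i j = e (e.symm (g.1 i j))
    rw [RingEquiv.apply_symm_apply]
  rw [h]; exact key _

end Cfsg.Agent.H288.L34
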