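import Cfsg.Agent.H288.L34.Conc

/-! Transport of the concrete matrices to an arbitrary field with four elements; systems from modules of type 9. -/

set_option autoImplicit false
set_option linter.constructorNameAsVariable false

namespace Cfsg.Agent.H288.L34

open Matrix Cfsg.Agent.H691.L34 Cfsg.Agent.SporadicA.FieldFour

/-- bit of a rational element -/
def b0 : F4 → ℕ
  | .o => 1
  | _ => 0

/-- coefficient of `1` -/
def lo : F4 → ℕ
  | .o => 1
  | .v => 1
  | _ => 0

/-- coefficient of `w` -/
def hi : F4 → ℕ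
  | .w => 1
  | .v => 1
  | _ => 0

/-- the bit mask of a hermitian matrix. -/
def code (a x b y z c : F4) : ℕ := b0 a + 2 * lo x + 4 * hi x + 8 * b0 b + 16 * lo y + 32 * hi y + 64 * lo z +
  128 * hi z + 256 * b0 c

/-- rational element of a bit -/
def bf : Bool → F4
  | false => .z
  | true => .o

theorem code_ok : ∀ a b c : Bool, ∀ x y z : F4,
    eqb [evf (B4.map (fun X => X 0 0)) (code (bf a) x (bf b) y z (bf c)), evf (B4.map (fun X => X 0 1)) (code (bf a) x (bf b) y z (bf c)),
      evf (B4.map (fun X => X 0 2)) (code (bf a) x (bf b) y z (bf c)), evf (B4.map (fun X => X 1 0)) (code (bf a) x (bf b) y z (bf c)),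
      evf (B4.map (fun X => X 1 1)) (code (bf a) x (bf b) y z (bf c)), evf (B4.map (fun X => X 1 2)) (code (bf a) x (bf b) y z (bf c)),
      evf (B4.map (fun X => X 2 0)) (code (bf a) x (bf b) y z (bf c)), evf (B4.map (fun X => X 2 1)) (code (bf a) x (bf b) y z (bf c)),
      evf (B4.map (fun X => X 2 2)) (code (bf a) x (bf b) y z (bf c))]
     [bf a, x, y, F4.mul x x, bf b, z, F4.mul y y, F4.mul z z, bf c] = true := by decide +kernel

theorem code_lt : ∀ a b c : Bool, ∀ x y z : F4, code (bf a) x (bf b) y z (bf c) < 2 ^ 9 := by decide +kernel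

theorem bf_of (a : F4) (h : F4.mul a a = a) : ∃ b, a = bf b := by
  revert a; decide

theorem herm_code (X : M3 F4) (hX : ct X = X) : ∃ n < 2 ^ 9, X = ev B4 n := by
  have hx : ∀ a b : Fin 3, F4.mul (X b a) (X b a) = X a b := by
    intro a b
    have h := congrFun (congrFun hX a) b
    simp only [ct, Matrix.transpose_apply, Matrix.map_apply, pow_two] at h
    exact h
  obtain ⟨a, ha⟩ := bf_of _ (hx 0 0)
  obtain ⟨b, hb⟩ := bf_of _ (hx 1 1)
  obtain ⟨c, hc⟩ := bf_of _ (hx 2 2)
  refine ⟨code (bf a) (X 0 1) (bf b) (X 0 2) (X 1 2) (bf c), code_lt _ _ _ _ _ _, ?_⟩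
  have h := eq_of_eqb _ _ (code_ok a b c (X 0 1) (X 0 2) (X 1 2))
  simp only [List.cons.injEq, and_true] at h
  obtain ⟨h1, h2, h3, h4, h5, h6, h7, h8, h9⟩ := h
  ext i j
  rw [ev_entry]
  fin_cases i <;> fin_cases j
  · exact ha.trans h1.symm
  · exact h2.symm
  · exact h3.symm
  · exact (hx 1 0).symm.trans h4.symm
  · exact hb.trans h5.symm
  · exact h6.symm
  · exact (hx 2 0).symm.trans h7.symm
  · exact (hx 2 1).symm.trans h8.symm
  · exact hc.trans h9.symm

section

variable {F : Type} [Field F] (e : F4 ≃+* F)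

/-- transport of matrices -/
def mu : M3 F4 →+* M3 F := (e : F4 →+* F).mapMatrix

theorem mu_apply (X : M3 F4) (i j : Fin 3) : mu e X i j = e (X i j) := rfl

theorem ct_mu (X : M3 F4) : ct (mu e X) = mu e (ct X) := by
  ext i j
  simp only [ct, Matrix.transpose_apply, Matrix.map_apply, mu_apply, map_pow]

theorem ct_mul (X Y : M3 F) (hch : ∀ a : F, a + a = 0) : ct (X * Y) = ct Y * ct X := by
  ext i j
  simp only [ct, Matrix.transpose_apply, Matrix.map_apply, Matrix.mul_apply, Fin.sum_univ_three]
  linear_combination (X j 0 * Y 0 i * (X j 1 * Y 1 i) + X j 0 * Y 0 i * (X j 2 * Y 2 i) + X j 1 * Y 1 i * (X j 2 * Y 2 i)) * hch 1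

include e in
theorem char_two : ∀ a : F, a + a = 0 := by
  intro a
  have h0 : ∀ x : F4, x + x = 0 := by decide
  have h : e.symm a + e.symm a = 0 := h0 _
  have h1 := congrArg e h
  simpa using h1

theorem exists_mu (Y : M3 F) : ∃ X : M3 F4, mu e X = Y := by
  refine ⟨Y.map e.symm, ?_⟩
  ext i j
  simp [mu_apply]

theorem mu_inj (X Y : M3 F4) (h : mu e X = mu e Y) : X = Y := by
  ext i j
  have := congrFun (congrFun h i) j
  exact e.injective this

/-- hermitian matrices as combinations -/
theorem herm_ev (Y : M3 F) (hY : HF Y) : ∃ n < 2 ^ 9, Y = mu e (ev B4 n) := by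
  obtain ⟨X, rfl⟩ := exists_mu e Y
  have hX : ct X = X := by
    apply mu_inj e
    rw [← ct_mu]; exact hY
  obtain ⟨n, hn, h⟩ := herm_code X hX
  exact ⟨n, hn, by rw [← h]⟩

theorem HF_zero : HF (0 : M3 F) := by
  unfold HF
  ext i j
  simp [ct]

theorem HF_add (X Y : M3 F) (hch : ∀ a : F, a + a = 0) (hX : HF X) (hY : HF Y) : HF (X + Y) := by
  unfold HF at *
  conv_rhs => rw [← hX, ← hY]
  ext i j
  simp only [ct, Matrix.transpose_apply, Matrix.map_apply, Matrix.add_apply]
  linear_combination (X j i * Y j i) * hch 1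

theorem HF_ev (n : ℕ) : HF (mu e (ev B4 n)) := by
  unfold HF
  rw [ct_mu]
  congr 1
  have hch : ∀ a : F4, a + a = 0 := by decide
  have : ∀ (l : List (M3 F4)), (∀ X ∈ l, ct X = X) → ∀ n, ct (ev l n) = ev l n := by
    intro l hl
    induction l with
    | nil => intro n; exact HF_zero
    | cons X l ih =>
      intro n
      rw [ev_cons]
      apply HF_add _ _ hch
      · cases (n % 2).beq 1
        · exact HF_zero
        · exact hl X (List.mem_cons_self ..)
      · exact ih (fun Y hY => hl Y (List.mem_cons_of_mem _ hY)) _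
  exact this B4 B4_herm n

/-- the ten elements over `F` -/
def gF (k : ℕ) : G3 F := SpecialLinearGroup.map (e : F4 →+* F) (gs k)

theorem gF_coe (k : ℕ) : (gF e k).1 = mu e (gm k) := rfl

theorem hact_gF (k : ℕ) (hk : k < 10) (n : ℕ) : hact (gF e k) (mu e (ev B4 n)) = mu e (ev B4 (act (M k) n)) := by
  unfold hact
  rw [gF_coe, ct_mu, ← map_mul, ← map_mul]
  congr 1
  have hV : ∀ X : M3 F4, X + X = 0 := by
    intro X; ext i j
    have : ∀ a : F4, a + a = 0 := by decide
    exact this _
  let f : M3 F4 →+ M3 F4 :=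
    { toFun := fun X => gm k * X * ct (gm k)
      map_zero' := by rw [Matrix.mul_zero, Matrix.zero_mul]
      map_add' := fun X Y => by rw [Matrix.mul_add, Matrix.add_mul] }
  have h1 := map_ev f B4 n
  have h2 : B4.map f = (M k).map (ev B4) := B4_ok k hk
  rw [h2, ev_map_ev hV] at h1
  exact h1

theorem it_it (g : G3 F) : it (it g) = g := by
  apply Subtype.ext
  show ((it g)⁻¹ : G3 F).1.transpose = g.1
  rw [← map_inv]
  show (((g⁻¹)⁻¹ : G3 F).1.transpose).transpose = g.1
  rw [inv_inv, Matrix.transpose_transpose]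

theorem tw_tw (b : Bool) (g : G3 F) : tw b (tw b g) = g := by
  cases b
  · rfl
  · exact it_it g

end

section

variable {F : Type} [Field F] [Fintype F] {V : Type} [AddCommGroup V] [Module (ZMod 2) V]
  {ρ : Representation (ZMod 2) (G3 F) V} (e : F4 ≃+* F)

theorem vv (v : V) : v + v = 0 := by
  have h : (2 : ZMod 2) • v = v + v := two_smul _ v
  have h2 : (2 : ZMod 2) = 0 := by decide
  rw [← h, h2, zero_smul]

/-- the nine vectors -/
def el (φ : M3 F → V) : List V := B4.map (fun X => φ (mu e X))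

theorem phi_ev (φ : M3 F → V) (h1 : ∀ X Y, HF X → HF Y → φ (X + Y) = φ X + φ Y) (n : ℕ) :
    φ (mu e (ev B4 n)) = ev (el e φ) n := by
  have h0 : φ 0 = 0 := by
    have h := h1 0 0 HF_zero HF_zero
    rw [add_zero] at h
    rw [h, vv]
  have hch := char_two e
  have key : ∀ (l : List (M3 F4)), (∀ X ∈ l, HF (mu e X)) → ∀ n, HF (mu e (ev l n)) ∧
      φ (mu e (ev l n)) = ev (l.map (fun X => φ (mu e X))) n := by
    intro l hl
    induction l with
    | nil =>
      intro n
      refine ⟨?_, ?_⟩
      · show HF (mu e 0)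
        rw [map_zero]; exact HF_zero
      · show φ (mu e 0) = 0
        rw [map_zero, h0]
    | cons X l ih =>
      intro n
      obtain ⟨h2, h3⟩ := ih (fun Y hY => hl Y (List.mem_cons_of_mem _ hY)) (n / 2)
      have h4 : HF (mu e (cond ((n % 2).beq 1) X 0)) := by
        cases (n % 2).beq 1
        · rw [cond_false, map_zero]; exact HF_zero
        · exact hl X (List.mem_cons_self ..)
      rw [ev_cons, map_add]
      refine ⟨HF_add _ _ hch h4 h2, ?_⟩
      rw [h1 _ _ h4 h2, h3, List.map_cons, ev_cons]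
      congr 1
      cases (n % 2).beq 1
      · rw [cond_false, cond_false, map_zero, h0]
      · rfl
  refine (key B4 ?_ n).2
  intro X hX
  show ct _ = _
  rw [ct_mu, B4_herm X hX]

/-- the operators -/
def rr (ρ : Representation (ZMod 2) (G3 F) V) (b : Bool) (k : ℕ) : V →+ V := (ρ (tw b (gF e k))).toAddMonoidHom

theorem sys_of (b : Bool) (φ : M3 F → V) (h1 : ∀ X Y, HF X → HF Y → φ (X + Y) = φ X + φ Y)
    (h3 : ∀ (g : G3 F) X, HF X → ρ g (φ X) = φ (hact (tw b g) X)) : Sys (rr e ρ b) (el e φ) where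
  len := by unfold el; rw [List.length_map]; rfl
  eq k hk := by
    unfold el
    rw [List.map_map]
    have h4 : B4.map (fun X => φ (mu e (gm k * X * ct (gm k)))) = (M k).map (fun n => φ (mu e (ev B4 n))) := by
      have := congrArg (List.map (fun X => φ (mu e X))) (B4_ok k hk)
      rw [List.map_map, List.map_map] at this
      exact this
    have h5 : (M k).map (fun n => φ (mu e (ev B4 n))) = (M k).map (ev (B4.map (fun X => φ (mu e X)))) := by
      apply List.map_congr_left
      intro n _
      exact phi_ev e φ h1 n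
    rw [← h5, ← h4]
    apply List.map_congr_left
    intro X hX
    show ρ (tw b (gF e k)) (φ (mu e X)) = _
    rw [h3 _ _ (by show ct _ = _; rw [ct_mu, B4_herm X hX]), tw_tw]
    unfold hact
    rw [gF_coe, ct_mu, ← map_mul, ← map_mul]

/-- the bracket as additive map -/
def brA (β : V →ₗ[ZMod 2] V →ₗ[ZMod 2] V) : V →+ V →+ V where
  toFun x := (β x).toAddMonoidHom
  map_zero' := by ext y; simp
  map_add' x y := by ext z; simp

theorem brA_apply (β : V →ₗ[ZMod 2] V →ₗ[ZMod 2] V) (x y : V) : brA β x y = β x y := rfl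

end

end Cfsg.Agent.H288.L34
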