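import Cfsg.Agent.H288.L34.Bprime

/-! Type D of S5917: every module of type 9 is abelian (from the values of the 2-map on the fixed vectors). -/

set_option autoImplicit false
set_option linter.constructorNameAsVariable false

namespace Cfsg.Agent.H288.L34

open Matrix Cfsg.Agent.H691.L34 Cfsg.Agent.SporadicA.FieldFour Cfsg.Agent.H592.L34

section

variable {F : Type} [Field F] [Fintype F] {V : Type} [AddCommGroup V] [Module (ZMod 2) V] [Module.Finite (ZMod 2) V]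
  {ρ : Representation (ZMod 2) (G3 F) V}

/-- an equivariant additive injective map of type `b` -/
structure Nin (ρ : Representation (ZMod 2) (G3 F) V) (b : Bool) (φ : M3 F → V) : Prop where
  add : ∀ X Y, HF X → HF Y → φ (X + Y) = φ X + φ Y
  inj : ∀ X, HF X → φ X = 0 → X = 0
  eqv : ∀ (g : G3 F) X, HF X → ρ g (φ X) = φ (hact (tw b g) X)

/-- the 2-map on the fixed vectors of two modules of different types -/
def Sq2 (ρ : Representation (ZMod 2) (G3 F) V) (sq : V → V) : Prop := ∀ (b : Bool) (φ ψ : M3 F → V), Nin ρ b φ → Nin ρ (!b) ψ →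
  (sq (φ 1) = φ 1 ∨ sq (φ 1) = ψ 1 ∨ sq (φ 1) = φ 1 + ψ 1) ∧ (sq (ψ 1) = φ 1 ∨ sq (ψ 1) = ψ 1 ∨ sq (ψ 1) = φ 1 + ψ 1) ∧
  sq (φ 1) ≠ sq (ψ 1) ∧ ¬ (sq (φ 1) = ψ 1 ∧ sq (ψ 1) = φ 1)

/-- (D6) every module of type 9 is abelian -/
theorem hfixD (hF : Fintype.card F = 4) (hsc : SC ρ) (hPL : PLh ρ) {n5 n7 : ℕ} (hn5 : n5 = 68 ∨ n5 = 48)
    (hn7 : n7 = 80 ∨ n7 = 38) (hd : Dims ρ (⊤ : Submodule (ZMod 2) V) 248 86 n5 n7) (B : LinearMap.BilinForm (ZMod 2) V)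
    (hB : B.Nondegenerate) (hi : ∀ g x y, B (ρ g x) (ρ g y) = B x y) (h0 : fixAll ρ = ⊥)
    {β : V →ₗ[ZMod 2] V →ₗ[ZMod 2] V} (hβ : Brk ρ β) {sq : V → V} (hadd : ∀ x y, sq (x + y) = sq x + sq y + β x y)
    (hsi : ∀ g x, ρ g (sq x) = sq (ρ g x)) (hsb : ∀ x y, β (sq x) y = β x (β x y)) (hsq : Sq2 ρ sq)
    {b : Bool} {φ : M3 F → V} (hφ : Nin ρ b φ) : β (φ d1) (φ d2) = 0 := by
  by_contra hne
  obtain ⟨e⟩ := ringEq hF
  obtain ⟨ψ, k1, k2, k3⟩ := exists_psi hF hsc hPL hn5 hn7 hd B hB hi h0 hβ hφ.add hφ.inj hφ.eqv hne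
  obtain ⟨l1, l2, l3, l4⟩ := hsq b φ ψ hφ ⟨k1, k2, k3⟩
  exact H906.L34.dead_B hF β hβ.alt hβ.inv hadd hsi hsb hφ.add k1 hφ.eqv k3 hφ.inj k2 l1 l2 l3 l4
    ⟨d1, d2, HF_d1 e, HF_d2 e, hne⟩

end

end Cfsg.Agent.H288.L34
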