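import Cfsg.Agent.H288.L34.Bits
import Cfsg.Agent.H288.L34.Dat

/-! The exterior square of the 9-dimensional module of SL(3,4) (hermitian matrices) inside a module without fixed vectors. -/

set_option autoImplicit false

namespace Cfsg.Agent.H288.L34

/-- columns of the `g`-th element on the 9-dimensional module. -/
def M (g : ℕ) : List ℕ := Mt.getD g []

/-- columns of the `g`-th element on the exterior square. -/
def G (g : ℕ) : List ℕ := Gt.getD g []

/-- the wedge product of bit masks. -/
def wedge (x y : ℕ) : ℕ := act (tab.map (fun r => act r y)) x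

/-- the pairing table. -/
def tb (i j : ℕ) : ℕ := (tab.getD i []).getD j 0

theorem tab_ok : ∀ i < 9, ∀ j < 9, (i = j ∧ tb i j = 0) ∨
    (i ≠ j ∧ ∃ k < 36, tb i j = 2 ^ k ∧ prs.getD k (0, 0) = (min i j, max i j)) := by decide +kernel

theorem G_ok : ∀ g < 10, G g = prs.map (fun p => wedge ((M g).getD p.1 0) ((M g).getD p.2 0)) := by decide +kernel

theorem prs_lt : ∀ p ∈ prs, p.1 < 9 ∧ p.2 < 9 := by decide +kernel

theorem M_len : ∀ g < 10, (M g).length = 9 := by decide +kernel

theorem ev_two_pow {V : Type*} [AddCommGroup V] (vs : List V) (k : ℕ) : ev vs (2 ^ k) = vs.getD k 0 := by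
  induction k generalizing vs with
  | zero =>
    cases vs with
    | nil => rfl
    | cons v vs =>
      have h : ((2 ^ 0 : ℕ) % 2).beq 1 = true := rfl
      rw [ev_cons, h]
      have h2 : (2 ^ 0 : ℕ) / 2 = 0 := rfl
      rw [h2, ev_zero]; simp
  | succ k ih =>
    cases vs with
    | nil => simp [ev]
    | cons v vs =>
      have h1 : (2 ^ (k + 1) : ℕ) % 2 = 0 := by rw [pow_succ]; omega
      have h2 : (2 ^ (k + 1) : ℕ) / 2 = 2 ^ k := by rw [pow_succ]; omega
      have h : ((2 ^ (k + 1) : ℕ) % 2).beq 1 = false := by rw [h1]; rfl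
      rw [ev_cons, h, h2, ih]; simp

section

variable {V : Type*} [AddCommGroup V]

/-- the 36 brackets. -/
def cl (br : V →+ V →+ V) (e : List V) : List V := prs.map (fun p => br (e.getD p.1 0) (e.getD p.2 0))

theorem cl_getD (br : V →+ V →+ V) (e : List V) (k : ℕ) (hk : k < 36) :
    (cl br e).getD k 0 = br (e.getD (prs.getD k (0, 0)).1 0) (e.getD (prs.getD k (0, 0)).2 0) := by
  have hl : k < prs.length := by
    have : prs.length = 36 := by decide +kernel
    omega
  unfold cl
  rw [List.getD_eq_getElem _ _ (by rw [List.length_map]; exact hl), List.getElem_map, List.getD_eq_getElem _ _ hl]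

variable (hV : ∀ v : V, v + v = 0)

include hV in
theorem br_tb (br : V →+ V →+ V) (alt : ∀ x, br x x = 0) (e : List V) (i j : ℕ) (hi : i < 9) (hj : j < 9) :
    br (e.getD i 0) (e.getD j 0) = ev (cl br e) (tb i j) := by
  have sym : ∀ x y, br x y = br y x := by
    intro x y
    have h1 := alt (x + y)
    simp only [map_add, AddMonoidHom.add_apply, alt, zero_add, add_zero] at h1
    have h2 := hV (br y x)
    have h3 : br x y + br y x = 0 := by rw [add_comm]; exact h1
    exact add_right_cancel (h3.trans h2.symm)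
  rcases tab_ok i hi j hj with ⟨h1, h2⟩ | ⟨h1, k, hk, h2, h3⟩
  · rw [h2, h1, alt, ev_zero]
  · rw [h2, ev_two_pow, cl_getD br e k hk, h3]
    rcases le_total i j with h | h
    · rw [min_eq_left h, max_eq_right h]
    · rw [min_eq_right h, max_eq_left h]; exact sym _ _

theorem map_nine {W : Type*} (e : List V) (he : e.length = 9) (f : V → W) :
    e.map f = (List.range 9).map (fun i => f (e.getD i 0)) := by
  apply List.ext_getElem
  · simp [he]
  · intro i h1 h2
    have h3 : i < e.length := by rw [List.length_map] at h1; exact h1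
    rw [List.getElem_map, List.getElem_map, List.getElem_range, List.getD_eq_getElem _ _ h3]

include hV in
theorem br_ev (br : V →+ V →+ V) (alt : ∀ x, br x x = 0) (e : List V) (he : e.length = 9) (x y : ℕ) :
    br (ev e x) (ev e y) = ev (cl br e) (wedge x y) := by
  have h1 : br (ev e x) (ev e y) = ev (e.map (fun u => br u (ev e y))) x :=
    map_ev ((AddMonoidHom.flip br) (ev e y)) e x
  have h2 : e.map (fun u => br u (ev e y)) = (tab.map (fun r => act r y)).map (ev (cl br e)) := by
    have hr : ∀ i < 9, br (e.getD i 0) (ev e y) = ev (cl br e) (act (tab.getD i []) y) := by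
      intro i hi
      rw [map_ev (br (e.getD i 0)) e y, ← ev_map_ev hV]
      congr 1
      have h3 : (tab.getD i []) = (List.range 9).map (fun j => tb i j) := by
        have : ∀ i < 9, (tab.getD i []) = (List.range 9).map (fun j => tb i j) := by decide +kernel
        exact this i hi
      rw [h3, List.map_map, map_nine e he]
      apply List.map_congr_left
      intro j hj
      exact br_tb hV br alt e i j hi (List.mem_range.1 hj)
    have h4 : tab = (List.range 9).map (fun i => tab.getD i []) := by decide +kernel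
    conv_rhs => rw [h4]
    rw [List.map_map, List.map_map, map_nine e he]
    apply List.map_congr_left
    intro i hi
    exact hr i (List.mem_range.1 hi)
  rw [h1, h2, ev_map_ev hV]
  rfl

/-- a system of nine vectors on which the ten operators act by the matrices `M`. -/
structure Sys (ρ : ℕ → V →+ V) (e : List V) : Prop where
  len : e.length = 9
  eq : ∀ g < 10, e.map (ρ g) = (M g).map (ev e)

variable {ρ : ℕ → V →+ V} {br : V →+ V →+ V}

theorem Sys.getD {e : List V} (h : Sys ρ e) (g : ℕ) (hg : g < 10) (i : ℕ) (hi : i < 9) :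
    ρ g (e.getD i 0) = ev e ((M g).getD i 0) := by
  have h1 := h.eq g hg
  have h2 : i < e.length := by rw [h.len]; exact hi
  have h3 : i < (M g).length := by rw [M_len g hg]; exact hi
  have h4 := congrArg (fun l : List V => l[i]?) h1
  simp only [List.getElem?_map] at h4
  rw [List.getElem?_eq_getElem h2, List.getElem?_eq_getElem h3] at h4
  rw [List.getD_eq_getElem _ _ h2, List.getD_eq_getElem _ _ h3]
  simpa using h4

include hV in
theorem Sys.ev {e : List V} (h : Sys ρ e) (g : ℕ) (hg : g < 10) (n : ℕ) :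
    ρ g (L34.ev e n) = L34.ev e (act (M g) n) := by
  rw [map_ev (ρ g), h.eq g hg, ev_map_ev hV]

include hV in
theorem Sys.cl {e : List V} (h : Sys ρ e) (alt : ∀ x, br x x = 0)
    (eqv : ∀ g < 10, ∀ x y, ρ g (br x y) = br (ρ g x) (ρ g y)) (g : ℕ) (hg : g < 10) (n : ℕ) :
    ρ g (L34.ev (cl br e) n) = L34.ev (L34.cl br e) (act (G g) n) := by
  rw [map_ev (ρ g), ← ev_map_ev hV]
  congr 1
  rw [G_ok g hg, List.map_map]
  unfold L34.cl
  rw [List.map_map]
  apply List.map_congr_left
  intro p hp
  obtain ⟨h1, h2⟩ := prs_lt p hp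
  show ρ g (br (e.getD p.1 0) (e.getD p.2 0)) = _
  rw [eqv g hg, h.getD g hg _ h1, h.getD g hg _ h2, br_ev hV br alt e h.len]
  rfl

end

/-! ### Subspaces of the exterior square -/

/-- difference columns. -/
def Df (g : ℕ) : List ℕ := List.zipWith (· ^^^ ·) (G g) (pows 36 0)

/-- the projection on the fixed space of the upper unitriangular group. -/
def Q1 : List ℕ := [1, 2, 36] ++ List.replicate 33 0

/-- the list of the xors. -/
def zx (l m : List ℕ) : List ℕ := List.zipWith (· ^^^ ·) l m

theorem c1 : pows 36 0 = zx ((Df 0).map (act (L1.getD 0 []))) (zx ((Df 1).map (act (L1.getD 1 [])))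
    (zx ((Df 2).map (act (L1.getD 2 []))) (zx ((Df 3).map (act (L1.getD 3 []))) Q1))) := by decide +kernel

theorem c5 : pows 36 0 = zx ((Df 6).map (act (L5.getD 0 []))) (zx ((Df 7).map (act (L5.getD 1 [])))
    (zx ((Df 8).map (act (L5.getD 2 []))) (zx ((Df 9).map (act (L5.getD 3 [])))
      ((Df 0).map (act (L5.getD 4 [])))))) := by decide +kernel

theorem len_ok : ∀ g < 10, (G g).length = 36 ∧ triOK (Df g) 0 = (decide (g < 4)) ∧ ltOK (G g) 36 = true ∧
    (Df g).length = 36 := by decide +kernel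

theorem len_pows : (pows 36 0).length = 36 := by decide +kernel

theorem act_Df (g : ℕ) (hg : g < 10) (n : ℕ) (hn : n < 2 ^ 36) : act (Df g) n = act (G g) n ^^^ n := by
  unfold Df
  rw [act_zip _ _ (by rw [(len_ok g hg).1, len_pows]), act_pows_zero 36 n hn]

theorem act_zx (l m : List ℕ) (hl : l.length = 36) (hm : m.length = 36) (n : ℕ) :
    act (zx l m) n = act l n ^^^ act m n := act_zip l m (by rw [hl, hm]) n

theorem len_zx (l m : List ℕ) (hl : l.length = 36) (hm : m.length = 36) : (zx l m).length = 36 := by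
  unfold zx; rw [List.length_zipWith, hl, hm]; rfl

theorem fix1 (n : ℕ) (hn : n < 2 ^ 36) (h : ∀ g < 4, act (G g) n = n) : n = act Q1 n := by
  have hD : ∀ g < 4, act (Df g) n = 0 := by
    intro g hg
    rw [act_Df g (by omega) n hn, h g hg, Nat.xor_self]
  have lm : ∀ g < 10, ∀ l : List ℕ, ((Df g).map (act l)).length = 36 := by
    intro g hg l; rw [List.length_map]; exact (len_ok g hg).2.2.2
  have lQ : Q1.length = 36 := by decide +kernel
  have h1 := act_pows_zero 36 n hn
  rw [c1, act_zx _ _ (lm 0 (by norm_num) _) (len_zx _ _ (lm 1 (by norm_num) _) (len_zx _ _ (lm 2 (by norm_num) _)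
      (len_zx _ _ (lm 3 (by norm_num) _) lQ))),
    act_zx _ _ (lm 1 (by norm_num) _) (len_zx _ _ (lm 2 (by norm_num) _) (len_zx _ _ (lm 3 (by norm_num) _) lQ)),
    act_zx _ _ (lm 2 (by norm_num) _) (len_zx _ _ (lm 3 (by norm_num) _) lQ),
    act_zx _ _ (lm 3 (by norm_num) _) lQ, ← act_act, ← act_act, ← act_act, ← act_act,
    hD 0 (by norm_num), hD 1 (by norm_num), hD 2 (by norm_num), hD 3 (by norm_num), act_zero, act_zero, act_zero,
    act_zero, Nat.zero_xor, Nat.zero_xor, Nat.zero_xor, Nat.zero_xor] at h1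
  exact h1.symm

theorem fix5 (n : ℕ) (hn : n < 2 ^ 36) (h : ∀ g < 10, (6 ≤ g ∨ g = 0) → act (G g) n = n) : n = 0 := by
  have hD : ∀ g < 10, (6 ≤ g ∨ g = 0) → act (Df g) n = 0 := by
    intro g hg hg'
    rw [act_Df g hg n hn, h g hg hg', Nat.xor_self]
  have lm : ∀ g < 10, ∀ l : List ℕ, ((Df g).map (act l)).length = 36 := by
    intro g hg l; rw [List.length_map]; exact (len_ok g hg).2.2.2
  have h1 := act_pows_zero 36 n hn
  rw [c5, act_zx _ _ (lm 6 (by norm_num) _) (len_zx _ _ (lm 7 (by norm_num) _) (len_zx _ _ (lm 8 (by norm_num) _)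
      (len_zx _ _ (lm 9 (by norm_num) _) (lm 0 (by norm_num) _)))),
    act_zx _ _ (lm 7 (by norm_num) _) (len_zx _ _ (lm 8 (by norm_num) _) (len_zx _ _ (lm 9 (by norm_num) _)
      (lm 0 (by norm_num) _))),
    act_zx _ _ (lm 8 (by norm_num) _) (len_zx _ _ (lm 9 (by norm_num) _) (lm 0 (by norm_num) _)),
    act_zx _ _ (lm 9 (by norm_num) _) (lm 0 (by norm_num) _), ← act_act, ← act_act, ← act_act, ← act_act, ← act_act,
    hD 6 (by norm_num) (by norm_num), hD 7 (by norm_num) (by norm_num), hD 8 (by norm_num) (by norm_num),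
    hD 9 (by norm_num) (by norm_num), hD 0 (by norm_num) (by norm_num), act_zero, act_zero, act_zero,
    act_zero, act_zero, Nat.zero_xor, Nat.zero_xor, Nat.zero_xor, Nat.zero_xor] at h1
  exact h1.symm

/-- a subspace stable under the first six elements. -/
structure Stab (K : ℕ → Prop) : Prop where
  lt : ∀ n, K n → n < 2 ^ 36
  zero : K 0
  xor : ∀ n m, K n → K m → K (n ^^^ m)
  gen : ∀ g < 6, ∀ n, K n → K (act (G g) n)

/-- words of elements and differences. -/
def chain : List (Bool × ℕ) → ℕ → ℕ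
  | [], n => n
  | (b, g) :: l, n => chain l (cond b (act (G g) n ^^^ n) (act (G g) n))

/-- all indices below six. -/
def lt6 (l : List (Bool × ℕ)) : Bool := l.all (fun p => Nat.ble p.2 5)

theorem Stab.chain {K : ℕ → Prop} (h : Stab K) (l : List (Bool × ℕ)) (hl : lt6 l = true) (n : ℕ) (hn : K n) :
    K (L34.chain l n) := by
  induction l generalizing n with
  | nil => exact hn
  | cons p l ih =>
    obtain ⟨b, g⟩ := p
    unfold lt6 at hl
    rw [List.all_cons, Bool.and_eq_true] at hl
    have hg : g < 6 := by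
      have := Nat.le_of_ble_eq_true hl.1
      simp only at this
      omega
    apply ih hl.2
    cases b
    · exact h.gen g hg n hn
    · exact h.xor _ _ (h.gen g hg n hn) hn

theorem chains : L34.chain [(false, 4), (false, 2), (true, 1), (true, 2), (true, 3)] 1 = 36 ∧
    L34.chain [(false, 4), (false, 2), (true, 0), (true, 2), (true, 3)] 2 = 36 ∧
    L34.chain [(false, 4), (false, 2), (true, 0), (true, 2), (true, 3)] 3 = 36 ∧
    L34.chain [(false, 4), (false, 2), (false, 4), (true, 2), (true, 3)] 37 = 36 ∧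
    L34.chain [(false, 4), (false, 2), (false, 4), (true, 2), (true, 3)] 38 = 36 ∧
    L34.chain [(false, 4), (false, 2), (false, 4), (true, 2), (true, 3)] 39 = 36 := by decide +kernel

theorem act_Q1 (n : ℕ) : act Q1 n = 0 ∨ act Q1 n = 1 ∨ act Q1 n = 2 ∨ act Q1 n = 3 ∨ act Q1 n = 36 ∨
    act Q1 n = 37 ∨ act Q1 n = 38 ∨ act Q1 n = 39 := by
  have h0 : ∀ k m : ℕ, act (List.replicate k 0) m = 0 := by
    intro k
    induction k with
    | zero => intro m; rfl
    | succ k ih => intro m; rw [List.replicate_succ, act_cons, ih]; cases (m % 2).beq 1 <;> rfl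
  unfold Q1
  rw [List.cons_append, List.cons_append, List.cons_append, List.nil_append, act_cons, act_cons, act_cons, h0]
  cases (n % 2).beq 1 <;> cases (n / 2 % 2).beq 1 <;> cases (n / 2 / 2 % 2).beq 1 <;> decide

theorem Stab.has36 {K : ℕ → Prop} (h : Stab K) (n0 : ℕ) (h0 : K n0) (h1 : n0 ≠ 0) : K 36 := by
  classical
  have hex : ∃ n, K n ∧ n ≠ 0 := ⟨n0, h0, h1⟩
  obtain ⟨hK, hne⟩ := Nat.find_spec hex
  have hmin : ∀ m, K m → m < Nat.find hex → m = 0 := by
    intro m hm hlt
    by_contra hc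
    exact Nat.find_min hex hlt ⟨hm, hc⟩
  generalize Nat.find hex = n at hK hne hmin
  have hn := h.lt n hK
  have hfix : ∀ g < 4, act (G g) n = n := by
    intro g hg
    have hg' : g < 10 := by omega
    obtain ⟨-, h2, -, -⟩ := len_ok g hg'
    have h2' : triOK (Df g) 0 = true := by rw [h2]; simp [hg]
    have h3 : n < 2 ^ (Nat.log2 n + 1) := Nat.lt_log2_self
    have h4 : 2 ^ Nat.log2 n ≤ n := Nat.log2_self_le hne
    have h5 := act_tri (Df g) 0 (Nat.log2 n) n h2' h3
    rw [Nat.add_zero] at h5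
    have h6 : act (Df g) n < n := lt_of_lt_of_le h5 h4
    rw [act_Df g hg' n hn] at h6
    have h7 := hmin _ (h.xor _ _ (h.gen g (by omega) n hK) hK) h6
    exact Nat.xor_eq_zero_iff.1 h7
  have h2 := fix1 n hn hfix
  obtain ⟨k1, k2, k3, k5, k6, k7⟩ := chains
  rcases act_Q1 n with h3 | h3 | h3 | h3 | h3 | h3 | h3 | h3 <;> rw [h3] at h2
  · exact absurd h2 hne
  · rw [← k1]; exact h.chain _ (by decide) _ (h2 ▸ hK)
  · rw [← k2]; exact h.chain _ (by decide) _ (h2 ▸ hK)
  · rw [← k3]; exact h.chain _ (by decide) _ (h2 ▸ hK)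
  · exact h2 ▸ hK
  · rw [← k5]; exact h.chain _ (by decide) _ (h2 ▸ hK)
  · rw [← k6]; exact h.chain _ (by decide) _ (h2 ▸ hK)
  · rw [← k7]; exact h.chain _ (by decide) _ (h2 ▸ hK)

/-- successive images. -/
def build : List (ℕ × ℕ) → List ℕ → List ℕ
  | [], acc => acc
  | (g, j) :: ws, acc => build ws (acc ++ [act (G g) (acc.getD j 0)])

/-- all indices below six. -/
def lt6' (l : List (ℕ × ℕ)) : Bool := l.all (fun p => Nat.ble p.1 5)

theorem Stab.build {K : ℕ → Prop} (h : Stab K) (ws : List (ℕ × ℕ)) (hw : lt6' ws = true) (acc : List ℕ)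
    (ha : ∀ x ∈ acc, K x) : ∀ x ∈ L34.build ws acc, K x := by
  induction ws generalizing acc with
  | nil => exact ha
  | cons p ws ih =>
    obtain ⟨g, j⟩ := p
    unfold lt6' at hw
    rw [List.all_cons, Bool.and_eq_true] at hw
    have hg : g < 6 := by
      have := Nat.le_of_ble_eq_true hw.1
      simp only at this
      omega
    apply ih hw.2
    intro x hx
    rcases List.mem_append.1 hx with hx | hx
    · exact ha x hx
    · rw [List.mem_singleton.1 hx]
      apply h.gen g hg
      by_cases hj : j < acc.length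
      · rw [List.getD_eq_getElem _ _ hj]; exact ha _ (List.getElem_mem hj)
      · rw [List.getD_eq_default _ _ (by omega)]; exact h.zero

theorem Stab.act {K : ℕ → Prop} (h : Stab K) (l : List ℕ) (hl : ∀ x ∈ l, K x) (n : ℕ) : K (L34.act l n) := by
  induction l generalizing n with
  | nil => exact h.zero
  | cons c l ih =>
    rw [act_cons]
    apply h.xor
    · cases (n % 2).beq 1
      · exact h.zero
      · exact hl c (List.mem_cons_self ..)
    · exact ih (fun x hx => hl x (List.mem_cons_of_mem _ hx)) _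

theorem soc_ok : L34.build sow [36] = soc ∧ lt6' sow = true := by decide +kernel

theorem alv_ok : L34.build alw [1073758212] = alv ∧ lt6' alw = true := by decide +kernel

theorem alc_ok : alc.map (L34.act alv) = pows 36 0 := by decide +kernel

/-- the four vectors `x_k ∧ y_k`. -/
def bt : List ℕ := [1073758212, 9061996064, 9531925024, 9196450848]

theorem dif_ok : ∀ j < 3, ∀ g < 10, L34.act (G g) (1073758212 ^^^ bt.getD (j + 1) 0) =
    (1073758212 ^^^ bt.getD (j + 1) 0) ^^^ L34.act soc ((dif.getD j []).getD g 0) := by decide +kernel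

theorem Stab.soc {K : ℕ → Prop} (h : Stab K) (n0 : ℕ) (h0 : K n0) (h1 : n0 ≠ 0) : ∀ x ∈ L34.soc, K x := by
  rw [← soc_ok.1]
  apply h.build _ soc_ok.2
  intro x hx
  rw [List.mem_singleton.1 hx]
  exact h.has36 n0 h0 h1

theorem Stab.all {K : ℕ → Prop} (h : Stab K) (h0 : K 1073758212) (n : ℕ) (hn : n < 2 ^ 36) : K n := by
  have h1 : ∀ x ∈ alv, K x := by
    rw [← alv_ok.1]
    apply h.build _ alv_ok.2
    intro x hx
    rw [List.mem_singleton.1 hx]
    exact h0
  have h2 : n = L34.act alv (L34.act alc n) := by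
    rw [act_act, alc_ok, act_pows_zero 36 n hn]
  rw [h2]
  exact h.act _ h1 _

section

variable {V : Type*} [AddCommGroup V] (hV : ∀ v : V, v + v = 0) {ρ : ℕ → V →+ V} {br : V →+ V →+ V}

include hV in
theorem Sys.stab {e : List V} (h : Sys ρ e) (alt : ∀ x, br x x = 0)
    (eqv : ∀ g < 10, ∀ x y, ρ g (br x y) = br (ρ g x) (ρ g y)) (P : V → Prop) (hP0 : P 0)
    (hPa : ∀ x y, P x → P y → P (x + y)) (hPg : ∀ g < 6, ∀ x, P x → P (ρ g x)) :
    Stab (fun n => n < 2 ^ 36 ∧ P (L34.ev (L34.cl br e) n)) where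
  lt n hn := hn.1
  zero := ⟨by norm_num, by rw [ev_zero]; exact hP0⟩
  xor n m hn hm := ⟨Nat.xor_lt_two_pow hn.1 hm.1, by rw [ev_xor hV]; exact hPa _ _ hn.2 hm.2⟩
  gen g hg n hn := ⟨act_lt _ _ _ (len_ok g (by omega)).2.2.1, by
    rw [← h.cl hV alt eqv g (by omega)]; exact hPg g hg _ hn.2⟩

include hV in
/-- either the exterior square embeds or the four brackets are equal. -/
theorem Sys.dich {e : List V} (h : Sys ρ e) (alt : ∀ x, br x x = 0)
    (eqv : ∀ g < 10, ∀ x y, ρ g (br x y) = br (ρ g x) (ρ g y)) (hfix : ∀ v, (∀ g < 10, ρ g v = v) → v = 0) :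
    (∀ n < 2 ^ 36, L34.ev (L34.cl br e) n = 0 → n = 0) ∨
    (∀ j < 4, L34.ev (L34.cl br e) (bt.getD j 0) = L34.ev (L34.cl br e) 1073758212) := by
  classical
  by_cases hi : ∀ n < 2 ^ 36, L34.ev (L34.cl br e) n = 0 → n = 0
  · left; exact hi
  right
  push Not at hi
  obtain ⟨n0, hn, h0, h1⟩ := hi
  have hS := h.stab hV alt eqv (fun v => v = 0) rfl (by intro x y hx hy; rw [hx, hy, add_zero])
    (by intro g hg x hx; rw [hx, map_zero])
  have hs := hS.soc n0 ⟨hn, h0⟩ h1
  have key : ∀ j < 3, L34.ev (L34.cl br e) (bt.getD (j + 1) 0) = L34.ev (L34.cl br e) 1073758212 := by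
    intro j hj
    have h2 : L34.ev (L34.cl br e) (1073758212 ^^^ bt.getD (j + 1) 0) = 0 := by
      apply hfix
      intro g hg
      rw [h.cl hV alt eqv g hg, dif_ok j hj g hg, ev_xor hV, (hS.act _ hs _).2, add_zero]
    rw [ev_xor hV] at h2
    have h3 := hV (L34.ev (L34.cl br e) (bt.getD (j + 1) 0))
    exact (add_right_cancel (h2.trans h3.symm)).symm
  intro j hj
  cases j with
  | zero => rfl
  | succ j => exact key j (by omega)

include hV in
/-- if the first bracket vanishes then all brackets vanish. -/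
theorem Sys.zero_of {e : List V} (h : Sys ρ e) (alt : ∀ x, br x x = 0)
    (eqv : ∀ g < 10, ∀ x y, ρ g (br x y) = br (ρ g x) (ρ g y)) (h0 : L34.ev (L34.cl br e) 1073758212 = 0) :
    ∀ n < 2 ^ 36, L34.ev (L34.cl br e) n = 0 := by
  have hS := h.stab hV alt eqv (fun v => v = 0) rfl (by intro x y hx hy; rw [hx, hy, add_zero])
    (by intro g hg x hx; rw [hx, map_zero])
  intro n hn
  exact (hS.all ⟨by norm_num, h0⟩ n hn).2

/-- the automorphism inverse transpose conjugate on the indices. -/
def tau (g : ℕ) : ℕ := if g < 4 then g + 6 else if g < 6 then g else g - 6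

theorem dual_ok : ∀ g < 10, Ep.map (L34.act (G (tau g))) = (M g).map (L34.act Ep) ∧ tau g < 10 ∧ tau (tau g) = g := by
  decide +kernel

include hV in
/-- the dual system inside the exterior square. -/
theorem Sys.dual {e : List V} (h : Sys ρ e) (alt : ∀ x, br x x = 0)
    (eqv : ∀ g < 10, ∀ x y, ρ g (br x y) = br (ρ g x) (ρ g y)) :
    Sys (fun g => ρ (tau g)) (Ep.map (L34.ev (L34.cl br e))) where
  len := by rw [List.length_map]; decide +kernel
  eq g hg := by
    obtain ⟨h1, h2, -⟩ := dual_ok g hg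
    rw [List.map_map]
    have h3 : (⇑(ρ (tau g)) ∘ L34.ev (L34.cl br e)) = (L34.ev (L34.cl br e)) ∘ (L34.act (G (tau g))) := by
      funext n
      exact h.cl hV alt eqv _ h2 n
    rw [h3, ← List.map_map, h1, List.map_map]
    apply List.map_congr_left
    intro m hm
    exact (ev_map_ev hV _ _ _).symm

theorem fix36 : ∀ g < 10, (g < 4 ∨ g = 6) → L34.act (G g) 36 = 36 := by decide +kernel

include hV in
/-- both exterior squares embed: then their sum is direct. -/
theorem Sys.direct {e : List V} (h : Sys ρ e) (alt : ∀ x, br x x = 0)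
    (eqv : ∀ g < 10, ∀ x y, ρ g (br x y) = br (ρ g x) (ρ g y)) (f : List V) (hf : Sys (fun g => ρ (tau g)) f)
    (he1 : ∀ n < 2 ^ 36, L34.ev (L34.cl br e) n = 0 → n = 0)
    (hf1 : ∀ n < 2 ^ 36, L34.ev (L34.cl br f) n = 0 → n = 0) (n m : ℕ) (hn : n < 2 ^ 36) (hm : m < 2 ^ 36)
    (hnm : L34.ev (L34.cl br e) n = L34.ev (L34.cl br f) m) : n = 0 ∧ m = 0 := by
  have eqv' : ∀ g < 10, ∀ x y, (fun g => ρ (tau g)) g (br x y) = br ((fun g => ρ (tau g)) g x)
      ((fun g => ρ (tau g)) g y) := fun g hg x y => eqv _ (dual_ok g hg).2.1 x y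
  have hm0 : m = 0 := by
    by_contra hc
    have hS := hf.stab (br := br) hV alt eqv' (fun v => ∃ k < 2 ^ 36, L34.ev (L34.cl br e) k = v)
      ⟨0, by norm_num, ev_zero _⟩
      (by
        rintro x y ⟨k, hk, rfl⟩ ⟨l, hl, rfl⟩
        exact ⟨k ^^^ l, Nat.xor_lt_two_pow hk hl, ev_xor hV _ _ _⟩)
      (by
        rintro g hg x ⟨k, hk, rfl⟩
        have h2 := (dual_ok g (by omega)).2.1
        exact ⟨L34.act (G (tau g)) k, act_lt _ _ _ (len_ok _ h2).2.2.1, (h.cl hV alt eqv _ h2 k).symm⟩)
    obtain ⟨-, k, hk, hk2⟩ := hS.has36 m ⟨hm, n, hn, hnm⟩ hc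
    have hk0 : k = 0 := by
      apply fix5 k hk
      intro g hg hg'
      have h2 := dual_ok g hg
      have h3 : L34.ev (L34.cl br e) (L34.act (G g) k) = L34.ev (L34.cl br e) k := by
        rw [← h.cl hV alt eqv g hg, hk2]
        have h4 := hf.cl (br := br) hV alt eqv' (tau g) h2.2.1 36
        rw [h2.2.2] at h4
        rw [h4, fix36 _ h2.2.1]
        rcases hg' with h5 | h5
        · left; unfold tau; rw [if_neg (by omega), if_neg (by omega)]; omega
        · right; rw [h5]; rfl
      have h6 : L34.ev (L34.cl br e) (L34.act (G g) k ^^^ k) = 0 := by rw [ev_xor hV, h3, hV]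
      have h7 := he1 _ (Nat.xor_lt_two_pow (act_lt _ _ _ (len_ok g hg).2.2.1) hk) h6
      exact Nat.xor_eq_zero_iff.1 h7
    rw [hk0, ev_zero] at hk2
    have := hf1 36 (by norm_num) hk2.symm
    omega
  refine ⟨?_, hm0⟩
  rw [hm0, ev_zero] at hnm
  exact he1 n hn hnm

end

end Cfsg.Agent.H288.L34
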