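import Cfsg.Agent.H288.L34.LamGen

/-! The exterior square of the 9 embedded: its socle is the dual 9 (S5917, part of `lam_emb`). -/

set_option autoImplicit false
set_option linter.constructorNameAsVariable false

namespace Cfsg.Agent.H288.L34

open Matrix Cfsg.Agent.H691.L34 Cfsg.Agent.SporadicA.FieldFour

/-- coordinates of `Ep` in the socle. -/
def epc : List ℕ := [16, 50, 82, 2, 166, 298, 7, 11, 1]

theorem epc_ok : epc.map (act soc) = Ep := by decide +kernel

theorem Ep_lt : ltOK Ep 36 = true := by decide +kernel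

theorem Ep_inj : ∀ n < 512, act Ep n = 0 → n = 0 := by decide +kernel

/-- is zero -/
def zb (l : List F4) : Bool := eqb l [F4.z, F4.z, F4.z, F4.z, F4.z, F4.z, F4.z, F4.z, F4.z]

theorem B4_inj' : ∀ n < 512, zb [evf (B4.map (fun X => X 0 0)) n, evf (B4.map (fun X => X 0 1)) n,
      evf (B4.map (fun X => X 0 2)) n, evf (B4.map (fun X => X 1 0)) n, evf (B4.map (fun X => X 1 1)) n,
      evf (B4.map (fun X => X 1 2)) n, evf (B4.map (fun X => X 2 0)) n, evf (B4.map (fun X => X 2 1)) n,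
      evf (B4.map (fun X => X 2 2)) n] = true → n = 0 := by decide +kernel

theorem eqb_refl (l : List F4) : eqb l l = true := by
  induction l with
  | nil => rfl
  | cons a l ih => cases a <;> exact ih

theorem B4_inj (n : ℕ) (hn : n < 2 ^ 9) (h : ev B4 n = 0) : n = 0 := by
  apply B4_inj' n hn
  have hz : ∀ a b : Fin 3, evf (B4.map (fun X => X a b)) n = F4.z := by
    intro a b
    rw [← ev_entry, h]; rfl
  rw [hz, hz, hz, hz, hz, hz, hz, hz, hz]
  rfl

theorem B4_inj2 (n m : ℕ) (hn : n < 2 ^ 9) (hm : m < 2 ^ 9) (h : ev B4 n = ev B4 m) : n = m := by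
  have hV : ∀ X : M3 F4, X + X = 0 := by
    intro X; ext i j
    have : ∀ a : F4, a + a = 0 := by decide
    exact this _
  have h1 : ev B4 (n ^^^ m) = 0 := by rw [ev_xor hV, h, hV]
  exact Nat.xor_eq_zero_iff.1 (B4_inj _ (Nat.xor_lt_two_pow hn hm) h1)

section

variable {F : Type} [Field F] (e : F4 ≃+* F)

/-- squaring -/
def sqh : F →+* F where
  toFun a := a ^ 2
  map_one' := one_pow 2
  map_mul' a b := mul_pow a b 2
  map_zero' := by ring
  map_add' a b := by linear_combination (a * b) * char_two e 1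

theorem sqh_sqh (a : F) : sqh e (sqh e a) = a := by
  show (a ^ 2) ^ 2 = a
  have h0 : ∀ x : F4, (x ^ 2) ^ 2 = x := by
    intro x
    have : ∀ x : F4, (x * x) * (x * x) = x := by decide
    rw [pow_two, pow_two]; exact this x
  have h := congrArg e (h0 (e.symm a))
  rw [map_pow, map_pow, RingEquiv.apply_symm_apply] at h
  exact h

/-- squaring on matrices -/
def cjm : M3 F →+* M3 F := (sqh e).mapMatrix

/-- squaring on the group -/
def cj : G3 F →* G3 F := SpecialLinearGroup.map (sqh e)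

theorem cj_coe (g : G3 F) : (cj e g).1 = cjm e g.1 := rfl

theorem cjm_cjm (X : M3 F) : cjm e (cjm e X) = X := by
  ext i j
  exact sqh_sqh e _

theorem cj_cj (g : G3 F) : cj e (cj e g) = g := by
  apply Subtype.ext
  rw [cj_coe, cj_coe, cjm_cjm]

theorem ct_cjm (X : M3 F) : ct (cjm e X) = cjm e (ct X) := rfl

theorem cjm_hact (g : G3 F) (X : M3 F) : cjm e (hact g X) = hact (cj e g) (cjm e X) := by
  unfold hact
  rw [map_mul, map_mul, cj_coe, ct_cjm]

theorem HF_cjm (X : M3 F) (hX : HF X) : HF (cjm e X) := by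
  unfold HF
  rw [ct_cjm, hX]

include e in
theorem HF_hact (g : G3 F) (X : M3 F) (hX : HF X) : HF (hact g X) := by
  unfold HF hact
  rw [ct_mul _ _ (char_two e), ct_mul _ _ (char_two e), ct_ct e, hX, Matrix.mul_assoc]

include e in
theorem hact_mul (a b : G3 F) (X : M3 F) : hact (a * b) X = hact a (hact b X) := by
  unfold hact
  show (a.1 * b.1) * X * ct (a.1 * b.1) = _
  rw [ct_mul _ _ (char_two e)]
  simp only [Matrix.mul_assoc]

omit e in
/-- entries of the product -/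
def ge (k : ℕ) (a b : Fin 3) : F4 := (gm (tau k) * ct (gm k)) a b

omit e in
theorem ge_ok : ∀ k < 10, ∀ a b : Fin 3, ge k a b = if a = b then F4.o else F4.z := by
  decide +kernel

omit e in
theorem it_eq (y h : G3 F) (hy : h.1 * y.1.transpose = 1) : it y = h := by
  apply Subtype.ext
  have h1 : (it y).1 * y.1.transpose = 1 := by
    show (y⁻¹ : G3 F).1.transpose * y.1.transpose = 1
    rw [← Matrix.transpose_mul]
    have h7 : y.1 * (y⁻¹ : G3 F).1 = 1 := by
      have : (y * y⁻¹ : G3 F).1 = (1 : G3 F).1 := by rw [mul_inv_cancel]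
      exact this
    rw [h7, Matrix.transpose_one]
  have h2 : y.1.transpose * h.1 = 1 := mul_eq_one_comm.1 hy
  calc (it y).1 = (it y).1 * (y.1.transpose * h.1) := by rw [h2, Matrix.mul_one]
    _ = ((it y).1 * y.1.transpose) * h.1 := (Matrix.mul_assoc _ _ _).symm
    _ = h.1 := by rw [h1, Matrix.one_mul]

theorem gF_tau (k : ℕ) (hk : k < 10) : it (cj e (gF e k)) = gF e (tau k) := by
  apply it_eq
  show mu e (gm (tau k)) * ct (mu e (gm k)) = 1
  rw [ct_mu, ← map_mul]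
  have h : gm (tau k) * ct (gm k) = 1 := by
    ext a b
    refine (ge_ok k hk a b).trans ?_
    rw [Matrix.one_apply]; rfl
  rw [h, map_one]

end

section

variable {F : Type} [Field F] (e : F4 ≃+* F)

open Classical in
/-- index of a hermitian matrix -/
noncomputable def idx (X : M3 F) : ℕ := if h : ∃ n < 2 ^ 9, X = mu e (ev B4 n) then h.choose else 0

theorem idx_spec (X : M3 F) (hX : HF X) : idx e X < 2 ^ 9 ∧ X = mu e (ev B4 (idx e X)) := by
  have h := herm_ev e X hX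
  unfold idx
  rw [dif_pos h]
  exact h.choose_spec

theorem idx_ev (n : ℕ) (hn : n < 2 ^ 9) : idx e (mu e (ev B4 n)) = n := by
  obtain ⟨h1, h2⟩ := idx_spec e _ (HF_ev e n)
  exact B4_inj2 _ _ h1 hn (mu_inj e _ _ h2.symm)

theorem idx_zero : idx e 0 = 0 := by
  have h : (0 : M3 F) = mu e (ev B4 0) := by rw [ev_zero, map_zero]
  rw [h]
  exact idx_ev e 0 (by norm_num)

theorem idx_add (X Y : M3 F) (hX : HF X) (hY : HF Y) : idx e (X + Y) = idx e X ^^^ idx e Y := by
  obtain ⟨h1, h2⟩ := idx_spec e X hX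
  obtain ⟨h3, h4⟩ := idx_spec e Y hY
  have hV : ∀ X : M3 F4, X + X = 0 := by
    intro X; ext i j
    have : ∀ a : F4, a + a = 0 := by decide
    exact this _
  have h5 : X + Y = mu e (ev B4 (idx e X ^^^ idx e Y)) := by
    rw [ev_xor hV, map_add, ← h2, ← h4]
  rw [congrArg (idx e) h5]
  exact idx_ev e _ (Nat.xor_lt_two_pow h1 h3)

theorem M_lt : ∀ k < 10, ltOK (M k) 9 = true := by decide +kernel

theorem idx_hact (k : ℕ) (hk : k < 10) (X : M3 F) (hX : HF X) :
    idx e (hact (gF e k) X) = act (M k) (idx e X) := by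
  obtain ⟨h1, h2⟩ := idx_spec e X hX
  have h3 : hact (gF e k) X = mu e (ev B4 (act (M k) (idx e X))) := by
    conv_lhs => rw [h2]
    exact hact_gF e k hk _
  rw [h3]
  exact idx_ev e _ (act_lt _ _ _ (M_lt k hk))

end

section

variable {F : Type} [Field F] {V : Type} [AddCommGroup V] [Module (ZMod 2) V]
  {ρ : Representation (ZMod 2) (G3 F) V} (e : F4 ≃+* F)

theorem psi_all (b : Bool) (f : List V) (hf : Sys (fun g => rr e ρ b (tau g)) f) (y : G3 F) :
    ∀ X, HF X → ρ (tw b (it (cj e y))) (ev f (idx e X)) = ev f (idx e (hact y X)) := by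
  apply gen_ind e (fun y => ∀ X, HF X → ρ (tw b (it (cj e y))) (ev f (idx e X)) = ev f (idx e (hact y X)))
  · intro X hX
    rw [map_one, map_one, map_one, map_one]
    have h1 : ct (1 : M3 F) = 1 := by
      unfold ct
      ext i j
      rw [Matrix.transpose_apply, Matrix.map_apply, Matrix.one_apply, Matrix.one_apply]
      by_cases h : i = j
      · rw [if_pos h, if_pos h.symm, one_pow]
      · rw [if_neg h, if_neg (Ne.symm h)]; ring
    have : hact (1 : G3 F) X = X := by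
      unfold hact
      show 1 * X * ct 1 = X
      rw [h1, Matrix.one_mul, Matrix.mul_one]
    rw [this]; rfl
  · intro a c ha hc X hX
    rw [map_mul, map_mul, map_mul, map_mul, hact_mul e]
    show ρ _ (ρ _ (ev f _)) = _
    rw [hc X hX, ha _ (HF_hact e c X hX)]
  · intro k hk X hX
    rw [gF_tau e k hk, idx_hact e k hk X hX]
    exact hf.ev vv k hk _

theorem tw_it (b : Bool) (g : G3 F) : tw b (it (tw (!b) g)) = g := by
  cases b
  · exact it_it g
  · exact it_it g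

/-- the dual nine -/
theorem dual_nine (b : Bool) (f : List V) (hf : Sys (fun g => rr e ρ b (tau g)) f)
    (hi : ∀ n < 2 ^ 9, ev f n = 0 → n = 0) (N : Submodule (ZMod 2) V)
    (hN : ∀ v, v ∈ N ↔ ∃ n < 2 ^ 9, ev f n = v) : IsNine ρ (!b) N := by
  refine ⟨fun X => ev f (idx e (cjm e X)), ?_, ?_, ?_, ?_⟩
  · intro X Y hX hY
    show ev f (idx e (cjm e (X + Y))) = ev f _ + ev f _
    rw [map_add, idx_add e _ _ (HF_cjm e X hX) (HF_cjm e Y hY), ev_xor vv]
  · intro X hX h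
    obtain ⟨h1, h2⟩ := idx_spec e _ (HF_cjm e X hX)
    have h3 := hi _ h1 h
    rw [h3, ev_zero, map_zero] at h2
    rw [← cjm_cjm e X, h2, map_zero]
  · intro v
    rw [hN]
    constructor
    · rintro ⟨n, hn, rfl⟩
      refine ⟨cjm e (mu e (ev B4 n)), HF_cjm e _ (HF_ev e n), ?_⟩
      show ev f (idx e (cjm e (cjm e (mu e (ev B4 n))))) = _
      rw [cjm_cjm, idx_ev e n hn]
    · rintro ⟨X, hX, rfl⟩
      exact ⟨_, (idx_spec e _ (HF_cjm e X hX)).1, rfl⟩
  · intro g X hX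
    show ρ g (ev f (idx e (cjm e X))) = ev f (idx e (cjm e (hact (tw (!b) g) X)))
    rw [cjm_hact, ← psi_all e b f hf _ _ (HF_cjm e X hX), cj_cj, tw_it]

end

section

variable {F : Type} [Field F] [Fintype F] {V : Type} [AddCommGroup V] [Module (ZMod 2) V] [Module.Finite (ZMod 2) V]
  {ρ : Representation (ZMod 2) (G3 F) V}

omit [Module.Finite (ZMod 2) V] in
theorem bsp_sub {β : V →ₗ[ZMod 2] V →ₗ[ZMod 2] V} (hβ : Brk ρ β) (e : F4 ≃+* F) {W : Submodule (ZMod 2) V} {φ : M3 F → V}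
    (h1 : ∀ X Y, HF X → HF Y → φ (X + Y) = φ X + φ Y) (h2 : ∀ v, v ∈ W ↔ ∃ X, HF X ∧ φ X = v) (v : V)
    (hv : v ∈ bsp β W) : ∃ n < 2 ^ 36, ev (cl (brA β) (el e φ)) n = v := by
  unfold bsp at hv
  induction hv using Submodule.span_induction with
  | mem x hx =>
    obtain ⟨x, hx, y, hy, rfl⟩ := hx
    obtain ⟨X, hX, rfl⟩ := (h2 x).1 hx
    obtain ⟨Y, hY, rfl⟩ := (h2 y).1 hy
    obtain ⟨n, -, rfl⟩ := herm_ev e X hX
    obtain ⟨m, -, rfl⟩ := herm_ev e Y hY
    exact ⟨_, wedge_lt n m, (beta_ev hβ e h1 n m).symm⟩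
  | zero => exact ⟨0, by norm_num, ev_zero _⟩
  | add x y _ _ hx hy =>
    obtain ⟨n, hn, rfl⟩ := hx
    obtain ⟨m, hm, rfl⟩ := hy
    exact ⟨_, Nat.xor_lt_two_pow hn hm, ev_xor vv _ _ _⟩
  | smul a x _ hx =>
    obtain ⟨n, hn, rfl⟩ := hx
    have ha : a = 0 ∨ a = 1 := by revert a; decide
    rcases ha with rfl | rfl
    · exact ⟨0, by norm_num, by rw [ev_zero, zero_smul]⟩
    · exact ⟨n, hn, by rw [one_smul]⟩

theorem inj_of_le {β : V →ₗ[ZMod 2] V →ₗ[ZMod 2] V} (hβ : Brk ρ β) (e : F4 ≃+* F) {W : Submodule (ZMod 2) V} {φ : M3 F → V}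
    (h1 : ∀ X Y, HF X → HF Y → φ (X + Y) = φ X + φ Y) (h2 : ∀ v, v ∈ W ↔ ∃ X, HF X ∧ φ X = v)
    (h : 36 ≤ Module.finrank (ZMod 2) (bsp β W)) : ∀ n < 2 ^ 36, ev (cl (brA β) (el e φ)) n = 0 → n = 0 := by
  have hfin : Finite V := Module.finite_of_finite (ZMod 2)
  let f : Fin (2 ^ 36) → bsp β W := fun k => ⟨ev (cl (brA β) (el e φ)) k, cl_mem β e h2 k⟩
  have hf : Function.Surjective f := by
    rintro ⟨v, hv⟩
    obtain ⟨n, hn, h3⟩ := bsp_sub hβ e h1 h2 v hv
    exact ⟨⟨n, hn⟩, Subtype.ext h3⟩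
  have hc : Nat.card (Fin (2 ^ 36)) ≤ Nat.card (bsp β W) := by
    rw [Nat.card_eq_fintype_card, Fintype.card_fin, card_sub]
    exact Nat.pow_le_pow_right (by norm_num) h
  have hb := (hf.bijective_of_nat_card_le hc).1
  intro n hn h0
  have h3 : f ⟨n, hn⟩ = f ⟨0, by norm_num⟩ := by
    apply Subtype.ext
    show ev _ n = ev _ 0
    rw [h0, ev_zero]
  exact congrArg Fin.val (hb h3)

omit [Module.Finite (ZMod 2) V] in
theorem bsp_inv {β : V →ₗ[ZMod 2] V →ₗ[ZMod 2] V} (hβ : Brk ρ β) {W : Submodule (ZMod 2) V} (hW : Inv ρ W) :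
    Inv ρ (bsp β W) := by
  intro g w hw
  unfold bsp at hw ⊢
  induction hw using Submodule.span_induction with
  | mem x hx =>
    obtain ⟨x, hx, y, hy, rfl⟩ := hx
    apply Submodule.subset_span
    exact ⟨_, hW g x hx, _, hW g y hy, (hβ.inv g x y).symm⟩
  | zero => rw [map_zero]; exact Submodule.zero_mem _
  | add x y _ _ hx hy => rw [map_add]; exact Submodule.add_mem _ hx hy
  | smul a x _ hx => rw [map_smul]; exact Submodule.smul_mem _ _ hx

omit [Fintype F] [Module.Finite (ZMod 2) V] in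
theorem nine_inv (e : F4 ≃+* F) {b : Bool} {W : Submodule (ZMod 2) V} (hW : IsNine ρ b W) : Inv ρ W := by
  obtain ⟨φ, -, -, h2, h3⟩ := hW
  intro g w hw
  obtain ⟨X, hX, rfl⟩ := (h2 w).1 hw
  rw [h3 g X hX, h2]
  exact ⟨_, HF_hact e _ X hX, rfl⟩

/-- (I-Lc) without the dimensions -/
theorem lam_emb_of (hF : Fintype.card F = 4) {β : V →ₗ[ZMod 2] V →ₗ[ZMod 2] V} (hβ : Brk ρ β) {b : Bool}
    {W : Submodule (ZMod 2) V} (hW : IsNine ρ b W) (h : 36 ≤ Module.finrank (ZMod 2) (bsp β W)) :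
    Inv ρ (bsp β W) ∧ ∃ N, IsNine ρ (!b) N ∧ N ≤ bsp β W ∧
      ∀ X : Submodule (ZMod 2) V, Inv ρ X → X ≤ bsp β W → X ≠ ⊥ → N ≤ X := by
  obtain ⟨e⟩ := ringEq hF
  refine ⟨bsp_inv hβ (nine_inv e hW), ?_⟩
  obtain ⟨φ, h1, -, h2, h3⟩ := hW
  have hS := sys_of e b φ h1 h3
  have hinj := inj_of_le hβ e h1 h2 h
  have hd := hS.dual vv hβ.alt (br := brA β) (brA_eqv hβ e b)
  have he : ∀ n, ev (Ep.map (ev (cl (brA β) (el e φ)))) n = ev (cl (brA β) (el e φ)) (act Ep n) := fun n =>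
    ev_map_ev vv _ _ _
  have hlt : ∀ n, act Ep n < 2 ^ 36 := fun n => act_lt _ _ _ Ep_lt
  let N : Submodule (ZMod 2) V :=
    { carrier := {v | ∃ n < 2 ^ 9, ev (Ep.map (ev (cl (brA β) (el e φ)))) n = v}
      add_mem' := by
        rintro x y ⟨n, hn, rfl⟩ ⟨m, hm, rfl⟩
        exact ⟨_, Nat.xor_lt_two_pow hn hm, ev_xor vv _ _ _⟩
      zero_mem' := ⟨0, by norm_num, ev_zero _⟩
      smul_mem' := by
        rintro a x ⟨n, hn, rfl⟩
        have ha : a = 0 ∨ a = 1 := by revert a; decide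
        rcases ha with rfl | rfl
        · exact ⟨0, by norm_num, by rw [ev_zero, zero_smul]⟩
        · exact ⟨n, hn, by rw [one_smul]⟩ }
  have hN : ∀ v, v ∈ N ↔ ∃ n < 2 ^ 9, ev (Ep.map (ev (cl (brA β) (el e φ)))) n = v := fun v => Iff.rfl
  refine ⟨N, dual_nine e b _ hd ?_ N hN, ?_, ?_⟩
  · intro n hn h0
    rw [he] at h0
    exact Ep_inj n hn (hinj _ (hlt n) h0)
  · intro v hv
    obtain ⟨n, hn, rfl⟩ := (hN v).1 hv
    rw [he]
    exact cl_mem β e h2 _
  · intro X hX hXle hX0 v hv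
    obtain ⟨n, hn, rfl⟩ := (hN v).1 hv
    obtain ⟨w, hw, hw0⟩ := (Submodule.ne_bot_iff X).1 hX0
    obtain ⟨n0, hn0, h4⟩ := bsp_sub hβ e h1 h2 w (hXle hw)
    have hK := hS.stab (br := brA β) vv hβ.alt (brA_eqv hβ e b) (fun v => v ∈ X) X.zero_mem
      (fun x y hx hy => X.add_mem hx hy) (fun g _ x hx => hX _ x hx)
    have hs := hK.soc n0 ⟨hn0, by rw [h4]; exact hw⟩ (by rintro rfl; rw [ev_zero] at h4; exact hw0 h4.symm)
    have hE : ∀ x ∈ Ep, x < 2 ^ 36 ∧ ev (cl (brA β) (el e φ)) x ∈ X := by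
      rw [← epc_ok]
      intro x hx
      obtain ⟨m, -, rfl⟩ := List.mem_map.1 hx
      exact hK.act _ hs m
    rw [he]
    exact (hK.act _ hE n).2

end

end Cfsg.Agent.H288.L34
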