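import Cfsg.Agent.H288.L34.Gen
import Cfsg.Agent.H288.L34.BrkDef

/-! `lam_gen` and `lam_fix` of helper691's list (S5917). -/

set_option autoImplicit false
set_option linter.constructorNameAsVariable false

namespace Cfsg.Agent.H288.L34

open Matrix Cfsg.Agent.H691.L34 Cfsg.Agent.SporadicA.FieldFour

theorem ltOK_of (cs : List ℕ) (s : ℕ) (h : ∀ c ∈ cs, c < 2 ^ s) : ltOK cs s = true := by
  induction cs with
  | nil => rfl
  | cons c cs ih =>
    rw [ltOK, Bool.and_eq_true]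
    refine ⟨?_, ih (fun x hx => h x (List.mem_cons_of_mem _ hx))⟩
    have := h c (List.mem_cons_self ..)
    exact Nat.ble_eq_true_of_le (by omega)

theorem wedge_lt (x y : ℕ) : wedge x y < 2 ^ 36 := by
  apply act_lt
  apply ltOK_of
  intro c hc
  obtain ⟨r, hr, rfl⟩ := List.mem_map.1 hc
  apply act_lt
  have : tab.all (fun r => ltOK r 36) = true := by decide +kernel
  exact List.all_eq_true.1 this r hr

theorem ev9 : ev B4 9 = !![F4.o, F4.z, F4.z; F4.z, F4.o, F4.z; F4.z, F4.z, F4.z] := by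
  ext i j
  rw [ev_entry]
  fin_cases i <;> fin_cases j <;> rfl

theorem ev264 : ev B4 264 = !![F4.z, F4.z, F4.z; F4.z, F4.o, F4.z; F4.z, F4.z, F4.o] := by
  ext i j
  rw [ev_entry]
  fin_cases i <;> fin_cases j <;> rfl

/-- mask of `u u*` -/
def Pm (x y z : F4) : ℕ :=
  code (F4.mul (F4.mul x x) x) (F4.mul x (F4.mul y y)) (F4.mul (F4.mul y y) y) (F4.mul x (F4.mul z z))
    (F4.mul y (F4.mul z z)) (F4.mul (F4.mul z z) z)

theorem Pm_ok : ∀ x y z : F4,
    eqb [evf (B4.map (fun X => X 0 0)) (Pm x y z), evf (B4.map (fun X => X 0 1)) (Pm x y z),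
      evf (B4.map (fun X => X 0 2)) (Pm x y z), evf (B4.map (fun X => X 1 0)) (Pm x y z),
      evf (B4.map (fun X => X 1 1)) (Pm x y z), evf (B4.map (fun X => X 1 2)) (Pm x y z),
      evf (B4.map (fun X => X 2 0)) (Pm x y z), evf (B4.map (fun X => X 2 1)) (Pm x y z),
      evf (B4.map (fun X => X 2 2)) (Pm x y z)]
     [F4.mul x (F4.mul x x), F4.mul x (F4.mul y y), F4.mul x (F4.mul z z),
      F4.mul y (F4.mul x x), F4.mul y (F4.mul y y), F4.mul y (F4.mul z z),
      F4.mul z (F4.mul x x), F4.mul z (F4.mul y y), F4.mul z (F4.mul z z)] = true := by decide +kernel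

theorem Pm_ev (u : Fin 3 → F4) : ev B4 (Pm (u 0) (u 1) (u 2)) = Matrix.of fun i j => u i * (u j * u j) := by
  have h := eq_of_eqb _ _ (Pm_ok (u 0) (u 1) (u 2))
  simp only [List.cons.injEq, and_true] at h
  obtain ⟨h1, h2, h3, h4, h5, h6, h7, h8, h9⟩ := h
  ext i j
  rw [ev_entry]
  fin_cases i <;> fin_cases j
  · exact h1
  · exact h2
  · exact h3
  · exact h4
  · exact h5
  · exact h6
  · exact h7
  · exact h8
  · exact h9

theorem beq_of (a b : ℕ) (h : a = b) : a.beq b = true := by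
  rw [h]; exact Nat.beq_refl b

/-- norm one -/
def un (x y z : F4) : Bool :=
  (F4.toNat (F4.add (F4.add (F4.mul (F4.mul x x) x) (F4.mul (F4.mul y y) y)) (F4.mul (F4.mul z z) z))).beq 1

/-- orthogonal -/
def orr (x y z x' y' z' : F4) : Bool :=
  (F4.toNat (F4.add (F4.add (F4.mul (F4.mul x x) x') (F4.mul (F4.mul y y) y')) (F4.mul (F4.mul z z) z'))).beq 0

/-- the check -/
def chku (x y z x' y' z' : F4) : Bool :=
  cond (un x y z && (un x' y' z' && orr x y z x' y' z'))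
    (bt.any fun t => (wedge (Pm x y z ^^^ Pm x' y' z') (265 ^^^ Pm x y z)).beq t) true

theorem chku_ok : ∀ x y z x' y' z' : F4, chku x y z x' y' z' = true := by decide +kernel

theorem toNat_one : F4.toNat F4.o = 1 := rfl

theorem toNat_zero : F4.toNat F4.z = 0 := rfl

theorem frame_ok (u v : Fin 3 → F4) (h1 : u 0 * u 0 * u 0 + u 1 * u 1 * u 1 + u 2 * u 2 * u 2 = 1)
    (h2 : v 0 * v 0 * v 0 + v 1 * v 1 * v 1 + v 2 * v 2 * v 2 = 1)
    (h3 : u 0 * u 0 * v 0 + u 1 * u 1 * v 1 + u 2 * u 2 * v 2 = 0) :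
    ∃ j < 4, wedge (Pm (u 0) (u 1) (u 2) ^^^ Pm (v 0) (v 1) (v 2)) (265 ^^^ Pm (u 0) (u 1) (u 2)) = bt.getD j 0 := by
  have h := chku_ok (u 0) (u 1) (u 2) (v 0) (v 1) (v 2)
  have k1 : un (u 0) (u 1) (u 2) = true := by
    have := congrArg F4.toNat h1
    have e : F4.toNat (1 : F4) = 1 := rfl
    rw [e] at this
    exact beq_of _ _ this
  have k2 : un (v 0) (v 1) (v 2) = true := by
    have := congrArg F4.toNat h2
    have e : F4.toNat (1 : F4) = 1 := rfl
    rw [e] at this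
    exact beq_of _ _ this
  have k3 : orr (u 0) (u 1) (u 2) (v 0) (v 1) (v 2) = true := by
    have := congrArg F4.toNat h3
    have e : F4.toNat (0 : F4) = 0 := rfl
    rw [e] at this
    exact beq_of _ _ this
  unfold chku at h
  rw [k1, k2, k3] at h
  simp only [Bool.and_self, cond_true, List.any_eq_true] at h
  obtain ⟨t, ht, h4⟩ := h
  have h5 := Nat.eq_of_beq_eq_true h4
  obtain ⟨j, hj, rfl⟩ := List.mem_iff_getElem.1 ht
  exact ⟨j, hj, by rw [h5, List.getD_eq_getElem _ _ hj]⟩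

section

variable {F : Type} [Field F] (e : F4 ≃+* F)

theorem d1_eq : (d1 : M3 F) = mu e (ev B4 9) := by
  rw [ev9]
  have h0 : e F4.z = 0 := map_zero e
  have h1 : e F4.o = 1 := map_one e
  ext i j
  rw [mu_apply]
  fin_cases i <;> fin_cases j <;> simp [d1, h0, h1]

theorem d2_eq : (d2 : M3 F) = mu e (ev B4 264) := by
  rw [ev264]
  have h0 : e F4.z = 0 := map_zero e
  have h1 : e F4.o = 1 := map_one e
  ext i j
  rw [mu_apply]
  fin_cases i <;> fin_cases j <;> simp [d2, h0, h1]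

include e in
theorem HF_d1 : HF (d1 : M3 F) := by rw [d1_eq e]; exact HF_ev e 9

include e in
theorem HF_d2 : HF (d2 : M3 F) := by rw [d2_eq e]; exact HF_ev e 264

end

section

variable {F : Type} [Field F] [Fintype F] {V : Type} [AddCommGroup V] [Module (ZMod 2) V]
  {ρ : Representation (ZMod 2) (G3 F) V}

theorem ringEq (hF : Fintype.card F = 4) : Nonempty (F4 ≃+* F) :=
  ⟨FiniteField.ringEquivOfCardEq (F4.card_eq.trans hF.symm)⟩

omit [Fintype F] in
theorem brA_eqv {β : V →ₗ[ZMod 2] V →ₗ[ZMod 2] V} (hβ : Brk ρ β) (e : F4 ≃+* F) (b : Bool) :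
    ∀ g < 10, ∀ x y, rr e ρ b g (brA β x y) = brA β (rr e ρ b g x) (rr e ρ b g y) :=
  fun _ _ x y => hβ.inv _ x y

theorem beta_ev {β : V →ₗ[ZMod 2] V →ₗ[ZMod 2] V} (hβ : Brk ρ β) (e : F4 ≃+* F) {φ : M3 F → V}
    (h1 : ∀ X Y, HF X → HF Y → φ (X + Y) = φ X + φ Y) (n m : ℕ) :
    β (φ (mu e (ev B4 n))) (φ (mu e (ev B4 m))) = ev (cl (brA β) (el e φ)) (wedge n m) := by
  have h2 := br_ev vv (brA β) hβ.alt (el e φ) (by unfold el; rw [List.length_map]; rfl) n m
  rw [phi_ev e φ h1, phi_ev e φ h1, ← h2]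
  rfl

/-- (I-La) the exterior square is generated by `d1 ∧ d2` -/
theorem lam_gen (hF : Fintype.card F = 4) {β : V →ₗ[ZMod 2] V →ₗ[ZMod 2] V} (hβ : Brk ρ β) {b : Bool}
    {W : Submodule (ZMod 2) V} {φ : M3 F → V} (h1 : ∀ X Y, HF X → HF Y → φ (X + Y) = φ X + φ Y)
    (h2 : ∀ v, v ∈ W ↔ ∃ X, HF X ∧ φ X = v) (h3 : ∀ (g : G3 F) X, HF X → ρ g (φ X) = φ (hact (tw b g) X))
    (h : β (φ d1) (φ d2) = 0) : ∀ x ∈ W, ∀ y ∈ W, β x y = 0 := by
  obtain ⟨e⟩ := ringEq hF
  have hS := sys_of e b φ h1 h3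
  rw [d1_eq e, d2_eq e, beta_ev hβ e h1] at h
  have hw : wedge 9 264 = 1073758212 := by decide +kernel
  rw [hw] at h
  have hz := hS.zero_of vv hβ.alt (brA_eqv hβ e b) h
  intro x hx y hy
  obtain ⟨X, hX, rfl⟩ := (h2 x).1 hx
  obtain ⟨Y, hY, rfl⟩ := (h2 y).1 hy
  obtain ⟨n, -, rfl⟩ := herm_ev e X hX
  obtain ⟨m, -, rfl⟩ := herm_ev e Y hY
  rw [beta_ev hβ e h1]
  exact hz _ (wedge_lt _ _)

theorem ev_mem (U : Submodule (ZMod 2) V) (l : List V) (hl : ∀ x ∈ l, x ∈ U) (n : ℕ) : ev l n ∈ U := by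
  induction l generalizing n with
  | nil => exact U.zero_mem
  | cons v l ih =>
    rw [ev_cons]
    apply U.add_mem
    · cases (n % 2).beq 1
      · exact U.zero_mem
      · exact hl v (List.mem_cons_self ..)
    · exact ih (fun x hx => hl x (List.mem_cons_of_mem _ hx)) _

omit [Fintype F] in
theorem cl_mem (β : V →ₗ[ZMod 2] V →ₗ[ZMod 2] V) (e : F4 ≃+* F) {W : Submodule (ZMod 2) V} {φ : M3 F → V}
    (h2 : ∀ v, v ∈ W ↔ ∃ X, HF X ∧ φ X = v) (n : ℕ) : ev (cl (brA β) (el e φ)) n ∈ bsp β W := by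
  apply ev_mem
  intro x hx
  obtain ⟨p, hp, rfl⟩ := List.mem_map.1 hx
  have hm : ∀ i : ℕ, (el e φ).getD i 0 ∈ W := by
    intro i
    by_cases hi : i < (el e φ).length
    · rw [List.getD_eq_getElem _ _ hi]
      have hmem : (el e φ)[i] ∈ el e φ := List.getElem_mem _
      obtain ⟨X, hX, hX2⟩ := List.mem_map.1 hmem
      rw [h2]
      refine ⟨_, ?_, hX2⟩
      show ct _ = _
      rw [ct_mu, B4_herm _ hX]
    · rw [List.getD_eq_default _ _ (by omega)]; exact W.zero_mem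
  exact Submodule.subset_span ⟨_, hm _, _, hm _, rfl⟩

theorem card_sub [Module.Finite (ZMod 2) V] (U : Submodule (ZMod 2) V) : Nat.card U = 2 ^ Module.finrank (ZMod 2) U := by
  have := Module.natCard_eq_pow_finrank (K := ZMod 2) (V := U)
  rw [this, Nat.card_zmod]

theorem le_of_inj [Module.Finite (ZMod 2) V] (β : V →ₗ[ZMod 2] V →ₗ[ZMod 2] V) (e : F4 ≃+* F)
    {W : Submodule (ZMod 2) V} {φ : M3 F → V} (h2 : ∀ v, v ∈ W ↔ ∃ X, HF X ∧ φ X = v)
    (hi : ∀ n < 2 ^ 36, ev (cl (brA β) (el e φ)) n = 0 → n = 0) : 36 ≤ Module.finrank (ZMod 2) (bsp β W) := by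
  have hfin : Finite V := Module.finite_of_finite (ZMod 2)
  let f : Fin (2 ^ 36) → bsp β W := fun k => ⟨ev (cl (brA β) (el e φ)) k, cl_mem β e h2 k⟩
  have hf : Function.Injective f := by
    intro a c hac
    have h1 : ev (cl (brA β) (el e φ)) a.1 = ev (cl (brA β) (el e φ)) c.1 := congrArg Subtype.val hac
    have h3 : ev (cl (brA β) (el e φ)) (a.1 ^^^ c.1) = 0 := by rw [ev_xor vv, h1, vv]
    exact Fin.ext (Nat.xor_eq_zero_iff.1 (hi _ (Nat.xor_lt_two_pow a.2 c.2) h3))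
  have h3 := Nat.card_le_card_of_injective f hf
  rw [Nat.card_eq_fintype_card, Fintype.card_fin, card_sub] at h3
  exact (Nat.pow_le_pow_iff_right (by norm_num)).1 h3

end

theorem ct_ct {F : Type} [Field F] (e : F4 ≃+* F) (X : M3 F) : ct (ct X) = X := by
  ext i j
  simp only [ct, Matrix.transpose_apply, Matrix.map_apply]
  have h0 : ∀ x : F4, (x ^ 2) ^ 2 = x := by
    intro x
    have : ∀ x : F4, (x * x) * (x * x) = x := by decide
    rw [pow_two, pow_two]; exact this x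
  have h := congrArg e (h0 (e.symm (X i j)))
  rw [map_pow, map_pow, RingEquiv.apply_symm_apply] at h
  exact h

theorem unit_tw {F : Type} [Field F] (e : F4 ≃+* F) (b : Bool) (g : G3 F) (hg : hact g (1 : M3 F) = 1) :
    hact (tw b g) (1 : M3 F) = 1 := by
  cases b
  · exact hg
  · have h1 : g.1 * ct g.1 = 1 := by
      have := hg
      unfold hact at this
      rwa [Matrix.mul_one] at this
    have h2 : (g⁻¹ : G3 F).1 * g.1 = 1 := by
      have : (g⁻¹ * g : G3 F).1 = (1 : G3 F).1 := by rw [inv_mul_cancel]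
      exact this
    have h3 : ct g.1 = (g⁻¹ : G3 F).1 := by
      calc ct g.1 = ((g⁻¹ : G3 F).1 * g.1) * ct g.1 := by rw [h2, Matrix.one_mul]
        _ = (g⁻¹ : G3 F).1 * (g.1 * ct g.1) := Matrix.mul_assoc _ _ _
        _ = _ := by rw [h1, Matrix.mul_one]
    have h4 : ct ((g⁻¹ : G3 F).1.transpose) = g.1.transpose := by
      have h5 : ct ((g⁻¹ : G3 F).1) = g.1 := by rw [← h3, ct_ct e]
      have h6 : ∀ X : M3 F, ct X.transpose = (ct X).transpose := fun X => rfl
      rw [h6, h5]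
    show (it g).1 * 1 * ct (it g).1 = 1
    show (g⁻¹ : G3 F).1.transpose * 1 * ct ((g⁻¹ : G3 F).1.transpose) = 1
    rw [Matrix.mul_one, h4, ← Matrix.transpose_mul]
    have h7 : g.1 * (g⁻¹ : G3 F).1 = 1 := by
      have : (g * g⁻¹ : G3 F).1 = (1 : G3 F).1 := by rw [mul_inv_cancel]
      exact this
    rw [h7, Matrix.transpose_one]

/-- the image of the standard frame under a unitary matrix -/
theorem unit_frame {F : Type} [Field F] (e : F4 ≃+* F) (h : G3 F) (hh : hact h (1 : M3 F) = 1) :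
    ∃ n m, hact h d1 = mu e (ev B4 n) ∧ hact h d2 = mu e (ev B4 m) ∧ ∃ j < 4, wedge n m = bt.getD j 0 := by
  obtain ⟨A, hA⟩ := exists_mu e h.1
  have hA1 : A * ct A = 1 := by
    apply mu_inj e
    rw [map_mul, ← ct_mu, hA, map_one]
    unfold hact at hh
    rwa [Matrix.mul_one] at hh
  have hA2 : ct A * A = 1 := mul_eq_one_comm.1 hA1
  have hV : ∀ X : M3 F4, X + X = 0 := by
    intro X; ext i j
    have : ∀ a : F4, a + a = 0 := by decide
    exact this _
  have ent : ∀ a c : Fin 3, A 0 a * A 0 a * A 0 c + A 1 a * A 1 a * A 1 c + A 2 a * A 2 a * A 2 c =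
      (1 : M3 F4) a c := by
    intro a c
    rw [← hA2, Matrix.mul_apply, Fin.sum_univ_three]
    simp only [ct, Matrix.transpose_apply, Matrix.map_apply, pow_two]
  have h00 := ent 0 0
  have h11 := ent 1 1
  have h01 := ent 0 1
  rw [Matrix.one_apply_eq] at h00 h11
  rw [Matrix.one_apply_ne (by decide)] at h01
  obtain ⟨j, hj, hw⟩ := frame_ok (fun i => A i 0) (fun i => A i 1) h00 h11 h01
  refine ⟨_, _, ?_, ?_, j, hj, hw⟩
  · unfold hact
    rw [← hA, ct_mu, d1_eq e, ← map_mul, ← map_mul]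
    congr 1
    rw [ev_xor hV, Pm_ev (fun i => A i 0), Pm_ev (fun i => A i 1), ev9]
    ext i k
    rw [hx_eq]
    have : ∀ a c a' c' p q : F4, F4.add (F4.add (F4.mul (F4.add (F4.add (F4.mul a F4.o) (F4.mul c F4.z)) (F4.mul p F4.z))
        (F4.mul a' a')) (F4.mul (F4.add (F4.add (F4.mul a F4.z) (F4.mul c F4.o)) (F4.mul p F4.z)) (F4.mul c' c')))
        (F4.mul (F4.add (F4.add (F4.mul a F4.z) (F4.mul c F4.z)) (F4.mul p F4.z)) (F4.mul q q)) =
        F4.add (F4.mul a (F4.mul a' a')) (F4.mul c (F4.mul c' c')) := by decide +kernel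
    exact this (A i 0) (A i 1) (A k 0) (A k 1) (A i 2) (A k 2)
  · unfold hact
    rw [← hA, ct_mu, d2_eq e, ← map_mul, ← map_mul]
    congr 1
    have h264 : ev B4 264 = 1 + ev B4 1 := by
      rw [ev264]
      ext i j
      rw [Matrix.add_apply, ev_entry]
      fin_cases i <;> fin_cases j <;> rfl
    have h265 : ev B4 265 = 1 := by
      ext i j
      rw [ev_entry]
      fin_cases i <;> fin_cases j <;> rfl
    have h1 : ev B4 1 = !![F4.o, F4.z, F4.z; F4.z, F4.z, F4.z; F4.z, F4.z, F4.z] := by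
      ext i j
      rw [ev_entry]
      fin_cases i <;> fin_cases j <;> rfl
    rw [h264, Matrix.mul_add, Matrix.add_mul, Matrix.mul_one, hA1, ev_xor hV, h265, Pm_ev (fun i => A i 0), h1]
    congr 1
    ext i k
    rw [hx_eq]
    have : ∀ a c a' c' p q : F4, F4.add (F4.add (F4.mul (F4.add (F4.add (F4.mul a F4.o) (F4.mul c F4.z)) (F4.mul p F4.z))
        (F4.mul a' a')) (F4.mul (F4.add (F4.add (F4.mul a F4.z) (F4.mul c F4.z)) (F4.mul p F4.z)) (F4.mul c' c')))
        (F4.mul (F4.add (F4.add (F4.mul a F4.z) (F4.mul c F4.z)) (F4.mul p F4.z)) (F4.mul q q)) =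
        F4.mul a (F4.mul a' a') := by decide +kernel
    exact this (A i 0) (A i 1) (A k 0) (A k 1) (A i 2) (A k 2)

section

variable {F : Type} [Field F] [Fintype F] {V : Type} [AddCommGroup V] [Module (ZMod 2) V] [Module.Finite (ZMod 2) V]
  {ρ : Representation (ZMod 2) (G3 F) V}

omit [Fintype F] [Module.Finite (ZMod 2) V] in
theorem fix_all (e : F4 ≃+* F) (b : Bool) (v : V) (h : ∀ k < 10, rr e ρ b k v = v) : ∀ g, ρ g v = v := by
  have h1 : ∀ g, ρ (tw b g) v = v := by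
    apply gen_ind e (fun g => ρ (tw b g) v = v)
    · rw [map_one, map_one]; rfl
    · intro x y hx hy
      rw [map_mul, map_mul]
      show ρ (tw b x) (ρ (tw b y) v) = v
      rw [hy, hx]
    · exact h
  intro g
  have := h1 (tw b g)
  rwa [tw_tw] at this

/-- (I-Lb) no fixed vector in `V` and the exterior square not embedded -/
theorem lam_fix (hF : Fintype.card F = 4) {β : V →ₗ[ZMod 2] V →ₗ[ZMod 2] V} (hβ : Brk ρ β) (h0 : fixAll ρ = ⊥) {b : Bool}
    {W : Submodule (ZMod 2) V} {φ : M3 F → V} (h1 : ∀ X Y, HF X → HF Y → φ (X + Y) = φ X + φ Y)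
    (h2 : ∀ v, v ∈ W ↔ ∃ X, HF X ∧ φ X = v) (h3 : ∀ (g : G3 F) X, HF X → ρ g (φ X) = φ (hact (tw b g) X))
    (h : Module.finrank (ZMod 2) (bsp β W) < 36) (g : G3 F) (hg : hact g (1 : M3 F) = 1) :
    ρ g (β (φ d1) (φ d2)) = β (φ d1) (φ d2) := by
  obtain ⟨e⟩ := ringEq hF
  have hS := sys_of e b φ h1 h3
  have hd := hS.dich vv hβ.alt (br := brA β) (brA_eqv hβ e b) (by
    intro v hv
    have h4 : v ∈ fixAll ρ := fix_all e b v hv
    rw [h0] at h4
    exact (Submodule.mem_bot _).1 h4)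
  rcases hd with hd | hd
  · exact absurd (le_of_inj β e h2 hd) (by omega)
  obtain ⟨n, m, hn, hm, j, hj, hw⟩ := unit_frame e (tw b g) (unit_tw e b g hg)
  have hw0 : wedge 9 264 = 1073758212 := by decide +kernel
  rw [hβ.inv, h3 g _ (HF_d1 e), h3 g _ (HF_d2 e), hn, hm, beta_ev hβ e h1, hw, hd j hj, d1_eq e, d2_eq e,
    beta_ev hβ e h1, hw0]

end

end Cfsg.Agent.H288.L34
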