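import Cfsg.Agent.H288.L34.Tens
import Cfsg.Agent.H288.L34.QDat

/-! The exterior square of the 9: quotients of dimension less than 25 are of type 9 (S5917, type D). -/

set_option autoImplicit false
set_option linter.constructorNameAsVariable false

namespace Cfsg.Agent.H288.L34

open Matrix Cfsg.Agent.H691.L34 Cfsg.Agent.SporadicA.FieldFour

/-- a stable nonzero set contains a fixed vector of the unitriangular group -/
theorem min_fixed (N : ℕ) (Gs : ℕ → List ℕ) (hlen : ∀ g < 4, (Gs g).length = (pows N 0).length)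
    (htri : ∀ g < 4, triOK (List.zipWith (· ^^^ ·) (Gs g) (pows N 0)) 0 = true)
    (K : ℕ → Prop) (hl : ∀ n, K n → n < 2 ^ N) (hx : ∀ n m, K n → K m → K (n ^^^ m))
    (hg : ∀ g < 4, ∀ n, K n → K (act (Gs g) n)) (n0 : ℕ) (h0 : K n0) (h1 : n0 ≠ 0) :
    ∃ n, K n ∧ n ≠ 0 ∧ ∀ g < 4, act (Gs g) n = n := by
  classical
  have hex : ∃ n, K n ∧ n ≠ 0 := ⟨n0, h0, h1⟩
  obtain ⟨hK, hne⟩ := Nat.find_spec hex
  have hmin : ∀ m, K m → m < Nat.find hex → m = 0 := by
    intro m hm hlt
    by_contra hc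
    exact Nat.find_min hex hlt ⟨hm, hc⟩
  generalize Nat.find hex = n at hK hne hmin
  refine ⟨n, hK, hne, ?_⟩
  intro g hg'
  have h2' := htri g hg'
  have h3 : n < 2 ^ (Nat.log2 n + 1) := Nat.lt_log2_self
  have h4 : 2 ^ Nat.log2 n ≤ n := Nat.log2_self_le hne
  have h5 := act_tri _ 0 (Nat.log2 n) n h2' h3
  rw [Nat.add_zero] at h5
  have h6 := lt_of_lt_of_le h5 h4
  rw [act_zip _ _ (hlen g hg'), act_pows_zero N n (hl n hK)] at h6
  have h7 := hmin _ (hx _ _ (hg g hg' n hK) hK) h6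
  exact Nat.xor_eq_zero_iff.1 h7

/-- the action on the quotient of dimension 25 -/
def H (g : ℕ) : List ℕ := Ht.getD g []

/-- corrections -/
def HW (g : ℕ) : List ℕ := HWt.getD g []

/-- the submodule of dimension 11 -/
def k0l : List ℕ := soc ++ [1073758212 ^^^ 9061996064, 1073758212 ^^^ 9531925024]

theorem H_ok : ∀ g < 10, qs.map (act (G g)) = zx ((H g).map (act qs)) ((HW g).map (act k0l)) ∧
    ((H g).map (act qs)).length = ((HW g).map (act k0l)).length ∧ ltOK (H g) 25 = true := by decide +kernel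

theorem qab_ok : pows 36 0 = zx (qa.map (act qs)) (qb.map (act k0l)) ∧
    (qa.map (act qs)).length = (qb.map (act k0l)).length ∧ ltOK qa 25 = true := by decide +kernel

theorem H_tri : ∀ g < 4, (H g).length = (pows 25 0).length ∧
    triOK (List.zipWith (· ^^^ ·) (H g) (pows 25 0)) 0 = true := by decide +kernel

/-- differences -/
def DH (g : ℕ) : List ℕ := List.zipWith (· ^^^ ·) (H g) (pows 25 0)

/-- first two coordinates -/
def Q2 : List ℕ := [1, 2] ++ List.replicate 23 0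

theorem c25 : pows 25 0 = zx ((DH 0).map (act (L25.getD 0 []))) (zx ((DH 1).map (act (L25.getD 1 [])))
    (zx ((DH 2).map (act (L25.getD 2 []))) (zx ((DH 3).map (act (L25.getD 3 []))) Q2))) := by decide +kernel

theorem len25 : ∀ g < 4, (DH g).length = 25 := by decide +kernel

theorem act_zx' (l m : List ℕ) (hl : l.length = 25) (hm : m.length = 25) (n : ℕ) :
    act (zx l m) n = act l n ^^^ act m n := act_zip l m (by rw [hl, hm]) n

theorem len_zx' (l m : List ℕ) (hl : l.length = 25) (hm : m.length = 25) : (zx l m).length = 25 := by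
  unfold zx; rw [List.length_zipWith, hl, hm]; rfl

theorem act_Q2 (n : ℕ) : act Q2 n = 0 ∨ act Q2 n = 1 ∨ act Q2 n = 2 ∨ act Q2 n = 3 := by
  have h0 : ∀ k m : ℕ, act (List.replicate k 0) m = 0 := by
    intro k
    induction k with
    | zero => intro m; rfl
    | succ k ih => intro m; rw [List.replicate_succ, act_cons, ih]; cases (m % 2).beq 1 <;> rfl
  unfold Q2
  rw [List.cons_append, List.cons_append, List.nil_append, act_cons, act_cons, h0]
  cases (n % 2).beq 1 <;> cases (n / 2 % 2).beq 1 <;> decide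

theorem fix25 (n : ℕ) (hn : n < 2 ^ 25) (h : ∀ g < 4, act (H g) n = n) : n = act Q2 n := by
  have hD : ∀ g < 4, act (DH g) n = 0 := by
    intro g hg
    unfold DH
    rw [act_zip _ _ (H_tri g hg).1, act_pows_zero 25 n hn, h g hg, Nat.xor_self]
  have lm : ∀ g < 4, ∀ l : List ℕ, ((DH g).map (act l)).length = 25 := by
    intro g hg l; rw [List.length_map]; exact len25 g hg
  have lQ : Q2.length = 25 := by decide +kernel
  have h1 := act_pows_zero 25 n hn
  rw [c25, act_zx' _ _ (lm 0 (by norm_num) _) (len_zx' _ _ (lm 1 (by norm_num) _) (len_zx' _ _ (lm 2 (by norm_num) _)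
      (len_zx' _ _ (lm 3 (by norm_num) _) lQ))),
    act_zx' _ _ (lm 1 (by norm_num) _) (len_zx' _ _ (lm 2 (by norm_num) _) (len_zx' _ _ (lm 3 (by norm_num) _) lQ)),
    act_zx' _ _ (lm 2 (by norm_num) _) (len_zx' _ _ (lm 3 (by norm_num) _) lQ),
    act_zx' _ _ (lm 3 (by norm_num) _) lQ, ← act_act, ← act_act, ← act_act, ← act_act,
    hD 0 (by norm_num), hD 1 (by norm_num), hD 2 (by norm_num), hD 3 (by norm_num), act_zero, act_zero, act_zero,
    act_zero, Nat.zero_xor, Nat.zero_xor, Nat.zero_xor, Nat.zero_xor] at h1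
  exact h1.symm

theorem chain25 : act (H 5) 2 = 1 ∧ act (H 5) 3 ^^^ 3 = 1 := by decide +kernel

/-- successive images. -/
def bldH : List (ℕ × ℕ) → List ℕ → List ℕ
  | [], acc => acc
  | (g, j) :: ws, acc => bldH ws (acc ++ [act (H g) (acc.getD j 0)])

theorem bldH_mem {K : ℕ → Prop} (h0 : K 0) (h : ∀ g < 10, ∀ n, K n → K (act (H g) n)) (ws : List (ℕ × ℕ))
    (hw : ws.all (fun p => Nat.ble p.1 9) = true) (acc : List ℕ) (ha : ∀ x ∈ acc, K x) : ∀ x ∈ bldH ws acc, K x := by
  induction ws generalizing acc with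
  | nil => exact ha
  | cons p ws ih =>
    obtain ⟨g, j⟩ := p
    rw [List.all_cons, Bool.and_eq_true] at hw
    have hg : g < 10 := by
      have := Nat.le_of_ble_eq_true hw.1
      simp only at this
      omega
    apply ih hw.2
    intro x hx
    rcases List.mem_append.1 hx with hx | hx
    · exact ha x hx
    · rw [List.mem_singleton.1 hx]
      apply h g hg
      by_cases hj : j < acc.length
      · rw [List.getD_eq_getElem _ _ hj]; exact ha _ (List.getElem_mem hj)
      · rw [List.getD_eq_default _ _ (by omega)]; exact h0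

theorem sv16_ok : bldH sw16 [1] = sv16 ∧ sw16.all (fun p => Nat.ble p.1 9) = true := by decide +kernel

theorem ucd_ok : pows 25 0 = zx (uc.map (act us)) (ud.map (act sv16)) ∧
    (uc.map (act us)).length = (ud.map (act sv16)).length ∧ ltOK uc 9 = true := by decide +kernel

theorem ur_ok : ∀ g < 10, us.map (act (H (tau g))) = zx ((M g).map (act us)) ((ur.getD g []).map (act sv16)) ∧
    ((M g).map (act us)).length = ((ur.getD g []).map (act sv16)).length := by decide +kernel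

theorem one_ok : act qa 1073758212 = act us 265 := by decide +kernel

theorem us_len : us.length = 9 := by decide +kernel

theorem M_tri : ∀ g < 4, (M g).length = (pows 9 0).length ∧
    triOK (List.zipWith (· ^^^ ·) (M g) (pows 9 0)) 0 = true := by decide +kernel

theorem M_fix : ∀ n < 512, (act (M 0) n = n ∧ act (M 1) n = n ∧ act (M 2) n = n ∧ act (M 3) n = n) → n = 0 ∨ n = 1 := by
  decide +kernel

theorem M_one : 1 ^^^ (act (M 4) 1 ^^^ act (M 4) (act (M 4) 1)) = 265 := by decide +kernel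

theorem M_len2 : ∀ g < 10, ltOK (M g) 9 = true := M_lt

section

variable {V : Type*} [AddCommGroup V] (hV : ∀ v : V, v + v = 0) {ρ : ℕ → V →+ V} {br : V →+ V →+ V}

/-- the vector of a mask of the quotient -/
def EE (c : List V) (m : ℕ) : V := ev c (act qs m)

include hV in
theorem EE_xor (c : List V) (m k : ℕ) : EE c (m ^^^ k) = EE c m + EE c k := by
  unfold EE
  rw [act_xor, ev_xor hV]

theorem EE_zero (c : List V) : EE c 0 = 0 := by
  unfold EE
  rw [act_zero, ev_zero]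

include hV in
theorem EE_list (c : List V) (l : List ℕ) (h : ∀ x ∈ l, EE c x = 0) (n : ℕ) : EE c (act l n) = 0 := by
  induction l generalizing n with
  | nil => exact EE_zero c
  | cons a l ih =>
    rw [act_cons, EE_xor hV, ih (fun x hx => h x (List.mem_cons_of_mem _ hx)), add_zero]
    cases (n % 2).beq 1
    · exact EE_zero c
    · exact h a (List.mem_cons_self ..)

include hV in
theorem ev_list (c : List V) (l : List ℕ) (h : ∀ x ∈ l, ev c x = 0) (n : ℕ) : ev c (act l n) = 0 := by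
  induction l generalizing n with
  | nil => exact ev_zero c
  | cons a l ih =>
    rw [act_cons, ev_xor hV, ih (fun x hx => h x (List.mem_cons_of_mem _ hx)), add_zero]
    cases (n % 2).beq 1
    · exact ev_zero c
    · exact h a (List.mem_cons_self ..)

theorem zx_map (E : ℕ → V) (hE : ∀ a b, E (a ^^^ b) = E a + E b) (X Y : List ℕ) (hl : X.length = Y.length)
    (hY : ∀ y ∈ Y, E y = 0) : (zx X Y).map E = X.map E := by
  unfold zx
  induction X generalizing Y with
  | nil => rfl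
  | cons x X ih =>
    cases Y with
    | nil => simp at hl
    | cons y Y =>
      rw [List.zipWith_cons_cons, List.map_cons, List.map_cons, hE, hY y (List.mem_cons_self ..), add_zero,
        ih Y (by simpa using hl) (fun z hz => hY z (List.mem_cons_of_mem _ hz))]

include hV in
/-- the 11-dimensional submodule is killed -/
theorem Sys.k0 {e : List V} (h : Sys ρ e) (alt : ∀ x, br x x = 0)
    (eqv : ∀ g < 10, ∀ x y, ρ g (br x y) = br (ρ g x) (ρ g y)) (hfix : ∀ v, (∀ g < 10, ρ g v = v) → v = 0)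
    (n0 : ℕ) (hn : n0 < 2 ^ 36) (h0 : L34.ev (L34.cl br e) n0 = 0) (h1 : n0 ≠ 0) :
    ∀ x ∈ k0l, L34.ev (L34.cl br e) x = 0 := by
  have hS := h.stab hV alt eqv (fun v => v = 0) rfl (by intro x y hx hy; rw [hx, hy, add_zero])
    (by intro g hg x hx; rw [hx, map_zero])
  have hs := hS.soc n0 ⟨hn, h0⟩ h1
  have key : ∀ j < 3, L34.ev (L34.cl br e) (1073758212 ^^^ bt.getD (j + 1) 0) = 0 := by
    intro j hj
    apply hfix
    intro g hg
    rw [h.cl hV alt eqv g hg, dif_ok j hj g hg, ev_xor hV, (hS.act _ hs _).2, add_zero]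
  intro x hx
  unfold k0l at hx
  rcases List.mem_append.1 hx with hx | hx
  · exact (hs x hx).2
  · rcases List.mem_cons.1 hx with rfl | hx
    · exact key 0 (by norm_num)
    · rw [List.mem_singleton.1 hx]
      exact key 1 (by norm_num)

/-- the quotient of dimension 25 -/
structure Quo (ρ : ℕ → V →+ V) (c : List V) : Prop where
  eqv : ∀ g < 10, ∀ m, ρ g (EE c m) = EE c (act (H g) m)
  all : ∀ n < 2 ^ 36, ev c n = EE c (act qa n)

include hV in
theorem Sys.quo {e : List V} (h : Sys ρ e) (alt : ∀ x, br x x = 0)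
    (eqv : ∀ g < 10, ∀ x y, ρ g (br x y) = br (ρ g x) (ρ g y))
    (hk : ∀ x ∈ k0l, L34.ev (L34.cl br e) x = 0) : Quo ρ (L34.cl br e) where
  eqv g hg m := by
    obtain ⟨h1, h2, -⟩ := H_ok g hg
    unfold EE
    rw [h.cl hV alt eqv g hg, act_act, h1]
    unfold zx
    rw [act_zip _ _ h2, ev_xor hV, ← act_act, ← act_act, ev_list hV _ _ hk, add_zero]
  all n hn := by
    obtain ⟨h1, h2, -⟩ := qab_ok
    have h3 := act_pows_zero 36 n hn
    rw [h1] at h3
    unfold zx at h3
    rw [act_zip _ _ h2, ← act_act, ← act_act] at h3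
    conv_lhs => rw [← h3]
    rw [ev_xor hV, ev_list hV _ _ hk, add_zero]
    rfl

include hV in
theorem Quo.sv {c : List V} (h : Quo ρ c) (m0 : ℕ) (hm : m0 < 2 ^ 25) (h0 : EE c m0 = 0) (h1 : m0 ≠ 0) :
    ∀ x ∈ sv16, EE c x = 0 := by
  have hst : ∀ g < 10, ∀ n, (n < 2 ^ 25 ∧ EE c n = 0) → (act (H g) n < 2 ^ 25 ∧ EE c (act (H g) n) = 0) := by
    rintro g hg n ⟨hn, h2⟩
    exact ⟨act_lt _ _ _ (H_ok g hg).2.2, by rw [← h.eqv g hg, h2, map_zero]⟩
  obtain ⟨n, ⟨hn, hK⟩, hne, hf⟩ := min_fixed 25 H (fun g hg => (H_tri g hg).1) (fun g hg => (H_tri g hg).2)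
    (fun n => n < 2 ^ 25 ∧ EE c n = 0) (fun n hn => hn.1)
    (fun n m hn hm => ⟨Nat.xor_lt_two_pow hn.1 hm.1, by rw [EE_xor hV, hn.2, hm.2, add_zero]⟩)
    (fun g hg => hst g (by omega)) m0 ⟨hm, h0⟩ h1
  have h2 := fix25 n hn hf
  have h3 : EE c 1 = 0 := by
    rcases act_Q2 n with h4 | h4 | h4 | h4 <;> rw [h4] at h2
    · exact absurd h2 hne
    · rw [← h2]; exact hK
    · rw [← chain25.1, ← h2]; exact (hst 5 (by norm_num) n ⟨hn, hK⟩).2
    · rw [← chain25.2, ← h2, EE_xor hV, (hst 5 (by norm_num) n ⟨hn, hK⟩).2, hK, add_zero]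
  rw [← sv16_ok.1]
  apply bldH_mem (K := fun x => EE c x = 0) (EE_zero c)
  · intro g hg n hn
    rw [← h.eqv g hg, hn, map_zero]
  · exact sv16_ok.2
  · intro x hx
    rw [List.mem_singleton.1 hx]; exact h3

include hV in
theorem ev_us (c : List V) (n : ℕ) : ev (us.map (EE c)) n = EE c (act us n) := by
  have h1 : us.map (EE c) = (us.map (act qs)).map (ev c) := by
    rw [List.map_map]; rfl
  rw [h1, ev_map_ev hV]
  unfold EE
  rw [act_act]

include hV in
/-- the dual nine -/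
theorem Quo.nine {c : List V} (h : Quo ρ c) (hs : ∀ x ∈ sv16, EE c x = 0) :
    Sys (fun g => ρ (tau g)) (us.map (EE c)) where
  len := by rw [List.length_map]; exact us_len
  eq g hg := by
    have ht := (dual_ok g hg).2.1
    rw [List.map_map]
    have h1 : us.map (⇑(ρ (tau g)) ∘ EE c) = (us.map (act (H (tau g)))).map (EE c) := by
      rw [List.map_map]
      apply List.map_congr_left
      intro m _
      exact h.eqv _ ht m
    rw [h1, (ur_ok g hg).1, zx_map (EE c) (EE_xor hV c) _ _ (ur_ok g hg).2, List.map_map]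
    · apply List.map_congr_left
      intro m _
      exact (ev_us hV c m).symm
    · intro y hy
      obtain ⟨m, -, rfl⟩ := List.mem_map.1 hy
      exact EE_list hV c _ hs m

include hV in
theorem Quo.all9 {c : List V} (h : Quo ρ c) (hs : ∀ x ∈ sv16, EE c x = 0) (n : ℕ) (hn : n < 2 ^ 36) :
    ev c n = ev (us.map (EE c)) (act uc (act qa n)) := by
  rw [h.all n hn, ev_us hV]
  obtain ⟨h1, h2, -⟩ := ucd_ok
  have h3 := act_pows_zero 25 (act qa n) (act_lt _ _ _ qab_ok.2.2)
  rw [h1] at h3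
  unfold zx at h3
  rw [act_zip _ _ h2, ← act_act, ← act_act] at h3
  conv_lhs => rw [← h3]
  rw [EE_xor hV, EE_list hV c _ hs, add_zero]

include hV in
theorem Quo.one9 {c : List V} (h : Quo ρ c) : ev (us.map (EE c)) 265 = ev c 1073758212 := by
  rw [ev_us hV, h.all _ (by norm_num), one_ok]

include hV in
theorem Sys.inj9 {f : List V} (h : Sys ρ f) (h0 : L34.ev f 265 ≠ 0) : ∀ n < 2 ^ 9, L34.ev f n = 0 → n = 0 := by
  intro n hn hn0
  by_contra hne
  obtain ⟨m, ⟨hm, hK⟩, hm0, hf⟩ := min_fixed 9 M (fun g hg => (M_tri g hg).1) (fun g hg => (M_tri g hg).2)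
    (fun n => n < 2 ^ 9 ∧ L34.ev f n = 0) (fun n hn => hn.1)
    (fun n m hn hm => ⟨Nat.xor_lt_two_pow hn.1 hm.1, by rw [ev_xor hV, hn.2, hm.2, add_zero]⟩)
    (fun g hg n hn => ⟨act_lt _ _ _ (M_lt g (by omega)), by rw [← h.ev hV g (by omega), hn.2, map_zero]⟩)
    n ⟨hn, hn0⟩ hne
  have h1 := M_fix m hm ⟨hf 0 (by norm_num), hf 1 (by norm_num), hf 2 (by norm_num), hf 3 (by norm_num)⟩
  rcases h1 with rfl | rfl
  · exact hm0 rfl
  · apply h0
    have e1 : L34.ev f (act (M 4) 1) = 0 := by rw [← h.ev hV 4 (by norm_num), hK, map_zero]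
    have e2 : L34.ev f (act (M 4) (act (M 4) 1)) = 0 := by rw [← h.ev hV 4 (by norm_num), e1, map_zero]
    rw [← M_one, ev_xor hV, ev_xor hV, hK, e1, e2, add_zero, add_zero]

end

section

variable {F : Type} [Field F] {V : Type} [AddCommGroup V] [Module (ZMod 2) V]
  {ρ : Representation (ZMod 2) (G3 F) V} (e : F4 ≃+* F)

theorem ev265 : ev B4 265 = (1 : M3 F4) := by
  ext i j
  rw [ev_entry]
  fin_cases i <;> fin_cases j <;> rfl

/-- the dual nine as a function -/
theorem dual_fun (b : Bool) (f : List V) (hf : Sys (fun g => rr e ρ b (tau g)) f)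
    (hi : ∀ n < 2 ^ 9, ev f n = 0 → n = 0) (N : Submodule (ZMod 2) V)
    (hN : ∀ v, v ∈ N ↔ ∃ n < 2 ^ 9, ev f n = v) : ∃ ψ : M3 F → V,
      (∀ X Y, HF X → HF Y → ψ (X + Y) = ψ X + ψ Y) ∧ (∀ X, HF X → ψ X = 0 → X = 0) ∧
      (∀ v, v ∈ N ↔ ∃ X, HF X ∧ ψ X = v) ∧ (∀ (g : G3 F) X, HF X → ρ g (ψ X) = ψ (hact (tw (!b) g) X)) ∧
      ψ 1 = ev f 265 := by
  refine ⟨fun X => ev f (idx e (cjm e X)), ?_, ?_, ?_, ?_, ?_⟩
  · intro X Y hX hY
    show ev f (idx e (cjm e (X + Y))) = ev f _ + ev f _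
    rw [map_add, idx_add e _ _ (HF_cjm e X hX) (HF_cjm e Y hY), ev_xor vv]
  · intro X hX h
    obtain ⟨h1, h2⟩ := idx_spec e _ (HF_cjm e X hX)
    have h3 := hi _ h1 h
    rw [h3, ev_zero, map_zero] at h2
    rw [← cjm_cjm e X, h2, map_zero]
  · intro v
    rw [hN]
    constructor
    · rintro ⟨n, hn, rfl⟩
      refine ⟨cjm e (mu e (ev B4 n)), HF_cjm e _ (HF_ev e n), ?_⟩
      show ev f (idx e (cjm e (cjm e (mu e (ev B4 n))))) = _
      rw [cjm_cjm, idx_ev e n hn]
    · rintro ⟨X, hX, rfl⟩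
      exact ⟨_, (idx_spec e _ (HF_cjm e X hX)).1, rfl⟩
  · intro g X hX
    show ρ g (ev f (idx e (cjm e X))) = ev f (idx e (cjm e (hact (tw (!b) g) X)))
    rw [cjm_hact, ← psi_all e b f hf _ _ (HF_cjm e X hX), cj_cj, tw_it]
  · show ev f (idx e (cjm e 1)) = _
    rw [map_one]
    have h : (1 : M3 F) = mu e (ev B4 265) := by rw [ev265, map_one]
    rw [h, idx_ev e 265 (by norm_num)]

end

section

variable {F : Type} [Field F] [Fintype F] {V : Type} [AddCommGroup V] [Module (ZMod 2) V] [Module.Finite (ZMod 2) V]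
  {ρ : Representation (ZMod 2) (G3 F) V}

/-- the square of a module of type 9 in a module without fixed vectors is zero or of type 9, of dimension 25 or 36 -/
theorem lam_nine (hF : Fintype.card F = 4) {β : V →ₗ[ZMod 2] V →ₗ[ZMod 2] V} (hβ : Brk ρ β) (h0 : fixAll ρ = ⊥) {b : Bool}
    {W : Submodule (ZMod 2) V} {φ : M3 F → V} (h1 : ∀ X Y, HF X → HF Y → φ (X + Y) = φ X + φ Y)
    (h2 : ∀ v, v ∈ W ↔ ∃ X, HF X ∧ φ X = v) (h3 : ∀ (g : G3 F) X, HF X → ρ g (φ X) = φ (hact (tw b g) X))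
    (h : Module.finrank (ZMod 2) (bsp β W) < 25) (hne : β (φ d1) (φ d2) ≠ 0) :
    ∃ ψ : M3 F → V, (∀ X Y, HF X → HF Y → ψ (X + Y) = ψ X + ψ Y) ∧ (∀ X, HF X → ψ X = 0 → X = 0) ∧
      (∀ v, v ∈ bsp β W ↔ ∃ X, HF X ∧ ψ X = v) ∧ (∀ (g : G3 F) X, HF X → ρ g (ψ X) = ψ (hact (tw (!b) g) X)) ∧
      ψ 1 = β (φ d1) (φ d2) := by
  classical
  obtain ⟨e⟩ := ringEq hF
  have hS := sys_of e b φ h1 h3
  have eqv := brA_eqv hβ e b
  have hfix : ∀ v, (∀ g < 10, rr e ρ b g v = v) → v = 0 := by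
    intro v hv
    have h4 : v ∈ fixAll ρ := fix_all e b v hv
    rw [h0] at h4
    exact (Submodule.mem_bot _).1 h4
  have hfin : Finite V := Module.finite_of_finite (ZMod 2)
  have hi36 : ¬ ∀ n < 2 ^ 36, ev (cl (brA β) (el e φ)) n = 0 → n = 0 := fun hi => by
    have := le_of_inj β e h2 hi
    omega
  push Not at hi36
  obtain ⟨n0, hn0, hn1, hn2⟩ := hi36
  have hk := hS.k0 vv hβ.alt (br := brA β) eqv hfix n0 hn0 hn1 hn2
  have hQ := hS.quo vv hβ.alt (br := brA β) eqv hk
  have hi25 : ¬ ∀ m < 2 ^ 25, EE (cl (brA β) (el e φ)) m = 0 → m = 0 := by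
    intro hi
    let f : Fin (2 ^ 25) → bsp β W := fun k => ⟨EE (cl (brA β) (el e φ)) k, cl_mem β e h2 _⟩
    have hf : Function.Injective f := by
      intro a c hac
      have h1 : EE (cl (brA β) (el e φ)) a.1 = EE (cl (brA β) (el e φ)) c.1 := congrArg Subtype.val hac
      have h3 : EE (cl (brA β) (el e φ)) (a.1 ^^^ c.1) = 0 := by rw [EE_xor vv, h1, vv]
      exact Fin.ext (Nat.xor_eq_zero_iff.1 (hi _ (Nat.xor_lt_two_pow a.2 c.2) h3))
    have h3 := Nat.card_le_card_of_injective f hf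
    rw [Nat.card_eq_fintype_card, Fintype.card_fin, card_sub] at h3
    have := (Nat.pow_le_pow_iff_right (by norm_num)).1 h3
    omega
  push Not at hi25
  obtain ⟨m0, hm0, hm1, hm2⟩ := hi25
  have hs := hQ.sv vv m0 hm0 hm1 hm2
  have hN := hQ.nine vv hs
  have hw : wedge 9 264 = 1073758212 := by decide +kernel
  have hone : ev (us.map (EE (cl (brA β) (el e φ)))) 265 = β (φ d1) (φ d2) := by
    rw [hQ.one9 vv, d1_eq e, d2_eq e, beta_ev hβ e h1, hw]
  have hinj := hN.inj9 vv (by rw [hone]; exact hne)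
  obtain ⟨ψ, k1, k2, k3, k4, k5⟩ := dual_fun e b _ hN hinj (bsp β W) (by
    intro v
    constructor
    · intro hv
      obtain ⟨n, hn, rfl⟩ := bsp_sub hβ e h1 h2 v hv
      exact ⟨_, act_lt _ _ _ ucd_ok.2.2, (hQ.all9 vv hs n hn).symm⟩
    · rintro ⟨n, hn, rfl⟩
      rw [ev_us vv]
      exact cl_mem β e h2 _)
  exact ⟨ψ, k1, k2, k3, k4, by rw [k5, hone]⟩

end

end Cfsg.Agent.H288.L34
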