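import Cfsg.Agent.H288.L34.HfixD
import Cfsg.Agent.H904.L34.Last

/-! The values of the 2-map on the fixed vectors of two modules of type 9 (S5917, type D). -/

set_option autoImplicit false
set_option linter.constructorNameAsVariable false

namespace Cfsg.Agent.H288.L34

open Matrix Cfsg.Agent.H691.L34 Cfsg.Agent.SporadicA.FieldFour Cfsg.Agent.H592.L34
open Cfsg.Agent.H904.L34 (VE mem_VE RR SimpCases NineDims)

section

variable {F : Type} [Field F] [Fintype F] {V : Type} [AddCommGroup V] [Module (ZMod 2) V] [Module.Finite (ZMod 2) V]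
  {ρ : Representation (ZMod 2) (G3 F) V}

/-- traces do not meet invariant subspaces of dimension less than 64 -/
theorem tr_bot (hF : Fintype.card F = 4) (SC : SimpCases F) (ND : NineDims F) (hPL : PLh ρ) (hc : CT ρ) {n5 n7 : ℕ}
    (hn5 : n5 = 68 ∨ n5 = 48) (hn7 : n7 = 80 ∨ n7 = 38)
    (hd : Dims ρ (⊤ : Submodule (ZMod 2) V) 248 86 n5 n7) (E : Subgroup (G3 F))
    (hE : ∀ g : G3 F, g ∈ E ↔ (hact g (1 : M3 F) = 1 ∧ g ^ 3 = 1)) {z : G3 F} (hz : hact z (1 : M3 F) = 1) (hz2 : orderOf z = 2)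
    (h20 : Module.finrank (ZMod 2) ↥((⨅ g ∈ E, LinearMap.ker (ρ g - LinearMap.id)) ⊓ LinearMap.ker (ρ z - LinearMap.id)) = 20)
    (A : Submodule (ZMod 2) V) (hA : Inv ρ A) (h64 : Module.finrank (ZMod 2) A < 64) :
    (VE ρ E).map (ρ z - LinearMap.id) ⊓ A = ⊥ := by
  classical
  let _ : Fintype (G3 F) := Fintype.ofFinite _
  have hzz : z * z = 1 := by rw [← pow_two, ← hz2]; exact pow_orderOf_eq_one z
  have hz1 : z ≠ 1 := by
    rintro rfl
    rw [orderOf_one] at hz2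
    omega
  have hzE := H904.L34.mem_E_of hF hE hz
  have h32 := H904.L34.dims_E hF hc hE (W := ⊤) (fun _ _ _ => Submodule.mem_top) hd
  rw [inf_top_eq] at h32
  have hrk := H904.L34.finrank_map_add (ρ z - LinearMap.id) (VE ρ E)
  have h20' : Module.finrank (ZMod 2) (VE ρ E ⊓ LinearMap.ker (ρ z - LinearMap.id) : Submodule (ZMod 2) V) = 20 := h20
  have hA' : ∀ g, A ≤ A.comap (ρ g) := fun g w hw => hA g w hw
  obtain ⟨a, b, c, d, hdq, hr⟩ := H904.L34.main hF SC ND hE hzz hz1 hzE _ (V ⧸ A) (ρ.quotient A hA') le_rfl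
    (H904.L34.CT_quotient hc A hA')
  obtain ⟨a', b', c', d', p0, p3, p5, p7⟩ := hPL ⊥ A inv_bot hA bot_le
  rw [finrank_bot, zero_add] at p0
  have hdA : Dims ρ A (a' + 16 * b' + 9 * c' + 64 * d') (a' + 4 * b' + 3 * c' + 22 * d') (a' + 4 * b' + c' + 12 * d')
      (a' + 4 * b' + 10 * d') := by
    refine ⟨p0, ?_, ?_, ?_⟩
    · intro g h1 h2
      rw [p3 g h1 h2, fx_bot, zero_add]
    · intro g h1
      rw [p5 g h1, fx_bot, zero_add]
    · intro g h1
      rw [p7 g h1, fx_bot, zero_add]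
  have hall := H904.L34.dims_add A hA' hdA hdq
  obtain ⟨g3, hg3, hg3c⟩ := exists_three (F := F) hF
  obtain ⟨g5, hg5⟩ := exists_order (F := F) hF (p := 5) (by norm_num) (by norm_num)
  obtain ⟨g7, hg7⟩ := exists_order (F := F) hF (p := 7) (by norm_num) (by norm_num)
  have q0 := hd.1.symm.trans hall.1
  have q3 := (hd.2.1 _ hg3 hg3c).symm.trans (hall.2.1 _ hg3 hg3c)
  have q5 := (hd.2.2.1 _ hg5).symm.trans (hall.2.2.1 _ hg5)
  have q7 := (hd.2.2.2 _ hg7).symm.trans (hall.2.2.2 _ hg7)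
  have hd' : d' = 0 := by omega
  have hd3 : d = 3 := by
    clear hr hrk h32 h20' p3 p5 p7 hdA hall hdq
    rw [p0] at h64
    clear p0
    subst hd'
    rcases hn5 with rfl | rfl <;> rcases hn7 with rfl | rfl <;> omega
  exact H904.L34.inf_eq_bot_of_rank ρ (H904.L34.E_odd hF hE) A hA' z (by omega)

omit [Fintype F] [Module.Finite (ZMod 2) V] in
theorem imS_nine (e : F4 ≃+* F) {b : Bool} {φ : M3 F → V} (h : Nin ρ b φ) : IsNine ρ b (imS φ e h.add) :=
  ⟨φ, h.add, h.inj, fun _ => Iff.rfl, h.eqv⟩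

/-- the span of the values of the 2-map and a subspace -/
def qsp (e : F4 ≃+* F) {β : V →ₗ[ZMod 2] V →ₗ[ZMod 2] V} {sq : V → V} (hadd : ∀ x y, sq (x + y) = sq x + sq y + β x y)
    {φ : M3 F → V} (h1 : ∀ X Y, HF X → HF Y → φ (X + Y) = φ X + φ Y) (W : Submodule (ZMod 2) V)
    (hb : ∀ X Y, HF X → HF Y → β (φ X) (φ Y) ∈ W) : Submodule (ZMod 2) V where
  carrier := {v | ∃ X, HF X ∧ ∃ w ∈ W, sq (φ X) + w = v}
  add_mem' := by
    rintro x y ⟨X, hX, w, hw, rfl⟩ ⟨Y, hY, w', hw', rfl⟩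
    refine ⟨X + Y, HF_add _ _ (char_two e) hX hY, w + w' + β (φ X) (φ Y), W.add_mem (W.add_mem hw hw') (hb X Y hX hY), ?_⟩
    rw [h1 X Y hX hY, hadd]
    have h := vv (β (φ X) (φ Y))
    calc sq (φ X) + sq (φ Y) + β (φ X) (φ Y) + (w + w' + β (φ X) (φ Y)) =
        (sq (φ X) + w) + (sq (φ Y) + w') + (β (φ X) (φ Y) + β (φ X) (φ Y)) := by abel
      _ = _ := by rw [h, add_zero]
  zero_mem' := by
    have h0 : sq 0 = 0 := by
      have h := hadd 0 0
      rw [add_zero, vv, zero_add, map_zero] at h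
      exact h
    have h2 : φ 0 = 0 := by
      have h := h1 0 0 HF_zero HF_zero
      rw [add_zero] at h
      rw [h, vv]
    exact ⟨0, HF_zero, 0, W.zero_mem, by rw [h2, h0, add_zero]⟩
  smul_mem' := by
    rintro a x hx
    have ha : a = 0 ∨ a = 1 := by revert a; decide
    have h0 : sq 0 = 0 := by
      have h := hadd 0 0
      rw [add_zero, vv, zero_add, map_zero] at h
      exact h
    have h2 : φ 0 = 0 := by
      have h := h1 0 0 HF_zero HF_zero
      rw [add_zero] at h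
      rw [h, vv]
    rcases ha with rfl | rfl
    · exact ⟨0, HF_zero, 0, W.zero_mem, by rw [h2, h0, add_zero, zero_smul]⟩
    · rw [one_smul]; exact hx

/-- the 2-map on the fixed vector has no trace part -/
theorem k_zero {T : Submodule (ZMod 2) V}
    (hTR : ∀ A : Submodule (ZMod 2) V, Inv ρ A → Module.finrank (ZMod 2) A < 64 → T ⊓ A = ⊥) (e : F4 ≃+* F)
    {β : V →ₗ[ZMod 2] V →ₗ[ZMod 2] V} (hβ : Brk ρ β) {sq : V → V} (hadd : ∀ x y, sq (x + y) = sq x + sq y + β x y)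
    (hsi : ∀ g x, ρ g (sq x) = sq (ρ g x)) {b : Bool} {φ : M3 F → V} (hφ : Nin ρ b φ) {D : Submodule (ZMod 2) V}
    (hD : Inv ρ D) (hD18 : Module.finrank (ZMod 2) D ≤ 18) {k d : V} (hk : k ∈ T) (hd : d ∈ D) (h : sq (φ 1) = k + d)
    (h1F : HF (1 : M3 F)) : k = 0 := by
  classical
  have hfin : Finite V := Module.finite_of_finite (ZMod 2)
  have h2 : ∀ v, v ∈ imS φ e hφ.add ↔ ∃ X, HF X ∧ φ X = v := fun v => Iff.rfl
  have hN := nine_inv e (imS_nine e hφ)
  generalize imS φ e hφ.add = N at h2 hN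
  have hb36 : Module.finrank (ZMod 2) (bsp β N) ≤ 36 := by
    let f : Fin (2 ^ 36) → bsp β N := fun k => ⟨ev (cl (brA β) (el e φ)) k, cl_mem β e h2 _⟩
    have hf : Function.Surjective f := by
      rintro ⟨v, hv⟩
      obtain ⟨n, hn, h5⟩ := bsp_sub hβ e hφ.add h2 v hv
      exact ⟨⟨n, hn⟩, Subtype.ext h5⟩
    have hle := Nat.card_le_card_of_surjective f hf
    have e1 : Nat.card (Fin (2 ^ 36)) = 2 ^ 36 := by rw [Nat.card_eq_fintype_card, Fintype.card_fin]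
    rw [e1, card_sub] at hle
    exact (Nat.pow_le_pow_iff_right (by norm_num)).1 hle
  have hW : Inv ρ (bsp β N ⊔ D) := by
    intro g w hw
    obtain ⟨x, hx, y, hy, rfl⟩ := Submodule.mem_sup.1 hw
    rw [map_add]
    exact Submodule.add_mem_sup (bsp_inv hβ hN g x hx) (hD g y hy)
  have hW54 := Submodule.finrank_add_le_finrank_add_finrank (bsp β N) D
  have hbW : ∀ X Y, HF X → HF Y → β (φ X) (φ Y) ∈ bsp β N ⊔ D := fun X Y hX hY =>
    Submodule.mem_sup_left (Submodule.subset_span ⟨_, (h2 _).2 ⟨X, hX, rfl⟩, _, (h2 _).2 ⟨Y, hY, rfl⟩, rfl⟩)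
  have hDW : D ≤ bsp β N ⊔ D := le_sup_right
  generalize bsp β N ⊔ D = W at hW hW54 hbW hDW
  let A := qsp e hadd hφ.add W hbW
  have hA : Inv ρ A := by
    rintro g v ⟨X, hX, w, hw, rfl⟩
    refine ⟨hact (tw b g) X, HF_hact e _ X hX, ρ g w, hW g w hw, ?_⟩
    rw [map_add, hsi, hφ.eqv g X hX]
  have hA64 : Module.finrank (ZMod 2) A < 64 := by
    let f : Fin (2 ^ 9) × W → A := fun p => ⟨sq (φ (mu e (ev B4 p.1))) + p.2, _, HF_ev e _, p.2, p.2.2, rfl⟩
    have hf : Function.Surjective f := by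
      rintro ⟨v, X, hX, w, hw, rfl⟩
      obtain ⟨n, hn, rfl⟩ := herm_ev e X hX
      exact ⟨⟨⟨n, hn⟩, ⟨w, hw⟩⟩, rfl⟩
    have hle := Nat.card_le_card_of_surjective f hf
    rw [Nat.card_prod, card_sub, card_sub, Nat.card_eq_fintype_card, Fintype.card_fin, ← pow_add] at hle
    have := (Nat.pow_le_pow_iff_right (by norm_num)).1 hle
    omega
  have hkA : k ∈ A := by
    have h5 : k = sq (φ 1) + d := by rw [h, add_assoc, vv, add_zero]
    exact ⟨1, h1F, d, hDW hd, h5.symm⟩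
  have h6 : k ∈ T ⊓ A := ⟨hk, hkA⟩
  rw [hTR A hA hA64] at h6
  exact (Submodule.mem_bot _).1 h6

/-- **(D6)** the values of the 2-map -/
theorem sq2_of (hF : Fintype.card F = 4) {T : Submodule (ZMod 2) V}
    (hTR : ∀ A : Submodule (ZMod 2) V, Inv ρ A → Module.finrank (ZMod 2) A < 64 → T ⊓ A = ⊥)
    {β : V →ₗ[ZMod 2] V →ₗ[ZMod 2] V} (hβ : Brk ρ β) {sq : V → V} (hadd : ∀ x y, sq (x + y) = sq x + sq y + β x y)
    (hsi : ∀ g x, ρ g (sq x) = sq (ρ g x))
    {K3 Z0 : Submodule (ZMod 2) V} (hK3 : K3 ≤ T) (hK3R : K3 ≤ VE ρ (RR hF)) (h3 : Module.finrank (ZMod 2) K3 = 3)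
    (hdec : ∀ v ∈ VE ρ (RR hF), ∃ k ∈ K3, ∃ t ∈ Z0, v = k + t) (hKZ : K3 ⊓ Z0 = ⊥)
    (hsK : ∀ k ∈ K3, sq k ∈ K3) (hsZ : ∀ t ∈ Z0, sq t ∈ Z0) (hsZ0 : ∀ t ∈ Z0, sq t = 0 → t = 0)
    (hbK : ∀ k ∈ K3, ∀ t ∈ Z0, β k t = 0) (hbZ : ∀ t ∈ Z0, ∀ t' ∈ Z0, β t t' = 0)
    (hev : ∀ t ∈ Z0, ∀ t' ∈ Z0, t ≠ t' → ¬ (sq t = t' ∧ sq t' = t))
    (hV5 : ∀ (b : Bool) (N N' : Submodule (ZMod 2) V), IsNine ρ b N → IsNine ρ (!b) N' →
      Module.finrank (ZMod 2) (VE ρ (RR hF)) ≤ 5) : Sq2 ρ sq := by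
  classical
  obtain ⟨e⟩ := ringEq hF
  have h1F : HF (1 : M3 F) := by
    have h : (1 : M3 F) = mu e (ev B4 265) := by rw [ev265, map_one]
    rw [h]; exact HF_ev e 265
  have h10 : (1 : M3 F) ≠ 0 := one_ne_zero
  have hRf : ∀ (b : Bool) (φ : M3 F → V), Nin ρ b φ → φ 1 ∈ VE ρ (RR hF) := by
    intro b φ h
    rw [mem_VE]
    intro g hg
    rw [h.eqv g 1 h1F, unit_tw e b g hg]
  have hsR : ∀ v ∈ VE ρ (RR hF), sq v ∈ VE ρ (RR hF) := by
    intro v hv
    rw [mem_VE] at hv ⊢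
    intro g hg
    rw [hsi, hv g hg]
  intro b φ ψ hφ hψ
  have hN9 := imS_nine e hφ
  have hN9' := imS_nine e hψ
  have hV5' := hV5 b _ _ hN9 hN9'
  have hnN : φ 1 ∈ imS φ e hφ.add := ⟨1, h1F, rfl⟩
  have hmN : ψ 1 ∈ imS ψ e hψ.add := ⟨1, h1F, rfl⟩
  have hn0 : φ 1 ≠ 0 := fun h => h10 (hφ.inj 1 h1F h)
  have hm0 : ψ 1 ≠ 0 := fun h => h10 (hψ.inj 1 h1F h)
  have hnR := hRf b φ hφ
  have hmR := hRf (!b) ψ hψ
  have hk1 := fun (D : Submodule (ZMod 2) V) (hD : Inv ρ D) (hD18 : Module.finrank (ZMod 2) D ≤ 18) (k d : V)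
    (hk : k ∈ T) (hd : d ∈ D) (h : sq (φ 1) = k + d) => k_zero hTR e hβ hadd hsi hφ hD hD18 hk hd h h1F
  have hk2 := fun (D : Submodule (ZMod 2) V) (hD : Inv ρ D) (hD18 : Module.finrank (ZMod 2) D ≤ 18) (k d : V)
    (hk : k ∈ T) (hd : d ∈ D) (h : sq (ψ 1) = k + d) => k_zero hTR e hβ hadd hsi hψ hD hD18 hk hd h h1F
  generalize imS φ e hφ.add = N at hN9 hnN
  generalize imS ψ e hψ.add = N' at hN9' hmN
  generalize φ 1 = n at hnN hn0 hnR hk1
  generalize ψ 1 = m at hmN hm0 hmR hk2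
  -- the two modules are disjoint
  have hNN : N ⊓ N' = ⊥ := by
    have s1 := H360.L34.nine_simp hF hN9
    have s2 := H360.L34.nine_simp hF hN9'
    rcases s1.2.2 _ (inv_inf s1.1 s2.1) inf_le_left with h | h
    · exact h
    · exfalso
      have hle : N ≤ N' := inf_eq_left.1 h
      rcases s2.2.2 _ s1.1 hle with h' | h'
      · exact s1.2.1 h'
      · rw [h'] at hN9
        cases b
        · exact H360.L34.nine_ne hF hN9 hN9'
        · exact H360.L34.nine_ne hF hN9' hN9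
  have hDi : Inv ρ (N ⊔ N') := by
    intro g w hw
    obtain ⟨x, hx, y, hy, rfl⟩ := Submodule.mem_sup.1 hw
    rw [map_add]
    exact Submodule.add_mem_sup (nine_inv e hN9 g x hx) (nine_inv e hN9' g y hy)
  have hD18 : Module.finrank (ZMod 2) (N ⊔ N' : Submodule (ZMod 2) V) ≤ 18 := by
    have h1 := Submodule.finrank_add_le_finrank_add_finrank N N'
    have h2 : Module.finrank (ZMod 2) N = 9 := (H360.L34.nine_dims hF hN9).1
    have h3 : Module.finrank (ZMod 2) N' = 9 := (H360.L34.nine_dims hF hN9').1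
    omega
  have hTD := hTR _ hDi (by omega)
  have hKD : ∀ x ∈ K3, x ∈ N ⊔ N' → x = 0 := by
    intro x h1 h2
    have h3 : x ∈ T ⊓ (N ⊔ N') := ⟨hK3 h1, h2⟩
    rw [hTD] at h3
    exact (Submodule.mem_bot _).1 h3
  have hnD : n ∈ N ⊔ N' := Submodule.mem_sup_left hnN
  have hmD : m ∈ N ⊔ N' := Submodule.mem_sup_right hmN
  -- the plane
  have hPD : Submodule.span (ZMod 2) {n} ⊔ Submodule.span (ZMod 2) {m} ≤ N ⊔ N' :=
    sup_le_sup ((Submodule.span_singleton_le_iff_mem _ _).2 hnN) ((Submodule.span_singleton_le_iff_mem _ _).2 hmN)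
  have hP2 : Module.finrank (ZMod 2) (Submodule.span (ZMod 2) {n} ⊔ Submodule.span (ZMod 2) {m} : Submodule (ZMod 2) V) = 2 := by
    have h1 := Submodule.finrank_sup_add_finrank_inf_eq (Submodule.span (ZMod 2) {n}) (Submodule.span (ZMod 2) {m})
    have h2 : Submodule.span (ZMod 2) {n} ⊓ Submodule.span (ZMod 2) {m} = ⊥ := by
      rw [eq_bot_iff, ← hNN]
      exact inf_le_inf ((Submodule.span_singleton_le_iff_mem _ _).2 hnN) ((Submodule.span_singleton_le_iff_mem _ _).2 hmN)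
    rw [h2, finrank_bot, finrank_span_singleton hn0, finrank_span_singleton hm0] at h1
    omega
  have hPel : ∀ d ∈ Submodule.span (ZMod 2) {n} ⊔ Submodule.span (ZMod 2) {m}, d = 0 ∨ d = n ∨ d = m ∨ d = n + m := by
    intro d hd
    obtain ⟨x, hx, y, hy, rfl⟩ := Submodule.mem_sup.1 hd
    obtain ⟨a, rfl⟩ := Submodule.mem_span_singleton.1 hx
    obtain ⟨c, rfl⟩ := Submodule.mem_span_singleton.1 hy
    have z2 : ∀ a : ZMod 2, a = 0 ∨ a = 1 := by decide
    rcases z2 a with rfl | rfl <;> rcases z2 c with rfl | rfl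
    · left; rw [zero_smul, zero_smul, add_zero]
    · right; right; left; rw [zero_smul, one_smul, zero_add]
    · right; left; rw [zero_smul, one_smul, add_zero]
    · right; right; right; rw [one_smul, one_smul]
  generalize hPe : Submodule.span (ZMod 2) {n} ⊔ Submodule.span (ZMod 2) {m} = P at hPD hP2 hPel
  have hPR : P ≤ VE ρ (RR hF) := by
    rw [← hPe]
    exact sup_le ((Submodule.span_singleton_le_iff_mem _ _).2 hnR) ((Submodule.span_singleton_le_iff_mem _ _).2 hmR)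
  have hall : K3 ⊔ P = VE ρ (RR hF) := by
    apply Submodule.eq_of_le_of_finrank_le (sup_le hK3R hPR)
    have h1 := Submodule.finrank_sup_add_finrank_inf_eq K3 P
    have h2 : K3 ⊓ P = ⊥ := by
      rw [eq_bot_iff]
      intro x hx
      exact (Submodule.mem_bot _).2 (hKD x hx.1 (hPD hx.2))
    rw [h2, finrank_bot] at h1
    omega
  -- the values
  have hvn : ∃ d ∈ P, sq n = d := by
    have h1 := hsR n hnR
    rw [← hall] at h1
    obtain ⟨k, hk, d, hd, h2⟩ := Submodule.mem_sup.1 h1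
    refine ⟨d, hd, ?_⟩
    rw [← h2, hk1 _ hDi hD18 k d (hK3 hk) (hPD hd) h2.symm, zero_add]
  have hvm : ∃ d ∈ P, sq m = d := by
    have h1 := hsR m hmR
    rw [← hall] at h1
    obtain ⟨k, hk, d, hd, h2⟩ := Submodule.mem_sup.1 h1
    refine ⟨d, hd, ?_⟩
    rw [← h2, hk2 _ hDi hD18 k d (hK3 hk) (hPD hd) h2.symm, zero_add]
  -- the decompositions
  obtain ⟨k1, hk1', t1, ht1, en⟩ := hdec n hnR
  obtain ⟨k2, hk2', t2, ht2, em⟩ := hdec m hmR
  have hz : ∀ x, x ∈ K3 → x ∈ Z0 → x = 0 := by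
    intro x h1 h2
    have h3 : x ∈ K3 ⊓ Z0 := ⟨h1, h2⟩
    rw [hKZ] at h3
    exact (Submodule.mem_bot _).1 h3
  have sn : sq n = sq k1 + sq t1 := by rw [en, hadd, hbK k1 hk1' t1 ht1, add_zero]
  have sm : sq m = sq k2 + sq t2 := by rw [em, hadd, hbK k2 hk2' t2 ht2, add_zero]
  have uniq : ∀ k ∈ K3, ∀ t ∈ Z0, ∀ k' ∈ K3, ∀ t' ∈ Z0, k + t = k' + t' → t = t' := by
    intro k hk t ht k' hk' t' ht' h
    have h4 : t + t' = k + k' := by
      have h5 := vv t'
      have h6 := vv k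
      calc t + t' = (k + k) + t + t' := by rw [h6, zero_add]
        _ = k + (k + t) + t' := by abel
        _ = k + (k' + t') + t' := by rw [h]
        _ = k + k' + (t' + t') := by abel
        _ = k + k' := by rw [h5, add_zero]
    have h7 := hz (t + t') (by rw [h4]; exact K3.add_mem hk hk') (Z0.add_mem ht ht')
    exact add_right_cancel (h7.trans (vv t').symm)
  have ht12 : t1 ≠ t2 := by
    intro h
    have h5 : n + m = k1 + k2 := by
      rw [en, em, h]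
      have h6 := vv t2
      calc k1 + t2 + (k2 + t2) = k1 + k2 + (t2 + t2) := by abel
        _ = _ := by rw [h6, add_zero]
    have h7 := hKD (n + m) (by rw [h5]; exact K3.add_mem hk1' hk2') (Submodule.add_mem _ hnD hmD)
    have h8 : n = m := add_right_cancel (h7.trans (vv m).symm)
    have h9 : n ∈ N ⊓ N' := ⟨hnN, h8 ▸ hmN⟩
    rw [hNN] at h9
    exact hn0 ((Submodule.mem_bot _).1 h9)
  have key : ∀ x k t, x ∈ N ⊔ N' → x ≠ 0 → k ∈ K3 → t ∈ Z0 → x = k + t → sq x = sq k + sq t → sq x ≠ 0 := by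
    intro x k t hx hx0 hk ht h1 h2 h3
    rw [h2] at h3
    have h4 : sq t = 0 := by
      apply hz _ _ (hsZ t ht)
      have h5 : sq t = sq k := by
        have h6 := vv (sq k)
        calc sq t = (sq k + sq k) + sq t := by rw [h6, zero_add]
          _ = sq k + (sq k + sq t) := by abel
          _ = sq k := by rw [h3, add_zero]
      rw [h5]
      exact hsK k hk
    have h5 := hsZ0 t ht h4
    rw [h5, add_zero] at h1
    exact hx0 (hKD x (h1 ▸ hk) hx)
  have n1 := key n k1 t1 hnD hn0 hk1' ht1 en sn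
  have n2 := key m k2 t2 hmD hm0 hk2' ht2 em sm
  obtain ⟨d, hd, hdn⟩ := hvn
  obtain ⟨d', hd', hdm⟩ := hvm
  refine ⟨?_, ?_, ?_, ?_⟩
  · rcases hPel d hd with h | h | h | h
    · exact absurd (hdn.trans h) n1
    · left; exact hdn.trans h
    · right; left; exact hdn.trans h
    · right; right; exact hdn.trans h
  · rcases hPel d' hd' with h | h | h | h
    · exact absurd (hdm.trans h) n2
    · left; exact hdm.trans h
    · right; left; exact hdm.trans h
    · right; right; exact hdm.trans h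
  · intro h
    rw [sn, sm] at h
    have h1 := uniq _ (hsK k1 hk1') _ (hsZ t1 ht1) _ (hsK k2 hk2') _ (hsZ t2 ht2) h
    apply ht12
    have h2 : sq (t1 + t2) = 0 := by rw [hadd, h1, vv, zero_add, hbZ t1 ht1 t2 ht2]
    exact add_right_cancel ((hsZ0 _ (Z0.add_mem ht1 ht2) h2).trans (vv t2).symm)
  · rintro ⟨h, h'⟩
    apply hev t1 ht1 t2 ht2 ht12
    refine ⟨?_, ?_⟩
    · apply uniq _ (hsK k1 hk1') _ (hsZ t1 ht1) _ hk2' _ ht2
      rw [← sn, h, em]
    · apply uniq _ (hsK k2 hk2') _ (hsZ t2 ht2) _ hk1' _ ht1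
      rw [← sm, h', en]

end

end Cfsg.Agent.H288.L34
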