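import Cfsg.Agent.H288.L34.Sq2

/-! Variant of `sq2_of` with the dimension of `Z0` (S5917, type D). -/

set_option autoImplicit false

namespace Cfsg.Agent.H288.L34

open Matrix Cfsg.Agent.H691.L34 Cfsg.Agent.SporadicA.FieldFour Cfsg.Agent.H592.L34
open Cfsg.Agent.H904.L34 (VE mem_VE RR SimpCases NineDims)

variable {F : Type} [Field F] [Fintype F] {V : Type} [AddCommGroup V] [Module (ZMod 2) V] [Module.Finite (ZMod 2) V]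
  {ρ : Representation (ZMod 2) (G3 F) V}

/-- **(D6)** the values of the 2-map, from `finrank Z0 = 2` -/
theorem sq2_of_two (hF : Fintype.card F = 4) {T : Submodule (ZMod 2) V}
    (hTR : ∀ A : Submodule (ZMod 2) V, Inv ρ A → Module.finrank (ZMod 2) A < 64 → T ⊓ A = ⊥)
    {β : V →ₗ[ZMod 2] V →ₗ[ZMod 2] V} (hβ : Brk ρ β) {sq : V → V} (hadd : ∀ x y, sq (x + y) = sq x + sq y + β x y)
    (hsi : ∀ g x, ρ g (sq x) = sq (ρ g x))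
    {K3 Z0 : Submodule (ZMod 2) V} (hK3 : K3 ≤ T) (hK3R : K3 ≤ VE ρ (RR hF)) (h3 : Module.finrank (ZMod 2) K3 = 3)
    (hZR : Z0 ≤ VE ρ (RR hF)) (h2 : Module.finrank (ZMod 2) Z0 = 2) (hKZ : K3 ⊓ Z0 = ⊥)
    (hsK : ∀ k ∈ K3, sq k ∈ K3) (hsZ : ∀ t ∈ Z0, sq t ∈ Z0) (hsZ0 : ∀ t ∈ Z0, sq t = 0 → t = 0)
    (hbK : ∀ k ∈ K3, ∀ t ∈ Z0, β k t = 0) (hbZ : ∀ t ∈ Z0, ∀ t' ∈ Z0, β t t' = 0)
    (hev : ∀ t ∈ Z0, ∀ t' ∈ Z0, t ≠ t' → ¬ (sq t = t' ∧ sq t' = t))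
    (hV5 : ∀ (b : Bool) (N N' : Submodule (ZMod 2) V), IsNine ρ b N → IsNine ρ (!b) N' →
      Module.finrank (ZMod 2) (VE ρ (RR hF)) ≤ 5) : Sq2 ρ sq := by
  intro b φ ψ hφ hψ
  obtain ⟨e⟩ := ringEq hF
  have h5 := hV5 b _ _ (imS_nine e hφ) (imS_nine e hψ)
  have hall : K3 ⊔ Z0 = VE ρ (RR hF) := by
    apply Submodule.eq_of_le_of_finrank_le (sup_le hK3R hZR)
    have h1 := Submodule.finrank_sup_add_finrank_inf_eq K3 Z0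
    rw [hKZ, finrank_bot] at h1
    omega
  refine sq2_of hF hTR hβ hadd hsi hK3 hK3R h3 ?_ hKZ hsK hsZ hsZ0 hbK hbZ hev hV5 b φ ψ hφ hψ
  intro v hv
  rw [← hall] at hv
  obtain ⟨k, hk, t, ht, h⟩ := Submodule.mem_sup.1 hv
  exact ⟨k, hk, t, ht, h.symm⟩

end Cfsg.Agent.H288.L34
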