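import Cfsg.Agent.H288.L34.LamEmb
import Cfsg.Agent.H288.L34.TDat

/-! The tensor product of the two modules of type 9: it has no composition factor of type 9 (S5917). -/

set_option autoImplicit false
set_option linter.constructorNameAsVariable false

namespace Cfsg.Agent.H288.L34

open Matrix Cfsg.Agent.H691.L34 Cfsg.Agent.SporadicA.FieldFour

/-- concatenated columns. -/
def tcol : ℕ → ℕ → ℕ → ℕ
  | 0, _, _ => 0
  | k + 1, x, y => (cond ((x % 2).beq 1) y 0) + 512 * tcol k (x / 2) y

/-- the `g`-th matrix on the tensor product. -/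
def MT (g : ℕ) : List ℕ := (M g).flatMap (fun x => (M (tau g)).map (fun y => tcol 9 x y))

section

variable {V : Type*} [AddCommGroup V] (hV : ∀ v : V, v + v = 0) {ρ : ℕ → V →+ V} {br : V →+ V →+ V}

theorem ev_append (l m : List V) (a b : ℕ) (ha : a < 2 ^ l.length) :
    ev (l ++ m) (a + 2 ^ l.length * b) = ev l a + ev m b := by
  induction l generalizing a b with
  | nil =>
    have h0 : a = 0 := by
      rw [List.length_nil, pow_zero] at ha; omega
    rw [h0, List.nil_append, List.length_nil, pow_zero, one_mul, zero_add]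
    show _ = 0 + _
    rw [zero_add]
  | cons v l ih =>
    rw [List.cons_append, ev_cons, ev_cons, List.length_cons]
    have h1 : (a + 2 ^ (l.length + 1) * b) % 2 = a % 2 := by
      rw [pow_succ, mul_assoc, mul_comm 2 b, ← mul_assoc]; omega
    have h2 : (a + 2 ^ (l.length + 1) * b) / 2 = a / 2 + 2 ^ l.length * b := by
      have : 2 ^ (l.length + 1) * b = 2 * (2 ^ l.length * b) := by ring
      rw [this]; omega
    have h3 : a / 2 < 2 ^ l.length := by
      rw [List.length_cons, pow_succ] at ha; omega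
    rw [h1, h2, ih _ _ h3, add_assoc]

/-- all brackets. -/
def tl (br : V →+ V →+ V) (e f : List V) : List V := e.flatMap (fun u => f.map (fun v => br u v))

theorem ev_tcol (e f : List V) (hf : f.length = 9) (x y : ℕ) (hy : y < 512) :
    ev (tl br e f) (tcol e.length x y) = br (ev e x) (ev f y) := by
  induction e generalizing x with
  | nil =>
    show ev [] _ = br 0 _
    rw [map_zero]; rfl
  | cons u e ih =>
    have h1 : tl br (u :: e) f = f.map (fun v => br u v) ++ tl br e f := rfl
    have h2 : (f.map (fun v => br u v)).length = 9 := by rw [List.length_map, hf]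
    have h3 : tcol (u :: e).length x y = (cond ((x % 2).beq 1) y 0) +
        2 ^ (f.map (fun v => br u v)).length * tcol e.length (x / 2) y := by rw [h2]; rfl
    have h4 : (cond ((x % 2).beq 1) y 0) < 2 ^ (f.map (fun v => br u v)).length := by
      rw [h2]; cases (x % 2).beq 1 <;> simp only [cond_true, cond_false] <;> omega
    rw [h1, h3, ev_append _ _ _ _ h4, ih, ev_cons, map_add, AddMonoidHom.add_apply]
    congr 1
    cases (x % 2).beq 1
    · simp only [cond_false]; rw [ev_zero, map_zero]; rfl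
    · simp only [cond_true]
      exact (map_ev (br u) f y).symm

include hV in
theorem tl_sys {e f : List V} (he : Sys ρ e) (hf : Sys (fun g => ρ (tau g)) f)
    (eqv : ∀ g < 10, ∀ x y, ρ g (br x y) = br (ρ g x) (ρ g y)) (g : ℕ) (hg : g < 10) (n : ℕ) :
    ρ g (ev (tl br e f) n) = ev (tl br e f) (act (MT g) n) := by
  rw [map_ev (ρ g), ← ev_map_ev hV]
  congr 1
  have h2 := (dual_ok g hg).2
  have hf2 : f.map (ρ g) = (M (tau g)).map (ev f) := by
    have := hf.eq (tau g) h2.1
    rwa [h2.2] at this
  have h3 : (tl br e f).map (ρ g) = (e.map (ρ g)).flatMap (fun u => (f.map (ρ g)).map (fun v => br u v)) := by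
    unfold tl
    rw [List.map_flatMap, List.flatMap_map]
    congr 1
    funext u
    rw [List.map_map, List.map_map]
    apply List.map_congr_left
    intro v _
    exact eqv g hg u v
  rw [h3, he.eq g hg, hf2]
  unfold MT
  rw [List.flatMap_map, List.map_flatMap]
  congr 1
  funext x
  rw [List.map_map, List.map_map]
  apply List.map_congr_left
  intro y hy
  have hy2 : y < 512 := by
    have h5 := M_lt (tau g) h2.1
    have : ∀ l : List ℕ, ltOK l 9 = true → ∀ y ∈ l, y < 512 := by
      intro l
      induction l with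
      | nil => intro _ y hy; exact absurd hy (List.not_mem_nil)
      | cons c l ih =>
        intro h y hy
        rw [ltOK, Bool.and_eq_true] at h
        rcases List.mem_cons.1 hy with rfl | hy
        · have := Nat.le_of_ble_eq_true h.1
          omega
        · exact ih h.2 y hy
    exact this _ h5 y hy
  have := ev_tcol (br := br) e f hf.len x y hy2
  rw [he.len] at this
  exact this.symm

end

/-- `1 + g6 g0 + g9 g7 g2` on masks -/
def Yf (n : ℕ) : ℕ := n ^^^ (act (MT 6) (act (MT 0) n) ^^^ act (MT 9) (act (MT 7) (act (MT 2) n)))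

theorem Ti_ok : Ti.map Yf = pows 81 0 := by decide +kernel

theorem Ti_lt : ltOK Ti 81 = true := by decide +kernel

theorem MT_lt : ∀ g < 10, ltOK (MT g) 81 = true := by decide +kernel

theorem Yf_zero : Yf 0 = 0 := by
  unfold Yf
  rw [act_zero, act_zero, act_zero, act_zero, act_zero]; rfl

theorem Yf_xor (n m : ℕ) : Yf (n ^^^ m) = Yf n ^^^ Yf m := by
  unfold Yf
  simp only [act_xor]
  generalize act (MT 6) (act (MT 0) n) = a
  generalize act (MT 6) (act (MT 0) m) = b
  generalize act (MT 9) (act (MT 7) (act (MT 2) n)) = c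
  generalize act (MT 9) (act (MT 7) (act (MT 2) m)) = d
  apply Nat.eq_of_testBit_eq
  intro i
  simp only [Nat.testBit_xor]
  cases n.testBit i <;> cases m.testBit i <;> cases a.testBit i <;> cases b.testBit i <;> cases c.testBit i <;>
    cases d.testBit i <;> rfl

theorem lin_act (Y : ℕ → ℕ) (h0 : Y 0 = 0) (hx : ∀ n m, Y (n ^^^ m) = Y n ^^^ Y m) (ds : List ℕ) (n : ℕ) :
    Y (act ds n) = act (ds.map Y) n := by
  induction ds generalizing n with
  | nil => exact h0
  | cons d ds ih =>
    rw [act_cons, hx, ih, List.map_cons, act_cons]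
    congr 1
    cases (n % 2).beq 1
    · exact h0
    · rfl

theorem Yf_Ti (n : ℕ) (hn : n < 2 ^ 81) : Yf (act Ti n) = n := by
  rw [lin_act Yf Yf_zero Yf_xor, Ti_ok, act_pows_zero 81 n hn]

theorem ker_ok : 302 ^^^ (act (M 6) (act (M 0) 302) ^^^ act (M 9) (act (M 7) (act (M 2) 302))) = 0 ∧
    233 ^^^ (act (M 0) (act (M 6) 233) ^^^ act (M 3) (act (M 1) (act (M 8) 233))) = 0 := by decide +kernel

section

variable {V : Type*} [AddCommGroup V] (hV : ∀ v : V, v + v = 0) {ρ : ℕ → V →+ V} {br : V →+ V →+ V}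

/-- the operator -/
def yop (ρ : ℕ → V →+ V) (v : V) : V := v + (ρ 6 (ρ 0 v) + ρ 9 (ρ 7 (ρ 2 v)))

include hV in
theorem yop_tl {e f : List V} (he : Sys ρ e) (hf : Sys (fun g => ρ (tau g)) f)
    (eqv : ∀ g < 10, ∀ x y, ρ g (br x y) = br (ρ g x) (ρ g y)) (n : ℕ) :
    yop ρ (ev (tl br e f) n) = ev (tl br e f) (Yf n) := by
  have h := fun g hg n => tl_sys (br := br) hV he hf eqv g hg n
  unfold yop Yf
  rw [h 0 (by norm_num), h 6 (by norm_num), h 2 (by norm_num), h 7 (by norm_num), h 9 (by norm_num), ev_xor hV,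
    ev_xor hV]

include hV in
/-- the operator is injective on the tensor product -/
theorem yop_inj {e f : List V} (he : Sys ρ e) (hf : Sys (fun g => ρ (tau g)) f)
    (eqv : ∀ g < 10, ∀ x y, ρ g (br x y) = br (ρ g x) (ρ g y)) (n : ℕ) (hn : n < 2 ^ 81)
    (h0 : yop ρ (ev (tl br e f) n) = 0) : ev (tl br e f) n = 0 := by
  let S : Set V := {v | ∃ n < 2 ^ 81, ev (tl br e f) n = v}
  have hS : S.Finite := by
    have : S ⊆ Set.range (fun k : Fin (2 ^ 81) => ev (tl br e f) k.1) := by
      rintro v ⟨n, hn, rfl⟩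
      exact ⟨⟨n, hn⟩, rfl⟩
    exact (Set.finite_range _).subset this
  have hlt : ∀ n < 2 ^ 81, Yf n < 2 ^ 81 := by
    intro n hn
    unfold Yf
    exact Nat.xor_lt_two_pow hn (Nat.xor_lt_two_pow (act_lt _ _ _ (MT_lt 6 (by norm_num)))
      (act_lt _ _ _ (MT_lt 9 (by norm_num))))
  have hmaps : Set.MapsTo (yop ρ) S S := by
    rintro v ⟨n, hn, rfl⟩
    exact ⟨_, hlt n hn, (yop_tl hV he hf eqv n).symm⟩
  have hsurj : Set.SurjOn (yop ρ) S S := by
    rintro v ⟨n, hn, rfl⟩
    refine ⟨ev (tl br e f) (act Ti n), ⟨_, act_lt _ _ _ Ti_lt, rfl⟩, ?_⟩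
    rw [yop_tl hV he hf eqv, Yf_Ti n hn]
  have hinj := ((hS.surjOn_iff_bijOn_of_mapsTo hmaps).1 hsurj).injOn
  refine hinj ⟨n, hn, rfl⟩ ⟨0, by norm_num, ev_zero _⟩ ?_
  rw [h0]
  unfold yop
  rw [map_zero, map_zero, map_zero, map_zero, map_zero, add_zero, add_zero]

include hV in
theorem yop_e {e : List V} (he : Sys ρ e) : yop ρ (ev e 302) = 0 := by
  have h := fun g hg n => he.ev hV g hg n
  unfold yop
  rw [h 0 (by norm_num), h 6 (by norm_num), h 2 (by norm_num), h 7 (by norm_num), h 9 (by norm_num), ← ev_xor hV,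
    ← ev_xor hV, ker_ok.1, ev_zero]

include hV in
theorem yop_f {f : List V} (hf : Sys (fun g => ρ (tau g)) f) : yop ρ (ev f 233) = 0 := by
  have h := fun g (hg : g < 10) n => hf.ev hV g hg n
  have h6 := h 0 (by norm_num)
  have h0 := h 6 (by norm_num)
  have h8 := h 2 (by norm_num)
  have h1 := h 7 (by norm_num)
  have h3 := h 9 (by norm_num)
  have h2 := h 8 (by norm_num)
  have h7 := h 1 (by norm_num)
  have h9 := h 3 (by norm_num)
  have e6 : tau 0 = 6 := by decide
  have e0 : tau 6 = 0 := by decide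
  have e2 : tau 8 = 2 := by decide
  have e7 : tau 1 = 7 := by decide
  have e9 : tau 3 = 9 := by decide
  simp only [e6, e0, e2, e7, e9] at h6 h0 h2 h7 h9
  unfold yop
  rw [h0, h6, h2, h7, h9, ← ev_xor hV, ← ev_xor hV, ker_ok.2, ev_zero]

/-- successive images. -/
def bldT : List (ℕ × ℕ) → List ℕ → List ℕ
  | [], acc => acc
  | (g, j) :: ws, acc => bldT ws (acc ++ [act (MT g) (acc.getD j 0)])

theorem bldT_mem {K : ℕ → Prop} (h0 : K 0) (h : ∀ g < 10, ∀ n, K n → K (act (MT g) n)) (ws : List (ℕ × ℕ))
    (hw : ws.all (fun p => Nat.ble p.1 9) = true) (acc : List ℕ) (ha : ∀ x ∈ acc, K x) : ∀ x ∈ bldT ws acc, K x := by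
  induction ws generalizing acc with
  | nil => exact ha
  | cons p ws ih =>
    obtain ⟨g, j⟩ := p
    rw [List.all_cons, Bool.and_eq_true] at hw
    have hg : g < 10 := by
      have := Nat.le_of_ble_eq_true hw.1
      simp only at this
      omega
    apply ih hw.2
    intro x hx
    rcases List.mem_append.1 hx with hx | hx
    · exact ha x hx
    · rw [List.mem_singleton.1 hx]
      apply h g hg
      by_cases hj : j < acc.length
      · rw [List.getD_eq_getElem _ _ hj]; exact ha _ (List.getElem_mem hj)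
      · rw [List.getD_eq_default _ _ (by omega)]; exact h0

theorem tv_ok : bldT tw0 [tcol 9 265 265] = tv ∧ tw0.all (fun p => Nat.ble p.1 9) = true := by decide +kernel

theorem tab_ok2 : pows 81 0 = zx (ta.map (act tv)) (tbb.map (act tcp)) := by decide +kernel

theorem tab_len : (ta.map (act tv)).length = (tbb.map (act tcp)).length := by decide +kernel

theorem tbb_lt : ltOK tbb 16 = true := by decide +kernel

include hV in
/-- if the bracket of the two fixed vectors is zero then the brackets lie in the image of a 16-dimensional space -/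
theorem small_of {e f : List V} (he : Sys ρ e) (hf : Sys (fun g => ρ (tau g)) f)
    (eqv : ∀ g < 10, ∀ x y, ρ g (br x y) = br (ρ g x) (ρ g y)) (h0 : br (ev e 265) (ev f 265) = 0) (n : ℕ)
    (hn : n < 2 ^ 81) : ∃ m < 2 ^ 16, ev (tl br e f) n = ev (tl br e f) (act tcp m) := by
  have hz : ∀ x ∈ tv, ev (tl br e f) x = 0 := by
    rw [← tv_ok.1]
    apply bldT_mem (K := fun x => ev (tl br e f) x = 0) (ev_zero _)
    · intro g hg n hn
      rw [← tl_sys hV he hf eqv g hg, hn, map_zero]
    · exact tv_ok.2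
    · intro x hx
      rw [List.mem_singleton.1 hx]
      have := ev_tcol (br := br) e f hf.len 265 265 (by norm_num)
      rw [he.len] at this
      rw [this, h0]
  have hz2 : ∀ (l : List ℕ), (∀ x ∈ l, ev (tl br e f) x = 0) → ∀ m, ev (tl br e f) (act l m) = 0 := by
    intro l
    induction l with
    | nil => intro _ m; exact ev_zero _
    | cons c l ih =>
      intro h m
      rw [act_cons, ev_xor hV, ih (fun x hx => h x (List.mem_cons_of_mem _ hx)), add_zero]
      cases (m % 2).beq 1
      · exact ev_zero _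
      · exact h c (List.mem_cons_self ..)
  refine ⟨act tbb n, act_lt _ _ _ tbb_lt, ?_⟩
  have h1 := act_pows_zero 81 n hn
  rw [tab_ok2] at h1
  unfold zx at h1
  rw [act_zip _ _ tab_len, ← act_act, ← act_act] at h1
  conv_lhs => rw [← h1]
  rw [ev_xor hV, hz2 tv hz, zero_add]

end

end Cfsg.Agent.H288.L34
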